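import Cfsg.Agent.H1.Misc
import Cfsg.Agent.H1.Fitting
import Cfsg.Agent.S0016

/-! Groups whose abelian subgroups of equal order are conjugate: passage to quotients. -/

set_option autoImplicit false

namespace H2.AbConj
open Subgroup H1
open scoped Pointwise commutatorElement

universe u
variable {G : Type*} [Group G] [Finite G]

def PA (G : Type*) [Group G] : Prop := ∀ A B : Subgroup G, IsMulCommutative A → IsMulCommutative B →
  Nat.card A = Nat.card B → ∃ g : G, B = A.map (MulAut.conj g).toMonoidHom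

theorem PA.mem (h : PA G) {N : Subgroup G} [hN : N.Normal] {E : Subgroup G} (hE : E ≤ N) (hc : IsMulCommutative E)
    {x : G} (hx : orderOf x = Nat.card E) : x ∈ N := by
  obtain ⟨g, hg⟩ := h E (zpowers x) hc inferInstance (by rw [Nat.card_zpowers, hx])
  obtain ⟨y, hy, e⟩ := hg.le (mem_zpowers x)
  exact e ▸ hN.conj_mem y (hE hy) g

theorem PA.mem' (h : PA G) {N : Subgroup G} [hN : N.Normal] {y : G} (hy : y ∈ N) {x : G} (hx : orderOf x = orderOf y) :
    x ∈ N := h.mem (zpowers_le.2 hy) inferInstance (by rw [Nat.card_zpowers, hx])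

theorem PA.quat (h : PA G) [hs : Group.IsSolvable G] {S : Subgroup G} {m : ℕ} (e : S ≃* QuaternionGroup (2 ^ (m + 2))) :
    False := by
  haveI : NeZero (2 ^ (m + 2)) := ⟨by positivity⟩
  have h1 : ∀ j, S ≤ derivedSeries G j := fun j => by
    induction j with
    | zero => exact le_top
    | succ j ih =>
    let f := S.subtype.comp e.symm.toMonoidHom
    have fi : Function.Injective f := S.subtype_injective.comp e.symm.injective
    have h2 : f (.a 1 ^ 2) ∈ derivedSeries G (j + 1) := by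
      have : (QuaternionGroup.a 1 ^ 2 : QuaternionGroup (2 ^ (m + 2))) =
          ⁅(QuaternionGroup.a 1 : QuaternionGroup (2 ^ (m + 2))), (QuaternionGroup.xa 0 : QuaternionGroup (2 ^ (m + 2)))⁆ := by
        rw [commutatorElement_def, eq_mul_inv_iff_mul_eq, eq_mul_inv_iff_mul_eq]
        simp [sq]
      rw [this, map_commutatorElement]
      exact commutator_mem_commutator (ih (e.symm _).2) (ih (e.symm _).2)
    have h3 : ∀ i, f (.xa i) ∈ derivedSeries G (j + 1) := fun i => h.mem' (pow_mem h2 (2 ^ m)) (by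
      rw [← map_pow, ← pow_mul, orderOf_injective f fi, orderOf_injective f fi, QuaternionGroup.orderOf_xa,
        orderOf_pow' _ (by positivity), QuaternionGroup.orderOf_a_one, show 2 * 2 ^ (m + 2) = 4 * (2 * 2 ^ m) by ring,
        Nat.gcd_mul_left_left, Nat.mul_div_cancel _ (by positivity)])
    intro s hs
    have : f (e ⟨s, hs⟩) ∈ derivedSeries G (j + 1) := by
      rcases e ⟨s, hs⟩ with i | i
      · have := mul_mem (inv_mem (h3 0)) (h3 (0 + i))
        rwa [← QuaternionGroup.xa_mul_a, map_mul, inv_mul_cancel_left] at this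
      · exact h3 i
    simpa [f] using this
  obtain ⟨j, hj⟩ := hs.solvable
  have := Nat.card_congr e.toEquiv
  rw [eq_bot_iff.2 ((h1 j).trans hj.le), card_bot, Nat.card_eq_fintype_card, QuaternionGroup.card] at this
  omega

theorem split {p : ℕ} [Fact p.Prime] {N A : Subgroup G} (hp : IsPGroup p N) (h1 : N ≤ A) (h2 : ⁅A, A⁆ ≤ N) :
    ∃ P R : Subgroup G, H1.IsSylowIn p P A ∧ N ≤ P ∧ R ≤ A ∧ R ⊔ P = A ∧ Nat.card R = P.relIndex A ∧ IsMulCommutative R := by
  obtain ⟨P, hP, hN⟩ := exists_isSylowIn_ge hp h1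
  obtain ⟨R, a1, a2, a3, a4⟩ := exists_complement_rel hP.le (fun a ha => mem_normalizer_iff_conj_mem.2 fun x hx => by
    simpa [commutatorElement_def] using P.mul_mem (hN (h2 (commutator_mem_commutator ha (hP.le hx)))) hx) hP.coprime
  exact ⟨P, R, hP, hN, a1, a3, a4, isMulCommutative_of_comm fun x hx y hy => commutatorElement_eq_one_iff_mul_comm.1
    (mem_bot.1 (a2.le ⟨R.commutator_le_self (commutator_mem_commutator hx hy),
      hN (h2 (commutator_mem_commutator (a1 hx) (a1 hy)))⟩))⟩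

theorem PA.step (h : PA G) {p : ℕ} [hp : Fact p.Prime] {N : Subgroup G} [hN : N.Normal] (h0 : N ≠ ⊥)
    (hc : IsMulCommutative N) (he : ∀ x ∈ N, x ^ p = 1) (hpN : IsPGroup p N) (hs : p ≠ 2 ∨ Group.IsSolvable G)
    {A B : Subgroup G} (hA : N ≤ A) (hB : N ≤ B) (hA' : ⁅A, A⁆ ≤ N) (hB' : ⁅B, B⁆ ≤ N) (hAB : Nat.card A = Nat.card B) :
    ∃ g : G, B = MulAut.conj g • A := by
  obtain ⟨P, R, a1, a2, a3, a4, a5, a6⟩ := split hpN hA hA'
  obtain ⟨Q, T, b1, b2, b3, b4, b5, b6⟩ := split hpN hB hB'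
  have c1 : Nat.card P = Nat.card Q := by rw [a1.card_eq, b1.card_eq, hAB]
  have c2 : Nat.card R = Nat.card T := Nat.eq_of_mul_eq_mul_left (Nat.card_pos (α := P)) (by
    rw [a5, card_mul_relIndex a1.le, c1, b5, card_mul_relIndex b1.le, hAB])
  obtain ⟨g, hg⟩ := h R T a6 b6 c2
  rw [← conj_smul_eq_map] at hg
  rcases eq_or_lt_of_le a2 with rfl | a7
  · exact ⟨g, by rw [← a4, ← b4, smul_sup, ← hg, ← eq_of_le_of_card_eq b2 c1,
      conj_smul_eq_self_iff.2 (le_normalizer_of_normal (mem_top g))]⟩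
  have b7 : N < Q := lt_of_le_of_ne b2 fun e => (card_lt_of_lt a7).ne (by rw [c1, e])
  obtain ⟨y, hy, y1⟩ := exists_mem_ne_one h0
  have oy := orderOf_eq_prime (he y hy) y1
  have m1 : ∀ x, x ^ p = 1 → x ∈ N := fun x hx => by
    rcases eq_or_ne x 1 with rfl | x1
    · exact one_mem _
    · exact h.mem' hy ((orderOf_eq_prime hx x1).trans oy.symm)
  have hy' : N = zpowers y := by
    by_contra h1
    obtain ⟨k, hk⟩ := hpN.exists_card_eq
    have h2 := card_lt_of_lt (lt_of_le_of_ne (zpowers_le.2 hy) (Ne.symm h1))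
    rw [Nat.card_zpowers, oy, hk, ← pow_one p, ← pow_mul, one_mul, Nat.pow_lt_pow_iff_right hp.out.one_lt] at h2
    obtain ⟨E, hE⟩ := Sylow.exists_subgroup_card_pow_prime p (G := N) (n := 2) (hk ▸ pow_dvd_pow p h2)
    have m2 : ∀ j x, x ^ p ^ j = 1 → x ∈ N := fun j => by
      induction j with
      | zero => exact fun x hx => by simp_all
      | succ j ih =>
      intro x hx
      have := he _ (ih (x ^ p) (by rwa [← pow_mul, ← pow_succ']))
      by_cases h3 : x ^ p = 1
      · exact m1 x h3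
      refine h.mem (map_subtype_le E) (isMulCommutative_of_le (map_subtype_le E) hc) ?_
      rw [card_map_of_injective N.subtype_injective, hE]
      exact orderOf_eq_prime_pow (by rwa [pow_one]) (by rwa [← pow_mul, ← sq] at this)
    obtain ⟨x, hx, hx'⟩ := SetLike.exists_of_lt a7
    obtain ⟨j, hj⟩ := a1.isPGroup ⟨x, hx⟩
    exact hx' (m2 j x (congrArg Subtype.val hj))
  have cN : Nat.card N = p := by rw [hy', Nat.card_zpowers, oy]
  have cen : ∀ {A P R : Subgroup G}, H1.IsSylowIn p P A → N < P → R ≤ A → Nat.card R = P.relIndex A → ⁅A, A⁆ ≤ N →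
      R ≤ centralizer (P : Set G) := fun {A P R} a1 a2 a3 a4 a5 => by
    refine le_centralizer_of_section ((commutator_mono a1.le a3).trans a5) (fun r hr => ?_)
      (by rw [cN, a4]; exact (hp.out.coprime_iff_not_dvd.2 a1.not_dvd).symm)
    obtain ⟨x, hx, hx'⟩ := SetLike.exists_of_lt a2
    obtain ⟨k, hk⟩ := a1.isPGroup.exists_card_eq
    have d1 : P ≤ centralizer (N : Set G) := by
      rw [hy', centralizer_zpowers]
      exact le_centralizer_of_coprime_totient (hy' ▸ le_normalizer_of_normal) (by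
        rw [hk, oy, Nat.totient_prime hp.out]
        exact ((Nat.coprime_self_sub_right hp.out.one_le).2 (Nat.coprime_one_right p)).pow_left k)
    have d2 := a5 (commutator_mem_commutator (a3 hr) (a1.le hx))
    have d3 : r * x ^ p * r⁻¹ = x ^ p := by
      have : Commute ⁅r, x⁆ x := d1 hx _ d2
      rw [← conj_pow, show r * x * r⁻¹ = ⁅r, x⁆ * x by simp [commutatorElement_def], this.mul_pow, he _ d2, one_mul]
    obtain ⟨j, hj⟩ := exists_orderOf_eq_pow a1.isPGroup (P.pow_mem hx p)
    obtain ⟨z, hz, oz⟩ := exists_pow_orderOf_eq (x := x ^ p) (d := p) (hj ▸ dvd_pow_self p fun e => hx' (m1 x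
      (orderOf_eq_one_iff.1 (by rw [hj, e, pow_zero]))))
    rw [← eq_of_le_of_card_eq (zpowers_le.2 (m1 z (oz ▸ pow_orderOf_eq_one z))) (by rw [Nat.card_zpowers, oz, cN]),
      centralizer_zpowers]
    exact centralizer_le_centralizer_of_mem_zpowers hz (mem_centralizer_singleton_iff.2 (mul_inv_eq_iff_eq_mul.1 d3))
  have a8 := cen a1 a7 a3 a5 hA'
  have b8 := cen b1 b7 b3 b5 hB'
  have ab : ∀ {P R : Subgroup G}, IsMulCommutative P → IsMulCommutative R → R ≤ centralizer (P : Set G) →
      IsMulCommutative (R ⊔ P : Subgroup G) := fun {P R} h1 h2 h3 => le_centralizer_iff_isMulCommutative.1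
    (sup_le (le_centralizer_iff.1 (sup_le (le_centralizer_iff_isMulCommutative.2 h2) (le_centralizer_iff.1 h3)))
      (le_centralizer_iff.1 (sup_le h3 (le_centralizer_iff_isMulCommutative.2 h1))))
  have fin : IsMulCommutative P → IsMulCommutative Q → ∃ g : G, B = MulAut.conj g • A := fun h1 h2 =>
    h A B (a4 ▸ ab h1 a6 a8) (b4 ▸ ab h2 b6 b8) hAB
  obtain ⟨S, hS⟩ := exists_isSylowIn p (⊤ : Subgroup G)
  have cyc : IsCyclic S → ∀ X : Subgroup G, IsPGroup p X → IsMulCommutative X := fun h1 X hX => by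
    obtain ⟨c, -, h2⟩ := hS.exists_conj_le hX le_top
    refine isMulCommutative_of_comm fun x hx y hy => (MulAut.conj c).injective ?_
    rw [map_mul, map_mul]
    exact comm_of_mem IsCyclic.commutative (h2 (conj_mem_conj_smul hx)) (h2 (conj_mem_conj_smul hy))
  rcases Cfsg.Agent.S0016.result p hS.isPGroup (fun H K h1 h2 => by
    have : ∀ H : Subgroup S, Nat.card H = p → H.map S.subtype = N := fun H h1 => eq_of_le_of_card_eq (by
      rintro _ ⟨x, hx, rfl⟩
      exact m1 _ (congrArg Subtype.val (h1 ▸ pow_card_eq_one_of_mem hx : x ^ p = 1)))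
      (by rw [card_map_of_injective S.subtype_injective, h1, cN])
    exact map_injective S.subtype_injective ((this H h1).trans (this K h2).symm)) with h1 | ⟨rfl, n, ⟨e⟩⟩
  · exact fin (cyc h1 _ a1.isPGroup) (cyc h1 _ b1.isPGroup)
  rcases n with _ | _ | n
  · have := QuaternionGroup.quaternionGroup_one_isCyclic
    have h1 := isCyclic_of_surjective e.symm e.symm.surjective
    exact fin (cyc h1 _ a1.isPGroup) (cyc h1 _ b1.isPGroup)
  swap
  · haveI := hs.resolve_left (by simp)
    exact (h.quat e).elim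
  have cS : Nat.card S = 2 ^ 3 := by rw [Nat.card_congr e.toEquiv, Nat.card_eq_fintype_card, QuaternionGroup.card]; rfl
  obtain ⟨k, hk, ek⟩ := (Nat.dvd_prime_pow Nat.prime_two).1 (cS ▸ hS.card_dvd a1.isPGroup le_top)
  have h2 := card_lt_of_lt a7
  rw [cN, ek] at h2
  rcases eq_or_lt_of_le hk with rfl | hk
  · have d1 := (hS.of_card_le b1.isPGroup le_top (by rw [← c1, cS, ek])).of_le (le_centralizer_iff.1 b8) le_top
    have d2 := (hS.of_card_le (isPGroup_conj_smul g a1.isPGroup) le_top (by rw [card_conj_smul, cS, ek])).of_le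
      (M := centralizer (T : Set G)) (by rw [hg, centralizer_conj_smul]; exact conj_smul_mono g (le_centralizer_iff.1 a8)) le_top
    obtain ⟨c, hc, e⟩ := d2.conj d1
    exact ⟨c * g, by rw [← conj_smul_conj_smul, ← a4, smul_sup, smul_sup, ← hg, e,
      conj_smul_eq_self_iff.2 (centralizer_le_normalizer _ hc), b4]⟩
  · obtain rfl : k = 2 := by
      interval_cases k <;> first | rfl | omega
    exact fin ⟨⟨IsPGroup.commutative_of_card_eq_prime_sq ek⟩⟩ ⟨⟨IsPGroup.commutative_of_card_eq_prime_sq (c1 ▸ ek)⟩⟩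

theorem of_ker {Q : Type*} [Group Q] (f : G →* Q) (hf : Function.Surjective f) (h : ∀ A B : Subgroup G, f.ker ≤ A →
    f.ker ≤ B → ⁅A, A⁆ ≤ f.ker → ⁅B, B⁆ ≤ f.ker → Nat.card A = Nat.card B → ∃ g : G, B = MulAut.conj g • A) : PA Q := by
  intro A B hA hB hc
  have h1 : ∀ A : Subgroup Q, IsMulCommutative A → ⁅A.comap f, A.comap f⁆ ≤ f.ker := fun A hA => commutator_le.2
    fun x hx y hy => by rw [MonoidHom.mem_ker, map_commutatorElement, commutatorElement_eq_one_iff_mul_comm, comm_of_mem hA hx hy]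
  obtain ⟨g, hg⟩ := h (A.comap f) (B.comap f) (ker_le_comap f A) (ker_le_comap f B) (h1 A hA) (h1 B hB) (by
    rw [card_eq_card_ker_mul_card_map f, card_eq_card_ker_mul_card_map f (B.comap f), inf_eq_left.2 (ker_le_comap f A),
      inf_eq_left.2 (ker_le_comap f B), map_comap_eq_self_of_surjective hf, map_comap_eq_self_of_surjective hf, hc])
  exact ⟨f g, by rw [← conj_smul_eq_map, ← map_comap_eq_self_of_surjective hf A, ← map_conj_smul, ← hg,
    map_comap_eq_self_of_surjective hf]⟩

theorem PA.quot (n : ℕ) : ∀ (G : Type u) [Group G] [Finite G] {Q : Type*} [Group Q] (f : G →* Q), Nat.card G = n →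
    Function.Surjective f → Group.IsSolvable f.ker → Odd (Nat.card f.ker) ∨ Group.IsSolvable G → PA G → PA Q := by
  induction n using Nat.strong_induction_on with
  | _ n ih =>
  intro G _ _ Q _ f hn hf h1 h2 h
  rcases eq_or_ne f.ker ⊥ with h0 | h0
  · have c : ∀ A : Subgroup G, ⁅A, A⁆ ≤ f.ker → IsMulCommutative A := fun A hA => isMulCommutative_of_comm
      fun x hx y hy => commutatorElement_eq_one_iff_mul_comm.1 (mem_bot.1 (h0.le (hA (commutator_mem_commutator hx hy))))
    exact of_ker f hf fun A B _ _ hA hB => h A B (c A hA) (c B hB)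
  obtain ⟨M, p, hp, hM, M0, Mle, Mc, Mp, MP, -⟩ := exists_minimal_normal_elementary f.ker h1 h0
  haveI := Fact.mk hp
  refine ih _ (hn ▸ card_quotient_lt M0) (G ⧸ M) (QuotientGroup.lift M f Mle) rfl (fun q => ?_) ?_ ?_
    (of_ker (QuotientGroup.mk' M) (QuotientGroup.mk'_surjective M) ?_)
  · obtain ⟨x, rfl⟩ := hf q
    exact ⟨x, rfl⟩
  · rw [QuotientGroup.ker_lift]; exact isSolvable_map _ h1
  · rw [QuotientGroup.ker_lift]
    exact h2.imp (fun h => h.of_dvd_nat (card_map_dvd _ _)) fun h => by haveI := h; infer_instance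
  · rw [QuotientGroup.ker_mk']
    refine fun A B => h.step M0 Mc Mp MP (h2.imp_left ?_)
    rintro h3 rfl
    exact (Nat.not_even_iff_odd.2 (h3.of_dvd_nat (card_dvd_of_le Mle))) (even_iff_two_dvd.2
      (MP.card_eq_or_dvd.resolve_left fun e => M0 (card_eq_one.1 e)))

end H2.AbConj
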