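import Cfsg.Agent.H1.Mcy2
import Cfsg.Agent.H1.Invol
import Cfsg.Agent.H1.SZ
import Cfsg.Agent.H1.Fitting
import Cfsg.Agent.H1.Frattini
import Cfsg.Agent.H4.Inv2
import Cfsg.Agent.FT.Final

/-!
H2.CI: groups whose distinct Sylow 2-subgroups meet in cyclic groups; `O₂` is central when
`O(G) = 1` and `G` is not solvable.
-/

set_option autoImplicit false
open Cfsg Subgroup H1
open scoped commutatorElement Pointwise

namespace H2.CI

variable {G : Type*} [Group G]

theorem eq_one_of_nil [Group.IsNilpotent G] {x p q : G} (h : x * (p * x * p⁻¹) = q * x * q⁻¹) :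
    x = 1 := by
  have key : ∀ i, x ∈ (⊤ : Subgroup G).lowerCentralSeries i := by
    intro i
    induction i with
    | zero => trivial
    | succ i ih =>
      have e : x = ⁅x, q⁆⁻¹ * ⁅x, p⁆ := by
        have : q * x * q⁻¹ * x⁻¹ * (x * p * x⁻¹ * p⁻¹) = x := by rw [← h]; group
        rw [commutatorElement_inv, commutatorElement_def, commutatorElement_def, this]
      rw [e]
      exact Subgroup.mul_mem _ (Subgroup.inv_mem _ (commutator_mem_commutator ih trivial))
        (commutator_mem_commutator ih trivial)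
  obtain ⟨n, hn⟩ := Subgroup.nilpotent_iff_lowerCentralSeries.1 ‹_›
  simpa [hn] using key n

theorem klein_pgroup {a b : G} (ha : a * a = 1) (hb : b * b = 1) (c : Commute a b) :
    ∃ Q : Subgroup G, IsPGroup 2 Q ∧ a ∈ Q ∧ b ∈ Q := by
  let Q : Subgroup G :=
    { carrier := {x | x * x = 1 ∧ Commute x a ∧ Commute x b ∧ (x = 1 ∨ x = a ∨ x = b ∨ x = a * b)}
      one_mem' := ⟨by simp, Commute.one_left _, Commute.one_left _, Or.inl rfl⟩
      inv_mem' := fun {x} hx => by rwa [inv_eq_of_mul_eq_one_right hx.1]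
      mul_mem' := fun {x y} hx hy => by
        have cxy : Commute x y := by
          rcases hy.2.2.2 with h | h | h | h <;> rw [h]
          exacts [Commute.one_right _, hx.2.1, hx.2.2.1, hx.2.1.mul_right hx.2.2.1]
        refine ⟨?_, hx.2.1.mul_left hy.2.1, hx.2.2.1.mul_left hy.2.2.1, ?_⟩
        · calc x * y * (x * y) = x * (y * x) * y := by group
            _ = (x * x) * (y * y) := by rw [← cxy.eq]; group
            _ = 1 := by rw [hx.1, hy.1, one_mul]
        · have e1 : a * (a * b) = b := by rw [← mul_assoc, ha, one_mul]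
          have e2 : b * a = a * b := c.eq.symm
          have e3 : b * (a * b) = a := by rw [← mul_assoc, e2, mul_assoc, hb, mul_one]
          have e4 : a * b * a = b := by rw [mul_assoc, e2, e1]
          have e5 : a * b * b = a := by rw [mul_assoc, hb, mul_one]
          have e6 : a * b * (a * b) = 1 := by rw [mul_assoc, e3, ha]
          rcases hx.2.2.2 with h | h | h | h <;> rcases hy.2.2.2 with k | k | k | k <;>
            rw [h, k] <;> simp [ha, hb, e1, e2, e3, e4, e5, e6] }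
  have cc : Commute b a := c.symm
  refine ⟨Q, fun x => ⟨1, Subtype.ext ?_⟩, ⟨ha, Commute.refl _, c, by simp⟩,
    ⟨hb, cc, Commute.refl _, by simp⟩⟩
  simpa [pow_two] using x.2.1

variable [Finite G]

/-- the hypothesis -/
abbrev Hyp (G : Type*) [Group G] : Prop :=
  ∀ S T : Sylow 2 G, S ≠ T → IsCyclic ↥((S : Subgroup G) ⊓ (T : Subgroup G))

/-- elements that lie in a unique Sylow 2-subgroup -/
def U (x : G) : Prop := x ∉ pCore 2 G ∧ ¬ pCore 2 G ≤ zpowers x

theorem U.uniq (hC : Hyp G) {x : G} (h : U x) {S T : Sylow 2 G} (h1 : x ∈ (S : Subgroup G))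
    (h2 : x ∈ (T : Subgroup G)) : S = T := by
  by_contra hne
  haveI := hC S T hne
  have hp : IsPGroup 2 ↥((S : Subgroup G) ⊓ (T : Subgroup G)) := S.isPGroup'.to_le inf_le_left
  have a1 : zpowers x ≤ (S : Subgroup G) ⊓ T := zpowers_le.2 ⟨h1, h2⟩
  have a2 : pCore 2 G ≤ (S : Subgroup G) ⊓ T := le_inf (pCore_le_sylow S) (pCore_le_sylow T)
  rcases le_or_le_of_cyclic hp (C := ⊤) inferInstance
    (le_top (a := (zpowers x).subgroupOf ((S : Subgroup G) ⊓ T)))
    (le_top (a := (pCore 2 G).subgroupOf ((S : Subgroup G) ⊓ T))) with k | k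
  · exact h.1 (k (x := ⟨x, a1 (mem_zpowers x)⟩) (mem_zpowers x))
  · exact h.2 fun v hv => k (x := ⟨v, a2 hv⟩) hv

theorem U.comm (hC : Hyp G) {x y : G} (h : U x) {S : Sylow 2 G} (h1 : x ∈ (S : Subgroup G))
    (hx : (x : G ⧸ pCore 2 G) * x = 1) (hy : (y : G ⧸ pCore 2 G) * y = 1)
    (c : Commute (x : G ⧸ pCore 2 G) y) : y ∈ (S : Subgroup G) := by
  obtain ⟨Q, hQ, a, b⟩ := klein_pgroup hx hy c
  have hQ' : IsPGroup 2 (Q.comap (QuotientGroup.mk' (pCore 2 G))) :=
    hQ.comap_of_ker_isPGroup _ (by rw [QuotientGroup.ker_mk']; exact pCore_isPGroup)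
  obtain ⟨T, hT⟩ := hQ'.exists_le_sylow
  rw [h.uniq hC h1 (hT (x := x) a)]
  exact hT (x := y) b

theorem exists_sylow_mem {x : G} (hx : (x : G ⧸ pCore 2 G) * x = 1) :
    ∃ S : Sylow 2 G, x ∈ (S : Subgroup G) := by
  obtain ⟨Q, hQ, a, -⟩ := klein_pgroup hx hx (Commute.refl _)
  have hQ' : IsPGroup 2 (Q.comap (QuotientGroup.mk' (pCore 2 G))) :=
    hQ.comap_of_ker_isPGroup _ (by rw [QuotientGroup.ker_mk']; exact pCore_isPGroup)
  obtain ⟨T, hT⟩ := hQ'.exists_le_sylow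
  exact ⟨T, hT (x := x) a⟩

omit [Finite G] in
theorem U.conj {x : G} (h : U x) (g : G) : U (g * x * g⁻¹) := by
  refine ⟨fun k => h.1 ?_, fun k => h.2 fun v hv => ?_⟩
  · simpa [mul_assoc] using (inferInstance : (pCore 2 G).Normal).conj_mem _ k g⁻¹
  · obtain ⟨n, hn⟩ := k ((inferInstance : (pCore 2 G).Normal).conj_mem _ hv g)
    refine ⟨n, ?_⟩
    have : g * x ^ n * g⁻¹ = g * v * g⁻¹ := by rw [← conj_zpow]; exact hn
    simpa using this

theorem aut_pgroup (hV : IsCyclic (pCore 2 G)) : IsPGroup 2 (MulAut (pCore 2 G)) := by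
  obtain ⟨n, hn⟩ := (IsPGroup.iff_card).1 (pCore_isPGroup (p := 2) (G := G))
  rcases n with _ | n
  · exact IsPGroup.of_card (n := 0) (by rw [IsCyclic.card_mulAut, hn]; simp)
  · exact IsPGroup.of_card (n := n) (by
      rw [IsCyclic.card_mulAut, hn, Nat.totient_prime_pow_succ Nat.prime_two]; simp)

omit [Finite G] in
theorem mem_ker_iff {g : G} : g ∈ (MulAut.conjNormal : G →* MulAut (pCore 2 G)).ker ↔
    g ∈ centralizer (pCore 2 G : Set G) := by
  rw [MonoidHom.mem_ker, mem_centralizer_iff]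
  constructor
  · intro h v hv
    have := congrArg (fun f : MulAut (pCore 2 G) => (f ⟨v, hv⟩ : G)) h
    simp only [MulAut.conjNormal_apply, MulAut.one_apply] at this
    rw [mul_inv_eq_iff_eq_mul] at this
    exact this.symm
  · intro h
    ext v
    simp only [MulAut.conjNormal_apply, MulAut.one_apply]
    rw [← h v v.2, mul_inv_cancel_right]

theorem exists_pow_mem (hV : IsCyclic (pCore 2 G)) (g : G) :
    ∃ k : ℕ, g ^ 2 ^ k ∈ centralizer (pCore 2 G : Set G) := by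
  obtain ⟨k, hk⟩ := aut_pgroup hV (MulAut.conjNormal g)
  exact ⟨k, mem_ker_iff.1 (by rw [MonoidHom.mem_ker, map_pow, hk])⟩

theorem le_pCore_of_solvable (hO : pPrimeCore 2 G = ⊥) (hV : IsCyclic (pCore 2 G))
    (N : Subgroup G) [N.Normal] (hN : Group.IsSolvable N) : N ≤ pCore 2 G := by
  have h1 : (fittingSubgroup N).map N.subtype ≤ pCore 2 G := by
    refine (map_mono (fitting_le_pCore_sup_pPrimeCore 2)).trans ?_
    rw [Subgroup.map_sup]
    exact sup_le (map_subtype_pCore_le N) ((map_subtype_pPrimeCore_le N).trans (hO.le.trans bot_le))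
  refine le_pCore fun x => ?_
  obtain ⟨k, hk⟩ := exists_pow_mem hV (x : G)
  have h2 : x ^ 2 ^ k ∈ fittingSubgroup N := centralizer_fitting_le (fun f hf => Subtype.ext
    (hk f (h1 ⟨f, hf, rfl⟩)))
  obtain ⟨l, hl⟩ := pCore_isPGroup (p := 2) (G := G) ⟨_, h1 ⟨_, h2, rfl⟩⟩
  refine ⟨k + l, Subtype.ext ?_⟩
  have := congrArg Subtype.val hl
  simpa [pow_add, pow_mul] using this

theorem cyc (hns : ¬ Group.IsSolvable G) (hC : Hyp G) :
    (∀ S : Sylow 2 G, ∃ T : Sylow 2 G, T ≠ S) ∧ IsCyclic (pCore 2 G) := by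
  have h1 : ∀ S : Sylow 2 G, ∃ T : Sylow 2 G, T ≠ S := fun S => by
    by_contra h
    push Not at h
    haveI : Subsingleton (Sylow 2 G) := ⟨fun a b => (h a).trans (h b).symm⟩
    haveI : (S : Subgroup G).Normal := Sylow.normal_of_subsingleton S
    haveI : Group.IsNilpotent S := S.isPGroup'.isNilpotent
    haveI : Group.IsSolvable (G ⧸ (S : Subgroup G)) := FT.feit_thompson _
      (Nat.odd_iff.2 (Nat.two_dvd_ne_zero.1 S.not_dvd_index))
    exact hns (solvable_of_ker_le_range (S : Subgroup G).subtype (QuotientGroup.mk' S) (by simp))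
  refine ⟨h1, ?_⟩
  obtain ⟨S⟩ : Nonempty (Sylow 2 G) := inferInstance
  obtain ⟨T, hT⟩ := h1 S
  haveI := hC T S hT
  exact Subgroup.isCyclic_of_le (le_inf (pCore_le_sylow T) (pCore_le_sylow S))


section main

variable (hO : pPrimeCore 2 G = ⊥) (hns : ¬ Group.IsSolvable G) (hC : Hyp G)
  (hZ : ¬ pCore 2 G ≤ center G)

omit [Finite G] in
theorem mk_sq {x : G} : (x : G ⧸ pCore 2 G) * x = 1 ↔ x * x ∈ pCore 2 G := by
  rw [← QuotientGroup.mk_mul, QuotientGroup.eq_one_iff]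

include hZ in
omit [Finite G] in
theorem not_two (t : G) : ¬ ∀ v ∈ pCore 2 G, v = 1 ∨ v = t := fun h => hZ fun v hv => by
  rw [mem_center_iff]
  intro g
  rcases h v hv with h1 | h1
  · simp [h1]
  rcases h _ ((inferInstance : (pCore 2 G).Normal).conj_mem _ hv g) with h2 | h2
  · have : v = 1 := by simpa using h2
    simp [this]
  · rw [← h1, mul_inv_eq_iff_eq_mul] at h2
    exact h2

include hZ in
omit [Finite G] in
/-- an element of order at most 4, inverted by an element centralizing `V` -/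
theorem dih {u w : G} (hu : u ∈ centralizer (pCore 2 G : Set G)) (hi : u * w * u⁻¹ = w⁻¹)
    (h2 : w * w ∈ pCore 2 G) (h1 : w ∉ pCore 2 G) : U w := by
  refine ⟨h1, fun h => not_two hZ (w * w) fun v hv => ?_⟩
  have e : w * w * (w * w) = 1 := by
    have a : u * (w * w) * u⁻¹ = w * w := by rw [← hu _ h2, mul_inv_cancel_right]
    have b : u * (w * w) * u⁻¹ = (u * w * u⁻¹) * (u * w * u⁻¹) := by group
    rw [b, hi] at a
    nth_rewrite 1 [← a]
    group
  obtain ⟨n, rfl⟩ := h hv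
  obtain ⟨k, hk | hk⟩ := Int.even_or_odd' n
  · have e2 : orderOf (w * w) ∣ 2 := orderOf_dvd_of_pow_eq_one (by rw [pow_two, e])
    have e3 : w ^ n = (w * w) ^ k := by rw [hk, zpow_mul, zpow_two]
    show w ^ n = 1 ∨ w ^ n = w * w
    rw [e3]
    obtain ⟨j, hj | hj⟩ := Int.even_or_odd' k
    · left; rw [hj, zpow_mul, zpow_two, e, one_zpow]
    · right; rw [hj, zpow_add, zpow_mul, zpow_two, e, one_zpow, one_mul, zpow_one]
  · exfalso
    have e3 : w ^ n = (w * w) ^ k * w := by rw [hk, zpow_add, zpow_mul, zpow_two, zpow_one]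
    have hv' : w ^ n ∈ pCore 2 G := hv
    rw [e3] at hv'
    exact h1 ((Subgroup.mul_mem_cancel_left _ (Subgroup.zpow_mem _ h2 k)).1 hv')

include hZ in
omit [Finite G] in
theorem U.of_inv {u : G} (h2 : u * u = 1) (h1 : u ∉ pCore 2 G) : U u :=
  dih hZ (Subgroup.one_mem _) (by simp [inv_eq_of_mul_eq_one_right h2])
    (by rw [h2]; exact Subgroup.one_mem _) h1

omit [Finite G] in
theorem U.of_out {x : G} (hx : x ∉ centralizer (pCore 2 G : Set G)) {w : G} (hw : w ∈ zpowers x)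
    (h1 : w ∉ pCore 2 G) : U w :=
  ⟨h1, fun h => hx fun v hv => by
    obtain ⟨n, rfl⟩ := (zpowers_le.2 hw) (h hv)
    exact ((Commute.refl x).zpow_left n).eq⟩

omit [Finite G] in
theorem lift_zpowers {c : G} {z : G ⧸ pCore 2 G} (hz : z ∈ zpowers (c : G ⧸ pCore 2 G)) :
    ∃ w ∈ zpowers c, (w : G ⧸ pCore 2 G) = z := by
  obtain ⟨n, rfl⟩ := hz
  exact ⟨c ^ n, ⟨n, rfl⟩, rfl⟩

include hns hC in
theorem no_outer {y : G} (h2 : y * y ∈ pCore 2 G) : y ∈ centralizer (pCore 2 G : Set G) := by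
  have hV := (cyc hns hC).2
  have hVC : pCore 2 G ≤ centralizer (pCore 2 G : Set G) := fun a ha b hb =>
    congrArg Subtype.val (hV.isMulCommutative.is_comm.comm (⟨b, hb⟩ : pCore 2 G) ⟨a, ha⟩)
  by_contra hy
  have hyU : U y := U.of_out hy (mem_zpowers y) fun h => hy (hVC h)
  obtain ⟨P, hP⟩ := exists_sylow_mem (mk_sq.2 h2)
  have key : ∀ a ∈ centralizer (pCore 2 G : Set G), a * a ∈ pCore 2 G → a ∈ (P : Subgroup G) := by
    intro a ha a2
    have hc : y * a ∉ centralizer (pCore 2 G : Set G) := fun h =>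
      hy ((Subgroup.mul_mem_cancel_right _ ha).1 h)
    by_cases ho : Odd (orderOf ((y : G ⧸ pCore 2 G) * a))
    · obtain ⟨t, -, ht⟩ := pair_odd (mk_sq.2 h2) (mk_sq.2 a2) ho
      obtain ⟨t, rfl⟩ := QuotientGroup.mk_surjective t
      have : (t * y * t⁻¹)⁻¹ * a ∈ pCore 2 G := QuotientGroup.eq.1 ht
      have h3 : (t * y * t⁻¹)⁻¹ ∈ centralizer (pCore 2 G : Set G) :=
        (Subgroup.mul_mem_cancel_right _ ha).1 (hVC this)
      exact absurd (by simpa [mul_assoc] using ((inferInstance :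
        (centralizer (pCore 2 G : Set G)).Normal).conj_mem _ (Subgroup.inv_mem _ h3) t⁻¹)) hy
    · obtain ⟨z, hz, z2, c1, c2⟩ := pair_even (mk_sq.2 h2) (mk_sq.2 a2) ho
      obtain ⟨w, hw, rfl⟩ := lift_zpowers (c := y * a) hz
      have wU : U w := U.of_out hc hw fun h =>
        H4.ne_one_of_two z2 ((QuotientGroup.eq_one_iff w).2 h)
      have w2 := H4.mul_self_of_two z2
      exact wU.comm hC (hyU.comm hC hP (mk_sq.2 h2) w2 c1.symm) w2 (mk_sq.2 a2) c2
  let X : Set G := {a | a ∈ centralizer (pCore 2 G : Set G) ∧ a * a ∈ pCore 2 G}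
  have hX : normalClosure X ≤ P := by
    refine (closure_le _).2 fun b hb => ?_
    obtain ⟨a, ha, hab⟩ := Group.mem_conjugatesOfSet_iff.1 hb
    obtain ⟨g, rfl⟩ := isConj_iff.1 hab
    refine key _ ((inferInstance : (centralizer (pCore 2 G : Set G)).Normal).conj_mem _ ha.1 g) ?_
    have := (inferInstance : (pCore 2 G).Normal).conj_mem _ ha.2 g
    convert this using 1
    group
  have hXV : normalClosure X ≤ pCore 2 G := le_pCore (P.isPGroup'.to_le hX)
  let K := (centralizer (pCore 2 G : Set G)).map (QuotientGroup.mk' (pCore 2 G))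
  have hK : Odd (Nat.card K) := by
    by_contra h
    obtain ⟨⟨k, hk'⟩, hk⟩ := exists_prime_orderOf_dvd_card' (G := K) 2
      (even_iff_two_dvd.1 (Nat.not_odd_iff_even.1 h))
    rw [Subgroup.orderOf_mk] at hk
    obtain ⟨a, ha, rfl⟩ := hk'
    exact H4.ne_one_of_two hk ((QuotientGroup.eq_one_iff a).2
      (hXV (subset_normalClosure ⟨ha, mk_sq.1 (H4.mul_self_of_two hk)⟩)))
  haveI := FT.feit_thompson _ hK
  haveI : Group.IsNilpotent (pCore 2 G) := pCore_isPGroup.isNilpotent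
  haveI : Group.IsSolvable (centralizer (pCore 2 G : Set G)) :=
    solvable_of_ker_le_range (inclusion hVC)
      ((QuotientGroup.mk' (pCore 2 G)).subgroupMap (centralizer (pCore 2 G : Set G)))
      fun a ha => ⟨⟨a, (QuotientGroup.eq_one_iff _).1 (congrArg Subtype.val ha)⟩, rfl⟩
  haveI : Group.IsNilpotent (MulAut (pCore 2 G)) := (aut_pgroup hV).isNilpotent
  exact hns (solvable_of_ker_le_range (centralizer (pCore 2 G : Set G)).subtype
    (MulAut.conjNormal : G →* MulAut (pCore 2 G)) fun a ha => ⟨⟨a, mem_ker_iff.1 ha⟩, rfl⟩)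

include hns hC hZ in
theorem conj_of_ne {u u' : G} (h2 : u * u = 1) (h1 : u ∉ pCore 2 G) (h2' : u' * u' = 1)
    (h1' : u' ∉ pCore 2 G) {P P' : Sylow 2 G} (hP : u ∈ (P : Subgroup G))
    (hP' : u' ∈ (P' : Subgroup G)) (hne : P ≠ P') :
    ∃ g : G, ((g * u * g⁻¹ : G) : G ⧸ pCore 2 G) = u' := by
  have a2 : (u : G ⧸ pCore 2 G) * u = 1 := by rw [← QuotientGroup.mk_mul, h2]; rfl
  have a2' : (u' : G ⧸ pCore 2 G) * u' = 1 := by rw [← QuotientGroup.mk_mul, h2']; rfl
  by_cases ho : Odd (orderOf ((u : G ⧸ pCore 2 G) * u'))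
  · obtain ⟨t, -, ht⟩ := pair_odd a2 a2' ho
    obtain ⟨t, rfl⟩ := QuotientGroup.mk_surjective t
    exact ⟨t, ht⟩
  · obtain ⟨z, hz, z2, c1, c2⟩ := pair_even a2 a2' ho
    obtain ⟨w, hw, rfl⟩ := lift_zpowers (c := u * u') hz
    have w2 := H4.mul_self_of_two z2
    have wU : U w := dih hZ (no_outer hns hC (by rw [h2]; exact Subgroup.one_mem _))
      (pair_inverts h2 h2' hw) (mk_sq.1 w2) fun h =>
        H4.ne_one_of_two z2 ((QuotientGroup.eq_one_iff w).2 h)
    exact absurd (wU.uniq hC ((U.of_inv hZ h2 h1).comm hC hP a2 w2 c1.symm)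
      ((U.of_inv hZ h2' h1').comm hC hP' a2' w2 c2.symm)) hne

include hns hC hZ in
theorem trans {u u' : G} (h2 : u * u = 1) (h1 : u ∉ pCore 2 G) (h2' : u' * u' = 1)
    (h1' : u' ∉ pCore 2 G) {P : Sylow 2 G} (hP : u ∈ (P : Subgroup G))
    (hP' : u' ∈ (P : Subgroup G)) :
    ∃ g ∈ normalizer ((P : Subgroup G) : Set G), ((g * u * g⁻¹ : G) : G ⧸ pCore 2 G) = u' := by
  obtain ⟨T, hT⟩ := (cyc hns hC).1 P
  obtain ⟨g, rfl⟩ := MulAction.exists_smul_eq G P T
  have m : ∀ g : G, g * u * g⁻¹ ∈ ((g • P : Sylow 2 G) : Subgroup G) := fun g => by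
    rw [Sylow.coe_subgroup_smul]
    exact smul_mem_pointwise_smul _ (MulAut.conj g) _ hP
  obtain ⟨h, hh⟩ := conj_of_ne hns hC hZ (H4.conj_mul_self h2 g) ((U.of_inv hZ h2 h1).conj g).1 h2'
    h1' (m g) hP' hT
  have e : h * (g * u * g⁻¹) * h⁻¹ = h * g * u * (h * g)⁻¹ := by group
  rw [e] at hh
  refine ⟨h * g, Sylow.smul_eq_iff_mem_normalizer.1
    (((U.of_inv hZ h2 h1).conj (h * g)).uniq hC (m _) ?_), hh⟩
  have := pCore_le_sylow P (QuotientGroup.eq.1 hh)
  exact (Subgroup.inv_mem_iff _).1 ((Subgroup.mul_mem_cancel_right _ hP').1 this)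

include hns hC in
theorem lift_inv {y : G} (h : U y) (h2 : y * y ∈ pCore 2 G) :
    ∃ u : G, u * u = 1 ∧ (u : G ⧸ pCore 2 G) = y := by
  obtain ⟨⟨g, hg⟩, hgen⟩ := (cyc hns hC).2.exists_generator
  obtain ⟨n, hn⟩ := hgen ⟨_, h2⟩
  have hn : g ^ n = y * y := congrArg Subtype.val hn
  have c : Commute g y := no_outer hns hC h2 g hg
  obtain ⟨k, hk | hk⟩ := Int.even_or_odd' n
  · refine ⟨y * (g ^ k)⁻¹, ?_, ?_⟩
    · have c' : Commute (g ^ k)⁻¹ y := (c.zpow_left k).inv_left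
      calc y * (g ^ k)⁻¹ * (y * (g ^ k)⁻¹) = y * ((g ^ k)⁻¹ * y) * (g ^ k)⁻¹ := by group
        _ = y * y * (g ^ (2 * k))⁻¹ := by rw [c'.eq]; group
        _ = 1 := by rw [← hk, hn, mul_inv_cancel]
    · rw [QuotientGroup.mk_mul, (QuotientGroup.eq_one_iff _).2
        (Subgroup.inv_mem _ (Subgroup.zpow_mem _ hg k)), mul_one]
  · exfalso
    refine h.2 fun v hv => ?_
    obtain ⟨m, hm⟩ := hgen ⟨v, hv⟩
    have hm : g ^ m = v := congrArg Subtype.val hm
    obtain ⟨e, he⟩ := pCore_isPGroup (p := 2) (G := G) ⟨g, hg⟩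
    have he : g ^ ((2 : ℤ) ^ e) = 1 := by
      have : g ^ 2 ^ e = 1 := congrArg Subtype.val he
      exact_mod_cast this
    obtain ⟨a, b, hab⟩ : IsCoprime n ((2 : ℤ) ^ e) :=
      IsCoprime.pow_right ⟨1, -k, by rw [hk]; ring⟩
    have hg' : g ∈ zpowers y := by
      have : g = (y * y) ^ a := by
        rw [← hn, ← zpow_mul, mul_comm n a, eq_sub_of_add_eq hab, zpow_sub, mul_comm b, zpow_mul,
          he]
        simp
      rw [this]
      exact Subgroup.zpow_mem _ (Subgroup.mul_mem _ (mem_zpowers y) (mem_zpowers y)) a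
    rw [← hm]
    exact Subgroup.zpow_mem _ hg' m

include hns hC hZ in
theorem exists_fixed (P : Sylow 2 G) : ∃ u ∈ (P : Subgroup G), u * u = 1 ∧ u ∉ pCore 2 G ∧
    ∀ g ∈ normalizer ((P : Subgroup G) : Set G), ∃ p ∈ (P : Subgroup G),
      ((g * u * g⁻¹ : G) : G ⧸ pCore 2 G) = (p * u * p⁻¹ : G) := by
  have hV := (cyc hns hC).2
  let f := (MulAut.conjNormal : G →* MulAut (pCore 2 G))
  have hf : IsPGroup 2 f.range := (aut_pgroup hV).to_subgroup _
  haveI : Nontrivial f.range := by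
    by_contra h
    haveI := not_nontrivial_iff_subsingleton.1 h
    refine hZ fun v hv => mem_center_iff.2 fun g => ?_
    have : f g = 1 := congrArg Subtype.val (Subsingleton.elim (⟨f g, g, rfl⟩ : f.range) 1)
    exact (mem_ker_iff.1 this v hv).symm
  obtain ⟨M, hM, -⟩ := (eq_top_or_exists_le_coatom (⊥ : Subgroup f.range)).resolve_left bot_ne_top
  let K := M.comap f.rangeRestrict
  have hK : K.index = 2 := by
    rw [index_comap_of_surjective _ f.rangeRestrict_surjective, index_coatom_of_isPGroup hf hM]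
  haveI : K.Normal := normal_of_index_eq_two hK
  have hCK : centralizer (pCore 2 G : Set G) ≤ K := fun a ha => by
    have : f.rangeRestrict a = 1 := Subtype.ext (mem_ker_iff.2 ha)
    show f.rangeRestrict a ∈ M
    rw [this]; exact M.one_mem
  have hPK : ¬ (P : Subgroup G) ≤ K := fun h => P.not_dvd_index (hK.symm.dvd.trans (index_dvd_of_le h))
  obtain ⟨k, hk, hkK⟩ := SetLike.not_le_iff_exists.1 hPK
  have hS : H1.IsSylowIn 2 (P : Subgroup G) (normalizer ((P : Subgroup G) : Set G)) :=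
    (H1.isSylowIn_top P).of_le le_normalizer le_top
  obtain ⟨A, hA, -, hAP, hc⟩ := exists_complement_rel (D := (P : Subgroup G)) le_normalizer le_rfl
    hS.coprime
  have hcop : (Nat.card A).Coprime (Nat.card ((P : Subgroup G) ⊓ K : Subgroup G)) :=
    Nat.Coprime.coprime_dvd_right (card_dvd_of_le inf_le_left) (hc ▸ hS.coprime.symm)
  haveI : Group.IsNilpotent ((P : Subgroup G) ⊓ K : Subgroup G) :=
    (P.isPGroup'.to_le inf_le_left).isNilpotent
  obtain ⟨d, hd, c, hcA, e⟩ := exists_fixed_mul_of_commutator_le (A := A) (K := (P : Subgroup G))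
    (D := (P : Subgroup G) ⊓ K) (fun a ha => inf_normalizer_le_normalizer_inf
      ⟨hA ha, le_normalizer_of_normal (mem_top a)⟩) hcop (Or.inr inferInstance)
    (commutator_le.2 fun p hp a ha => ⟨by
      rw [commutatorElement_def, mul_assoc, mul_assoc, ← mul_assoc a]
      exact Subgroup.mul_mem _ hp (by
        simpa [mul_assoc] using (mem_normalizer_iff.1 (hA ha) _).1 (Subgroup.inv_mem _ hp)), by
      show ⁅p, a⁆ ∈ K
      rw [commutatorElement_def, mul_mem_iff_of_index_two hK, mul_mem_iff_of_index_two hK,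
        mul_mem_iff_of_index_two hK, Subgroup.inv_mem_iff, Subgroup.inv_mem_iff]
      tauto⟩) hk
  have hcP : c ∈ (P : Subgroup G) := (Subgroup.mul_mem_cancel_left _ hd.1).1 (e ▸ hk)
  have hcC : c ∉ centralizer (pCore 2 G : Set G) := fun h =>
    hkK (e ▸ Subgroup.mul_mem _ hd.2 (hCK h))
  have hVC : pCore 2 G ≤ centralizer (pCore 2 G : Set G) := fun a ha b hb =>
    congrArg Subtype.val (hV.isMulCommutative.is_comm.comm (⟨b, hb⟩ : pCore 2 G) ⟨a, ha⟩)
  have c1 : (c : G ⧸ pCore 2 G) ≠ 1 := fun h => hcC (hVC ((QuotientGroup.eq_one_iff c).1 h))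
  obtain ⟨n, hn⟩ := P.isPGroup' ⟨c, hcP⟩
  have hn : (c : G ⧸ pCore 2 G) ^ 2 ^ n = 1 := by
    have : c ^ 2 ^ n = 1 := congrArg Subtype.val hn
    rw [← QuotientGroup.mk_pow, this]; rfl
  have h2 : 2 ∣ Nat.card (zpowers (c : G ⧸ pCore 2 G)) := by
    rw [Nat.card_zpowers]
    obtain ⟨j, -, hj⟩ := (Nat.dvd_prime_pow Nat.prime_two).1 (orderOf_dvd_of_pow_eq_one hn)
    rcases j with _ | j
    · exact absurd (orderOf_eq_one_iff.1 hj) c1
    · rw [hj]; exact dvd_pow_self 2 (by omega)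
  obtain ⟨⟨z, hz⟩, z2⟩ := exists_prime_orderOf_dvd_card' 2 h2
  rw [Subgroup.orderOf_mk] at z2
  obtain ⟨y, hy, rfl⟩ := lift_zpowers hz
  have y1 : y ∉ pCore 2 G := fun h => H4.ne_one_of_two z2 ((QuotientGroup.eq_one_iff y).2 h)
  obtain ⟨u, u2, hu⟩ := lift_inv hns hC (U.of_out hcC hy y1) (mk_sq.1 (H4.mul_self_of_two z2))
  have hyP : y ∈ (P : Subgroup G) := zpowers_le.2 hcP hy
  refine ⟨u, (Subgroup.inv_mem_iff _).1 ((Subgroup.mul_mem_cancel_right _ hyP).1
    (pCore_le_sylow P (QuotientGroup.eq.1 hu))), u2,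
    fun h => y1 ((QuotientGroup.eq_one_iff y).1 (hu ▸ (QuotientGroup.eq_one_iff u).2 h)),
    fun g hg => ?_⟩
  have hg' : g ∈ (((P : Subgroup G) ⊔ A : Subgroup G) : Set G) := by rw [sup_comm, hAP]; exact hg
  rw [coe_mul_of_right_le_normalizer_left _ _ hA] at hg'
  obtain ⟨p, hp, a, ha, rfl⟩ := hg'
  refine ⟨p, hp, ?_⟩
  have hay : a * y * a⁻¹ = y := by
    rw [(zpowers_le.2 hcA hy) a ha, mul_inv_cancel_right]
  simp only [QuotientGroup.mk_mul, QuotientGroup.mk_inv, hu]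
  conv_rhs => rw [← hay]
  simp only [QuotientGroup.mk_mul, QuotientGroup.mk_inv]
  group

include hO hns hC in
theorem pCore_le_center : pCore 2 G ≤ center G := by
  by_contra hZ
  obtain ⟨P⟩ : Nonempty (Sylow 2 G) := inferInstance
  obtain ⟨u, hu, u2, u1, hfix⟩ := exists_fixed hns hC hZ P
  let π := QuotientGroup.mk' (pCore 2 G)
  let Q := (P : Subgroup G).map π
  have hQ : H1.IsSylowIn 2 Q ⊤ := by
    have := (H1.isSylowIn_top P).map π
    rwa [map_top_of_surjective _ (QuotientGroup.mk'_surjective _)] at this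
  have b2 : π u * π u = 1 := by rw [← map_mul, u2, map_one]
  have b1 : π u ≠ 1 := fun h => u1 ((QuotientGroup.eq_one_iff u).1 h)
  have bQ : π u ∈ Q := ⟨u, hu, rfl⟩
  have all : ∀ u' ∈ (P : Subgroup G), u' * u' = 1 → u' ∉ pCore 2 G →
      ∃ q ∈ Q, π u' = q * π u * q⁻¹ := fun u' h1 h2 h3 => by
    obtain ⟨g, hg, e⟩ := trans hns hC hZ u2 u1 h2 h3 hu h1
    obtain ⟨p, hp, e'⟩ := hfix g hg
    exact ⟨π p, ⟨p, hp, rfl⟩, e.symm.trans e'⟩
  have memP : ∀ x : G, π x ∈ Q → x ∈ (P : Subgroup G) := fun x ⟨y, hy, e⟩ =>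
    (Subgroup.mul_mem_cancel_left _ (Subgroup.inv_mem _ hy)).1
      (pCore_le_sylow P (QuotientGroup.eq.1 e))
  have cen : Q ≤ centralizer {π u} := by
    by_contra h
    have lt : Q ⊓ centralizer {π u} < Q := inf_lt_left.2 h
    obtain ⟨_, ⟨hn, p, hp, rfl⟩, hq⟩ :=
      SetLike.exists_of_lt (lt_normalizer_inf_of_isPGroup hQ.isPGroup lt)
    have m1 : π p * π u * (π p)⁻¹ ∈ Q ⊓ centralizer {π u} :=
      (mem_normalizer_iff.1 hn _).1 ⟨bQ, mem_centralizer_singleton_iff.2 rfl⟩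
    have c : Commute (π u) (π p * π u * (π p)⁻¹) := (mem_centralizer_singleton_iff.1 m1.2).symm
    have e : π (u * (p * u * p⁻¹)) = π u * (π p * π u * (π p)⁻¹) := by simp
    have y1 : u * (p * u * p⁻¹) ∉ pCore 2 G := fun k => hq ⟨⟨p, hp, rfl⟩, by
      have k' : π (u * (p * u * p⁻¹)) = 1 := (QuotientGroup.eq_one_iff _).2 k
      rw [e, mul_eq_one_iff_inv_eq, inv_eq_of_mul_eq_one_right b2, eq_mul_inv_iff_mul_eq] at k'
      exact mem_centralizer_singleton_iff.2 k'.symm⟩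
    have y2 : π (u * (p * u * p⁻¹)) * π (u * (p * u * p⁻¹)) = 1 := by
      rw [e, ← pow_two, c.mul_pow, pow_two, pow_two, b2, H4.conj_mul_self b2, one_mul]
    have yU : U (u * (p * u * p⁻¹)) := dih hZ
      (no_outer hns hC (by rw [u2]; exact Subgroup.one_mem _))
      (pair_inverts u2 (H4.conj_mul_self u2 p) (mem_zpowers _)) (mk_sq.1 y2) y1
    obtain ⟨u', u2', hu'⟩ := lift_inv hns hC yU (mk_sq.1 y2)
    have hu'' : π u' = π u * (π p * π u * (π p)⁻¹) := hu'.trans e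
    obtain ⟨q, hq', e'⟩ := all u' (memP _ (hu'' ▸ Subgroup.mul_mem _ bQ m1.1)) u2'
      fun k => y1 ((QuotientGroup.eq_one_iff _).1 (hu' ▸ (QuotientGroup.eq_one_iff u').2 k))
    haveI : Group.IsNilpotent Q := hQ.isPGroup.isNilpotent
    exact b1 (congrArg Subtype.val (eq_one_of_nil (G := Q) (x := ⟨π u, bQ⟩) (p := ⟨π p, p, hp, rfl⟩)
      (q := ⟨q, hq'⟩) (Subtype.ext (hu''.symm.trans e'))))
  have hII : H4.II (π u) := H4.II.of_sylow hQ (H4.orderOf_two_of b2 b1) fun g hg => by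
    obtain ⟨g, rfl⟩ := QuotientGroup.mk'_surjective _ g
    have e : π (g * u * g⁻¹) = π g * π u * (π g)⁻¹ := by simp
    obtain ⟨q, hq, e'⟩ := all (g * u * g⁻¹) (memP _ (e ▸ hg)) (H4.conj_mul_self u2 g)
      ((U.of_inv hZ u2 u1).conj g).1
    refine e.symm.trans (e'.trans ?_)
    rw [mem_centralizer_singleton_iff.1 (cen hq), mul_inv_cancel_right]
  have hO' : pPrimeCore 2 (G ⧸ pCore 2 G) = ⊥ := by
    haveI := FT.feit_thompson (pPrimeCore 2 (G ⧸ pCore 2 G))
      (Nat.coprime_two_right.1 pPrimeCore_coprime)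
    haveI : Group.IsNilpotent (pCore 2 G) := pCore_isPGroup.isNilpotent
    have hle : pCore 2 G ≤ (pPrimeCore 2 (G ⧸ pCore 2 G)).comap π := fun v hv => by
      rw [mem_comap, show π v = 1 from (QuotientGroup.eq_one_iff v).2 hv]
      exact Subgroup.one_mem _
    have hs : Group.IsSolvable ((pPrimeCore 2 (G ⧸ pCore 2 G)).comap π) :=
      solvable_of_ker_le_range (inclusion hle) (π.subgroupComap _)
        fun a ha => ⟨⟨a, (QuotientGroup.eq_one_iff _).1 (congrArg Subtype.val ha)⟩, rfl⟩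
    refine eq_bot_iff.2 fun x hx => ?_
    obtain ⟨x, rfl⟩ := QuotientGroup.mk'_surjective _ x
    exact (QuotientGroup.eq_one_iff x).2 (le_pCore_of_solvable hO (cyc hns hC).2 _ hs hx)
  have hc : π u ∈ center (G ⧸ pCore 2 G) := mem_center_iff.2 fun g => by
    have := hII.mem_core g
    rw [hO', mem_bot, mul_eq_one_iff_eq_inv, inv_eq_of_mul_eq_one_right b2,
      mul_inv_eq_iff_eq_mul] at this
    exact this
  haveI : (zpowers (π u)).Normal := H4.normal_of_le_center (zpowers_le.2 hc)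
  have : zpowers (π u) ≤ pCore 2 (G ⧸ pCore 2 G) := le_pCore (IsPGroup.of_card (n := 1)
    (by rw [Nat.card_zpowers, H4.orderOf_two_of b2 b1, pow_one]))
  rw [pCore_quotient_pCore] at this
  exact b1 (this (mem_zpowers _))

end main

end H2.CI
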