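import Cfsg.Agent.H1.Subnormal
import Cfsg.Agent.H1.Misc3

/-! Flavell's extension of Wielandt's zipper lemma (for subgroups with full normal closure). -/

set_option autoImplicit false

namespace H2.Flav
open Subgroup H1 H9
open scoped Pointwise

variable {G : Type*} [Group G] [Finite G]

def Full (A : Subgroup G) : Prop := ∀ N : Subgroup G, N.Normal → A ≤ N → N = ⊤
def Good (A M : Subgroup G) : Prop := ∀ L, IsCoatom L → A ≤ L → L ≠ M → SN A L
def Uq (A : Subgroup G) : Prop := ∀ L L', IsCoatom L → IsCoatom L' → A ≤ L → A ≤ L' → L = L'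
def IH (G : Type*) [Group G] (n : ℕ) : Prop := ∀ J : Subgroup G, n < Nat.card J → Full J → ∀ M, Good J M → Uq J

structure Pt (n : ℕ) (E N : Subgroup G) : Prop where
  card : Nat.card E = n
  full : Full E
  le : E ≤ N
  co : IsCoatom N
  bad : ¬ SN E N
  good : Good E N

variable {n : ℕ} {E F N M L L' : Subgroup G}

theorem coatom_smul (h : IsCoatom N) (g : G) : IsCoatom (MulAut.conj g • N) :=
  isCoatom_map (f := (MulAut.conj g).toMonoidHom) (MulAut.conj g).surjective h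
    (((MonoidHom.ker_eq_bot_iff _).2 (MulAut.conj g).injective).le.trans bot_le)

theorem Pt.smul (h : Pt n E N) (g : G) : Pt n (MulAut.conj g • E) (MulAut.conj g • N) where
  card := (card_conj_smul g E).trans h.card
  full K hK h1 := h.full K hK ((conj_smul_le_iff_le.1 h1).trans (conj_smul_le_of_mem_normalizer le_rfl
    (le_normalizer_of_normal (mem_top _))))
  le := conj_smul_mono g h.le
  co := coatom_smul h.co g
  bad h1 := h.bad (by simpa only [conj_inv_smul_smul] using H1.SN.smul h1 g⁻¹)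
  good K hK h1 h2 := by
    simpa only [conj_smul_inv_smul] using H1.SN.smul (h.good _ (coatom_smul hK g⁻¹) (conj_smul_le_iff_le.1 h1)
      fun e => h2 (by rw [← e, conj_smul_inv_smul])) g

theorem Pt.uniq (h : Pt n E N) (h' : Pt n E M) : N = M := by
  by_contra e
  exact h.bad (h'.good N h.co h.le e)

theorem Full.norm (h : Full E) (hN : IsCoatom N) (h1 : E ≤ N) : normalizer (N : Set G) ≤ N := by
  rcases eq_or_lt_of_le (le_normalizer (H := N)) with e | e
  · exact e.ge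
  · exact absurd (h N (normalizer_eq_top_iff.1 (hN.2 _ e)) h1) hN.1

theorem Pt.norm (h : Pt n E N) : normalizer (E : Set G) ≤ N := fun g hg =>
  h.full.norm h.co h.le (conj_smul_eq_self_iff.1 ((conj_smul_eq_self_iff.2 hg ▸ h.smul g).uniq h))

theorem star (ih : IH G n) (h : Pt n E N) (h' : Pt n F M) (hne : E ≠ F) (hL : IsCoatom L) (hL' : IsCoatom L')
    (hLL : L ≠ L') (e1 : E ≤ L) (e2 : E ≤ L') (f1 : F ≤ L) (f2 : F ≤ L') : N ≠ M ∧ E ≤ M := by
  have key : ∀ M, ¬ Good (E ⊔ F) M := fun M hM => hLL (ih _ (h.card ▸ card_lt_of_lt (lt_of_le_of_ne le_sup_left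
    fun e => hne (eq_of_le_of_card_eq (le_sup_right.trans e.ge) (h'.card.trans h.card.symm)).symm))
    (fun K hK h1 => h.full K hK (le_sup_left.trans h1)) M hM L L' hL hL' (sup_le e1 f1) (sup_le e2 f2))
  have k2 : (∀ K, E ≤ K → K ≠ N → K ≠ M) → False := fun hk => key N fun K hK h1 h2 =>
    H1.SN.sup (h.good K hK (le_sup_left.trans h1) h2) (h'.good K hK (le_sup_right.trans h1) (hk K (le_sup_left.trans h1) h2))
  exact ⟨fun e => k2 fun K _ h1 => e ▸ h1, by_contra fun e => k2 fun K h1 _ e' => e (e' ▸ h1)⟩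

theorem star' (ih : IH G n) (h : Pt n E N) (h' : Pt n F M) (hL : IsCoatom L) (hL' : IsCoatom L')
    (hLL : L ≠ L') (e1 : E ≤ L) (e2 : E ≤ L') (f1 : F ≤ L) (f2 : F ≤ L') : E ≤ M := by
  rcases eq_or_ne E F with rfl | hne
  · exact h'.le
  · exact (star ih h h' hne hL hL' hLL e1 e2 f1 f2).2

theorem finA (ih : IH G n) (h : Pt n E N) (h' : Pt n F M) (hne : N ≠ M) (e1 : E ≤ M) (f1 : F ≤ N)
    (ha : ∀ K K', Pt n K K' → K ≤ M → K' ≠ M → K ≤ N) : False := by
  refine h'.bad (SN.of_normal h'.le fun m hm => conj_smul_eq_self_iff.1 ?_)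
  have mm : ∀ m ∈ M, MulAut.conj m • M = M := fun m hm => conj_smul_eq_self_iff.2 (le_normalizer hm)
  have h1 := conj_smul_le_of_mem e1 (M.inv_mem hm)
  have h2 := star' ih h' (h.smul m⁻¹) h.co h'.co hne f1 h'.le (ha _ _ (h.smul m⁻¹) h1 fun e => hne (by
    rw [← conj_smul_inv_smul m N, e, mm m hm])) h1
  by_contra e
  exact (star ih (h'.smul m) h' e h.co h'.co hne (conj_smul_le_iff_le.2 h2) (conj_smul_le_of_mem h'.le hm) f1 h'.le).1
    (mm m hm)

theorem stepB (ih : IH G n) (h : Pt n E N) (h' : Pt n F M) (hne : N ≠ M) (e1 : E ≤ M) (f1 : F ≤ N) :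
    ∃ X X', Pt n X X' ∧ X ≤ M ∧ ¬ X ≤ N ∧
      X ≤ normalizer ((sSup {K | (∃ K', Pt n K K') ∧ K ≤ M ⊓ N} : Subgroup G) : Set G) := by
  by_contra h0
  refine finA ih h h' hne e1 f1 fun K K' k1 k2 k3 => by_contra fun k4 => h0 ?_
  obtain ⟨X, ⟨X', x1, x2, x3⟩, x4, x5⟩ := exists_normalizes_sSup (V := M) (S := {K | ∃ K', Pt n K K' ∧ K ≤ M ∧ K' ≠ M})
    (S₀ := {K | (∃ K', Pt n K K' ∧ K ≤ M ∧ K' ≠ M) ∧ K ≤ N}) (fun U ⟨U', u1, u2, u3⟩ => u1.good M h'.co u2 u3.symm)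
    (fun U ⟨U', u1, u2, u3⟩ g hg => ⟨_, u1.smul g, conj_smul_le_of_mem u2 hg, fun e => u3 (by
      rw [← conj_inv_smul_smul g U', e, conj_smul_eq_self_iff.2 (le_normalizer (M.inv_mem hg))])⟩)
    ⟨fun _ h => h.1, fun h => k4 (h ⟨K', k1, k2, k3⟩).2⟩
  have x6 : ¬ X ≤ N := fun e => x4 ⟨⟨X', x1, x2, x3⟩, e⟩
  refine ⟨X, X', x1, x2, x6, le_normalizer_sSup fun x hx U ⟨⟨U', u1⟩, u2⟩ => ⟨⟨_, u1.smul x⟩, ?_⟩⟩
  have a1 : ∀ x ∈ X, ∀ U U', Pt n U U' → U ≤ M ⊓ N → U' ≠ M → MulAut.conj x • U ≤ M ⊓ N := fun x hx U U' u1 u2 u3 =>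
    (conj_smul_le_of_mem_normalizer (le_sSup (by exact ⟨⟨U', u1, u2.trans inf_le_left, u3⟩,
      u2.trans inf_le_right⟩)) (x5 hx)).trans (sSup_le fun K ⟨⟨_, _, h1, _⟩, h2⟩ => le_inf h1 h2)
  rcases eq_or_ne U' M with rfl | u3
  swap
  · exact a1 x hx U U' u1 u2 u3
  have a2 : ∀ {K K' V V'}, Pt n K K' → Pt n V V' → K ≤ U' ⊓ N → V ≤ U' ⊓ N → K ≤ V' := fun k v h1 h2 =>
    star' ih k v h.co h'.co hne (h1.trans inf_le_right) (h1.trans inf_le_left) (h2.trans inf_le_right)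
      (h2.trans inf_le_left)
  obtain ⟨y, hy, hy'⟩ := SetLike.not_le_iff_exists.1 x6
  have eE : E ≤ U' ⊓ N := le_inf e1 h.le
  have b1 := a1 y hy E N h eE hne
  have b2 : MulAut.conj y • N ≠ U' := fun e => hne (by
    rw [← conj_inv_smul_smul y N, e, conj_smul_eq_self_iff.2 (le_normalizer (U'.inv_mem (x2 hy)))])
  have b3 := a1 x hx E N h eE hne
  have b4 := a1 x hx _ _ (h.smul y) b1 b2
  have b5 : MulAut.conj x • N ≠ MulAut.conj x • MulAut.conj y • N := fun e => hy' (h.full.norm h.co h.le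
    (conj_smul_eq_self_iff.1 (MulAction.injective _ e).symm))
  exact le_inf (conj_smul_le_of_mem (u2.trans inf_le_left) (x2 hx)) (star' ih (u1.smul x) h (h.smul x).co
    ((h.smul y).smul x).co b5 (conj_smul_mono x (u2.trans inf_le_right)) (conj_smul_mono x (a2 u1 (h.smul y) u2 b1))
    (a2 h (h.smul x) eE b3) (a2 h ((h.smul y).smul x) eE b4))

theorem noAdj (ih : IH G n) (h : Pt n E N) (h' : Pt n F M) (hne : N ≠ M) (e1 : E ≤ M) (f1 : F ≤ N) : False := by
  obtain ⟨X, X', x1, x2, x3, x4⟩ := stepB ih h h' hne e1 f1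
  obtain ⟨Y, Y', -, -, y3, y4⟩ := stepB ih h' h hne.symm f1 e1
  rw [inf_comm] at y4
  have h1 : E ≤ sSup {K | (∃ K', Pt n K K') ∧ K ≤ M ⊓ N} := le_sSup ⟨⟨N, h⟩, le_inf e1 h.le⟩
  obtain ⟨L, hL, h2⟩ := exists_coatom_ge fun e => h.co.1 (top_le_iff.1 ((h.full _ (normalizer_eq_top_iff.1 e) h1).ge.trans
    (sSup_le fun K hK => hK.2.trans inf_le_right)))
  rcases eq_or_ne L M with rfl | e
  · exact y3 (y4.trans h2)
  · exact x3 (star' ih x1 h hL h'.co e (x4.trans h2) x2 (h1.trans (le_normalizer.trans h2)) e1)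

theorem flavell (A : Subgroup G) : Full A → ∀ M, Good A M → Uq A := by
  induction' hn : Nat.card G - Nat.card A using Nat.strong_induction_on with k ih generalizing A
  intro hA M hM L L' hL hL' h1 h2
  have ih' : IH G (Nat.card A) := fun J hJ => ih _ (by have := card_le_card_group J; omega) J rfl
  by_cases hs : ∀ L, IsCoatom L → A ≤ L → SN A L
  · obtain ⟨K, -, k1, k2⟩ := zipper (A := A) (K := ⊤) le_top (fun h => by
      obtain ⟨N, n1, n2, n3⟩ := h.exists_lt_normal fun e => hL.1 (top_le_iff.1 (e.ge.trans h1))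
      exact n2.ne (hA N (normalizer_eq_top_iff.1 (top_le_iff.1 n3)) n1.le)) fun H a b => by
      obtain ⟨K, k1, k2⟩ := exists_coatom_ge b.ne
      exact (hs K k1 (a.trans k2)).mono a k2
    exact (hL.le_iff_eq k1.ne).1 (k2 L h1 hL.lt_top) ▸ ((hL'.le_iff_eq k1.ne).1 (k2 L' h2 hL'.lt_top))
  push Not at hs
  obtain ⟨K, k1, k2, k3⟩ := hs
  obtain rfl : K = M := by_contra fun e => k3 (hM K k1 k2 e)
  have hP : Pt (Nat.card A) A K := ⟨rfl, hA, k2, k1, k3, hM⟩
  have key : ∀ L, IsCoatom L → A ≤ L → L = K := fun L hL h1 => by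
    by_contra e
    obtain ⟨_, ⟨g, hg, rfl⟩, x1, x2⟩ := exists_normalizes_sSup (V := L) (S := {B | ∃ g ∈ L, B = MulAut.conj g • A})
      (S₀ := {A}) (by rintro _ ⟨g, hg, rfl⟩; exact H1.SN.smul_of_mem (hM L hL h1 e) (le_normalizer hg))
      (by rintro _ ⟨g, hg, rfl⟩ x hx; exact ⟨x * g, L.mul_mem hx hg, conj_smul_conj_smul _ _ _⟩)
      ⟨Set.singleton_subset_iff.2 ⟨1, L.one_mem, (conj_one_smul A).symm⟩, fun h => e ((hL.le_iff_eq k1.1).1
        fun g hg => hP.norm (conj_smul_eq_self_iff.1 (h ⟨g, hg, rfl⟩))).symm⟩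
    rw [sSup_singleton] at x2
    have x3 := x2.trans hP.norm
    obtain ⟨a, b⟩ := star ih' hP (hP.smul g) (Ne.symm x1) hL k1 e h1 k2 (conj_smul_le_of_mem h1 hg) x3
    exact noAdj ih' hP (hP.smul g) a b x3
  exact (key L hL h1).trans (key L' hL' h2).symm

/-- `K` is the normal closure of `A` in `K`. -/
def NC (A K : Subgroup G) : Prop := ∀ N ≤ K, A ≤ N → K ≤ normalizer (N : Set G) → K ≤ N

theorem nc_iff {A K : Subgroup G} (h : A ≤ K) :
    normalClosure ((A.subgroupOf K : Subgroup K) : Set K) = ⊤ ↔ NC A K := by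
  refine ⟨fun h1 N h2 h3 h4 => ?_, fun h1 => ?_⟩
  · haveI := (normal_subgroupOf_iff_le_normalizer h2).2 h4
    exact subgroupOf_eq_top.1 (top_le_iff.1 (h1.ge.trans (normalClosure_le_normal (subgroupOf_mono K h3))))
  · have := h1 _ (map_subtype_le (normalClosure ((A.subgroupOf K : Subgroup K) : Set K)))
      (fun x hx => ⟨⟨x, h hx⟩, subset_normalClosure hx, rfl⟩) (normal_map_subtype_iff.1 inferInstance)
    exact eq_top_iff.2 fun x _ => by
      obtain ⟨y, hy, e⟩ := this x.2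
      exact Subtype.ext e ▸ hy

theorem join_or_unique (A : Subgroup G) : Full A → IsCoatom M → (∀ H, A ≤ H → H ≠ ⊤ → NC A H → H ≤ M) → Uq A := by
  induction A using WellFoundedGT.induction with | ind A ih
  intro hA hM h
  refine flavell A hA M fun L hL h1 h2 => ?_
  obtain ⟨H, ⟨a1, a2⟩, a3⟩ := wellFounded_lt.has_min {H : Subgroup G | A ≤ H ∧ SN H L} ⟨L, h1, SN.refl L⟩
  have a4 : NC A H := fun N n1 n2 n3 => (eq_of_le_of_not_lt n1 (a3 N ⟨n2, SN.step n1 n3 a2⟩)).ge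
  rcases eq_or_lt_of_le a1 with rfl | a5
  · exact a2
  exact absurd (ih H a5 (fun N hN e => hA N hN (a1.trans e)) hM (fun K k1 k2 k3 => h K (a1.trans k1) k2
    fun N n1 n2 n3 => k3 N n1 ((a4 (N ⊓ H) inf_le_right (le_inf n2 a1)
      (le_normalizer_inf (k1.trans n3) le_normalizer)).trans inf_le_left) n3) L M hL hM a2.le
    (h H a1 (fun e => hL.1 (top_le_iff.1 (e.ge.trans a2.le))) a4)) h2

end H2.Flav
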