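import Cfsg.Agent.H1.Frob
import Cfsg.Agent.H1.Frattini
import Cfsg.Agent.H1.Misc

/-! A Frobenius group with cyclic complement acting with vanishing norm. -/

namespace Cfsg.Agent.H2
open Subgroup H1

variable {G : Type*} [Group G]

theorem frob_fix_of_norm {V : Type*} [CommGroup V] [Finite G] (ρ : G →* MulAut V) {K H : Subgroup G} [Fintype H]
    (hn : H ≤ normalizer (K : Set G)) (h : Fpf H K) (hN : ∀ w, ∏ x : H, ρ x w = 1)
    (hc : (Nat.card V).Coprime (Nat.card K)) {k : G} (hk : k ∈ K) (v : V) : ρ k v = v := by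
  classical
  have := Fintype.ofFinite K
  have key : ∀ v, ∏ k : K, ρ k v = v ^ Nat.card K := fun v => by
    have h1 : ∀ x : H, x ≠ 1 → ∏ k : K, ρ (k * x * (k : G)⁻¹) v = ∏ k : K, ρ k (ρ x v) := fun x hx =>
      Fintype.prod_bijective _ (commutator_bijective_of_fpf (hn x.2)
        (h x x.2 fun e => hx (Subtype.ext e))) _ _ fun k => by
          rw [← MulAut.mul_apply, ← map_mul]; simp [mul_assoc]
    have h2 : ∏ x : H, ∏ k : K, ρ (k * x * (k : G)⁻¹) v = 1 := by
      rw [Finset.prod_comm]
      refine Finset.prod_eq_one fun k _ => ?_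
      simp only [map_mul, MulAut.mul_apply]
      rw [← map_prod, hN, map_one]
    have h3 : ∏ x : H, ∏ k : K, ρ k (ρ x v) = 1 := by
      rw [Finset.prod_comm]
      refine Finset.prod_eq_one fun k _ => ?_
      rw [← map_prod, hN, map_one]
    rw [← Finset.mul_prod_erase _ _ (Finset.mem_univ 1)] at h2 h3
    rw [Finset.prod_congr rfl fun x hx => h1 x (Finset.ne_of_mem_erase hx)] at h2
    have := mul_right_cancel (h2.trans h3.symm)
    simpa [Nat.card_eq_fintype_card] using this.symm
  apply (powCoprime hc).injective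
  simp only [powCoprime_apply]
  rw [← map_pow, ← key, map_prod]
  exact Fintype.prod_equiv (Equiv.mulLeft (⟨k, hk⟩ : K)) _ _ fun x => by simp

/-- action on the abelianization -/
def abAut (P : Type*) [Group P] : MulAut P →* MulAut (Abelianization P) where
  toFun e := e.abelianizationCongr
  map_one' := abelianizationCongr_refl
  map_mul' a b := (abelianizationCongr_trans b a).symm

theorem frob_cyc_cent [Finite G] {Q P : Subgroup G} {x : G} (hP : Group.IsNilpotent P)
    (hx : x ∈ normalizer (Q : Set G)) (h : Fpf (zpowers x) Q) (hQP : Q ≤ normalizer (P : Set G))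
    (hxP : x ∈ normalizer (P : Set G)) (hc : (Nat.card Q).Coprime (Nat.card P))
    (hm : ∀ u ∈ P, (u * x) ^ orderOf x = 1) : Q ≤ centralizer (P : Set G) := by
  classical
  set L := normalizer (P : Set G)
  let ρ : L →* MulAut (Abelianization P) := (abAut P).comp P.normalizerMonoidHom
  let y : L := ⟨x, hxP⟩
  have oy : orderOf y = orderOf x := (orderOf_coe y).symm
  haveI := Fintype.ofFinite (zpowers y)
  have key : ∀ (u : P) (n : ℕ), ∃ w : P, ((u : G) * x) ^ n = w * x ^ n ∧
      Abelianization.of w = ∏ i ∈ Finset.range n, ρ (y ^ i) (Abelianization.of u) := fun u n => by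
    induction n with
    | zero => exact ⟨1, by simp, by simp⟩
    | succ n ih =>
      obtain ⟨w, h1, h2⟩ := ih
      refine ⟨w * P.normalizerMonoidHom (y ^ n) u, ?_, by rw [Finset.prod_range_succ, map_mul, h2]; rfl⟩
      show _ = (w : G) * (x ^ n * u * (x ^ n)⁻¹) * _
      rw [pow_succ, h1]; group
  have hN : ∀ w, ∏ z : zpowers y, ρ z w = 1 := fun w => by
    obtain ⟨u, rfl⟩ : ∃ u, Abelianization.of u = w := QuotientGroup.mk_surjective w
    obtain ⟨w, h1, h2⟩ := key u (orderOf x)
    rw [hm u u.2, pow_orderOf_eq_one, mul_one, eq_comm, OneMemClass.coe_eq_one] at h1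
    rw [h1, map_one, ← oy, Finset.prod_range] at h2
    rw [h2]
    exact (Fintype.prod_equiv (finEquivZPowers (isOfFinOrder_of_finite y)) _ _ fun i => rfl).symm
  refine le_centralizer_of_frattini hQP (hc.coprime_dvd_right (card_subgroup_dvd_card _))
    (le_trans (commutator_le.2 fun u hu k hk => ?_) (commutator_le_map_frattini hP))
  have := frob_fix_of_norm ρ (K := Q.subgroupOf L) (H := zpowers y) (zpowers_le.2 (mem_normalizer_iff.2 fun z =>
    mem_normalizer_iff.1 hx z)) (fpf_iff.2 fun a ⟨n, ha⟩ b hb e => (fpf_iff.1 h a ⟨n, congr(($ha : G))⟩ b hb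
      congr(($e : G))).imp Subtype.ext Subtype.ext) hN (by
        rw [card_subgroupOf hQP]; exact (hc.coprime_dvd_right (card_quotient_dvd_card (_root_.commutator P))).symm)
      (k := ⟨k, hQP hk⟩) hk (Abelianization.of ⟨u⁻¹, P.inv_mem hu⟩)
  have h2 : (⟨u, hu⟩ * P.normalizerMonoidHom ⟨k, hQP hk⟩ ⟨u⁻¹, P.inv_mem hu⟩ : P) ∈ _root_.commutator P := by
    rw [← Abelianization.ker_of, MonoidHom.mem_ker, map_mul]
    erw [this]
    rw [← map_mul]; exact congrArg _ (Subtype.ext (mul_inv_cancel u)) |>.trans (map_one _)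
  rw [← map_subtype_commutator]
  exact ⟨_, h2, by simp [commutatorElement_def, mul_assoc]⟩

end Cfsg.Agent.H2
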