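import Cfsg.Agent.H1.KPi
import Cfsg.Agent.H1.MaxNil

/-! H2.KTwo: groups with many classes of `p`-elements. -/

open Pointwise Cfsg Subgroup

namespace H2K
open H1

theorem fib {α β : Type*} [Finite α] [Finite β] (f : α → β) (s : Set α) (t : Set β) (n : ℕ)
    (h : ∀ b ∈ t, n ≤ {a ∈ s | f a = b}.ncard) : n * t.ncard ≤ s.ncard := by
  classical
  haveI := Fintype.ofFinite α
  haveI := Fintype.ofFinite β
  have := Finset.card_mul_le_card_mul (s := t.toFinset) (t := s.toFinset) (m := n) (n := 1)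
    (fun b a => f a = b) (fun b hb => by
      refine (h b (Set.mem_toFinset.1 hb)).trans (le_of_eq ?_)
      rw [Set.ncard_eq_toFinset_card']
      congr 1
      ext a
      simp [Finset.bipartiteAbove])
    (fun a _ => Finset.card_le_one.2 fun b hb c hc => by
      simp only [Finset.bipartiteBelow, Finset.mem_filter] at hb hc
      rw [← hb.2, hc.2])
  rwa [mul_one, mul_comm, ← Set.ncard_eq_toFinset_card', ← Set.ncard_eq_toFinset_card'] at this

variable {G : Type*} [Group G] [Finite G]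

omit [Finite G] in
theorem odd_sq {a x : G} (o : Odd (orderOf a)) (h : a * a * x * (a * a)⁻¹ = x) : a * x * a⁻¹ = x := by
  obtain ⟨k, hk⟩ := o
  have c : Commute (a * a) x := mul_inv_eq_iff_eq_mul.1 h
  have e : (a * a) ^ (k + 1) = a := by
    rw [← pow_two, ← pow_mul, show 2 * (k + 1) = orderOf a + 1 by omega, pow_succ, pow_orderOf_eq_one, one_mul]
  have := c.pow_left (k + 1)
  rw [e] at this
  exact mul_inv_eq_iff_eq_mul.2 this

theorem count {p : ℕ} [Fact p.Prime] (P : Sylow p G) {S : Subgroup G} (hS : S ≤ P)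
    (hZ : (P : Subgroup G) ⊓ centralizer (P : Set G) ≤ S) {A : Set G}
    (hA : ∀ a ∈ A, a ∈ normalizer (S : Set G) ∧ Odd (orderOf a)) :
    6 * kq (fun n => ∃ k, n = p ^ k) G + Nat.card S ≤
      4 * Nat.card ↥(S ⊓ centralizer A) + 3 * Nat.card (P : Subgroup G) := by
  classical
  obtain ⟨D, hD⟩ : ∃ D, D = S ⊓ centralizer A := ⟨_, rfl⟩
  rw [← hD]
  have DS : D ≤ S := hD ▸ inf_le_left
  let f : G → ConjClasses G := ConjClasses.mk
  have fc : ∀ a x : G, f (a * x * a⁻¹) = f x := fun a x =>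
    ConjClasses.mk_eq_mk_iff_isConj.2 (isConj_iff.2 ⟨a, rfl⟩).symm
  have h1 : 1 * (f '' D).ncard ≤ (D : Set G).ncard := by
    rw [one_mul]; exact Set.ncard_image_le (Set.toFinite _)
  have h2 := fib f ((S : Set G) \ D) (f '' S \ f '' D) 3 (by
    rintro _ ⟨⟨x, hx, rfl⟩, n⟩
    have nD : ∀ y, f y = f x → y ∉ D := fun y e hy => n ⟨y, hy, e⟩
    have := nD x rfl
    rw [hD, mem_inf, mem_centralizer_iff] at this
    push Not at this
    obtain ⟨a, ha, c⟩ := this hx
    have c' : a * x * a⁻¹ ≠ x := fun e => c (mul_inv_eq_iff_eq_mul.1 e)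
    obtain ⟨aN, o⟩ := hA a ha
    refine (Set.two_lt_ncard_iff (Set.toFinite _)).2 ⟨x, a * x * a⁻¹, a * a * x * (a * a)⁻¹,
      ⟨⟨hx, nD _ rfl⟩, rfl⟩, ⟨⟨conj_mem_of_mem_normalizer aN hx, nD _ (fc _ _)⟩, fc _ _⟩,
      ⟨⟨conj_mem_of_mem_normalizer (mul_mem aN aN) hx, nD _ (fc _ _)⟩, fc _ _⟩, c'.symm,
      fun e => c' (odd_sq o e.symm), fun e => c' ?_⟩
    calc a * x * a⁻¹ = a⁻¹ * (a * a * x * (a * a)⁻¹) * a := by group
      _ = x := by rw [← e]; group)
  have h3 := fib f (((P : Subgroup G) : Set G) \ S) (f '' (P : Subgroup G) \ f '' S) 2 (by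
    rintro _ ⟨⟨x, hx, rfl⟩, n⟩
    have nD : ∀ y, f y = f x → y ∉ S := fun y e hy => n ⟨y, hy, e⟩
    have : ¬ ∀ a ∈ (P : Set G), a * x = x * a := fun k => nD x rfl (hZ ⟨hx, k⟩)
    push Not at this
    obtain ⟨a, ha, c⟩ := this
    exact (Set.one_lt_ncard_iff (Set.toFinite _)).2 ⟨x, a * x * a⁻¹, ⟨⟨hx, nD _ rfl⟩, rfl⟩,
      ⟨⟨(P : Subgroup G).mul_mem ((P : Subgroup G).mul_mem ha hx) ((P : Subgroup G).inv_mem ha),
        nD _ (fc _ _)⟩, fc _ _⟩, fun e => c (mul_inv_eq_iff_eq_mul.1 e.symm)⟩)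
  have h4 : kq (fun n => ∃ k, n = p ^ k) G ≤ (f '' (P : Subgroup G)).ncard :=
    Set.ncard_le_ncard (s := {c : ConjClasses G | ∀ x ∈ c.carrier, ∃ k, orderOf x = p ^ k}) (fun c hc => by
      obtain ⟨b, hb⟩ := kq_cover P c hc
      exact ⟨b, b.2, hb⟩) (Set.toFinite _)
  have e1 := Set.ncard_diff_add_ncard_of_subset (Set.image_mono (f := f) (DS : (D : Set G) ⊆ S)) (Set.toFinite _)
  have e2 := Set.ncard_diff_add_ncard_of_subset
    (Set.image_mono (f := f) (hS : (S : Set G) ⊆ (P : Subgroup G))) (Set.toFinite _)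
  have e3 := Set.ncard_diff_add_ncard_of_subset (DS : (D : Set G) ⊆ S) (Set.toFinite _)
  have e4 := Set.ncard_diff_add_ncard_of_subset (hS : (S : Set G) ⊆ (P : Subgroup G)) (Set.toFinite _)
  change _ + (S : Set G).ncard ≤ 4 * (D : Set G).ncard + 3 * ((P : Subgroup G) : Set G).ncard
  omega

theorem four_le {S D : Subgroup G} (h : D ≤ S) {u v w : G} (hu : u ∈ S) (hv : v ∈ S) (hw : w ∈ S)
    (u1 : u ∉ D) (v1 : v ∉ D) (w1 : w ∉ D) (uv : u⁻¹ * v ∉ D) (uw : u⁻¹ * w ∉ D) (vw : v⁻¹ * w ∉ D) :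
    4 * Nat.card D ≤ Nat.card S := by
  have inv : ∀ a b : G, a⁻¹ * b ∉ D → b⁻¹ * a ∉ D := fun a b n k => n (by simpa using D.inv_mem k)
  have : 4 ≤ (D.subgroupOf S).index := by
    let F : Fin 4 → S ⧸ D.subgroupOf S := fun i => ((![1, ⟨u, hu⟩, ⟨v, hv⟩, ⟨w, hw⟩] i : S) : S ⧸ D.subgroupOf S)
    have := Nat.card_le_card_of_injective F (fun i j e => by
      have := inv _ _ uv; have := inv _ _ uw; have := inv _ _ vw
      fin_cases i <;> fin_cases j <;> simp_all [F, QuotientGroup.eq, mem_subgroupOf])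
    rwa [Nat.card_eq_fintype_card, Fintype.card_fin] at this
  rw [← (D.subgroupOf S).card_mul_index, Nat.card_congr (subgroupOfEquivOfLe h).toEquiv, mul_comm]
  exact Nat.mul_le_mul_left _ this

theorem four_le_of_coprime {S : Subgroup G} {b : G} (hb : b ∈ normalizer (S : Set G)) (o : Odd (orderOf b))
    (c : (orderOf b).Coprime (Nat.card S)) (n : b ∉ centralizer (S : Set G)) :
    4 * Nat.card ↥(S ⊓ centralizer {b}) ≤ Nat.card S := by
  rw [mem_centralizer_iff] at n
  push Not at n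
  obtain ⟨x, hx, n⟩ := n
  have key : ∀ a ∈ zpowers b, ∀ y ∈ S, y⁻¹ * (a * y * a⁻¹) ∈ S ⊓ centralizer {b} → a * y * a⁻¹ = y := by
    intro a ha y hy ⟨h1, h2⟩
    obtain ⟨d, hd⟩ : ∃ d, d = y⁻¹ * (a * y * a⁻¹) := ⟨_, rfl⟩
    rw [← hd] at h1 h2
    have ad : Commute a d := by
      obtain ⟨k, rfl⟩ := ha
      exact (show Commute b d from (mem_centralizer_singleton_iff.1 h2).symm).zpow_left k
    have e : ∀ m : ℕ, a ^ m * y * (a ^ m)⁻¹ = y * d ^ m := fun m => by
      induction m with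
      | zero => simp
      | succ m ih =>
        calc a ^ (m + 1) * y * (a ^ (m + 1))⁻¹ = a * (a ^ m * y * (a ^ m)⁻¹) * a⁻¹ := by rw [pow_succ']; group
          _ = (a * y * a⁻¹) * (a * d ^ m * a⁻¹) := by rw [ih]; group
          _ = y * d ^ (m + 1) := by
            rw [(ad.pow_right m).eq, mul_inv_cancel_right, pow_succ', ← mul_assoc, hd]; group
    have e1 := e (orderOf b)
    have : a ^ orderOf b = 1 := orderOf_dvd_iff_pow_eq_one.1 (orderOf_dvd_of_mem_zpowers ha)
    rw [this, one_mul, inv_one, mul_one, left_eq_mul] at e1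
    have d1 : d = 1 := orderOf_eq_one_iff.1 (Nat.eq_one_of_dvd_coprimes c (orderOf_dvd_iff_pow_eq_one.2 e1)
      (orderOf_dvd_card_of_mem h1))
    exact (inv_mul_eq_one.1 (hd ▸ d1)).symm
  have c' : b * x * b⁻¹ ≠ x := fun e => n (mul_inv_eq_iff_eq_mul.1 e).symm
  have c2 : b * (b * x * b⁻¹) * b⁻¹ ≠ b * x * b⁻¹ := fun e => c' (by simpa using e)
  have c3 : b * (b * (b * x * b⁻¹) * b⁻¹) * b⁻¹ ≠ b * (b * x * b⁻¹) * b⁻¹ := fun e => c' (by simpa using e)
  have nd : ∀ y, b * y * b⁻¹ ≠ y → y ∉ S ⊓ centralizer {b} := fun y n k =>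
    n (mul_inv_eq_iff_eq_mul.2 (mem_centralizer_singleton_iff.1 k.2).symm)
  have h1 := conj_mem_of_mem_normalizer hb hx
  refine four_le inf_le_left hx h1 (conj_mem_of_mem_normalizer hb h1) (nd _ c') (nd _ c2) (nd _ c3)
    (fun k => c' (key b (mem_zpowers b) x hx k)) (fun k => c' (odd_sq o (key (b * b)
      (mul_mem (mem_zpowers b) (mem_zpowers b)) x hx (by convert k using 2; group))))
    (fun k => c2 (key b (mem_zpowers b) _ h1 k))

theorem four_le_of_not_comm {S : Subgroup G} (n : ¬ S ≤ centralizer (S : Set G)) :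
    4 * Nat.card ↥(S ⊓ centralizer (S : Set G)) ≤ Nat.card S := by
  obtain ⟨x, hx, n⟩ := SetLike.not_le_iff_exists.1 n
  rw [mem_centralizer_iff] at n
  push Not at n
  obtain ⟨y, hy, n⟩ := n
  refine four_le inf_le_left hx hy (S.mul_mem hx hy) (fun k => n (k.2 y hy)) (fun k => n (k.2 x hx).symm)
    (fun k => n ?_) (fun k => n ?_) (fun k => n ?_) (fun k => n ?_)
  · have := k.2 x hx
    rw [mul_assoc] at this
    exact (mul_left_cancel this).symm
  · have := k.2 x hx
    rw [mul_inv_cancel_left] at this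
    calc y * x = x * (x⁻¹ * y * x) := by group
      _ = x * y := by rw [← this]
  · rw [inv_mul_cancel_left] at k
    exact (k.2 x hx).symm
  · have := k.2 y hy
    rw [mul_inv_cancel_left] at this
    calc y * x = y * (x * y) * y⁻¹ := by group
      _ = y * (y⁻¹ * (x * y) * y) * y⁻¹ := congrArg (fun t => y * t * y⁻¹) this
      _ = x * y := by group

theorem npc_two (P : Sylow 2 G) (h : Nat.card (P : Subgroup G) < 2 * kq (fun n => ∃ k, n = 2 ^ k) G) :
    HasNormalPComplement 2 G := by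
  haveI := Fact.mk Nat.prime_two
  by_contra hn
  obtain ⟨Q, hQ, q, k, hq, hq2, -, g, hg, ho, hc⟩ := exists_of_not_hasNPC P hn
  have hQp : IsPGroup 2 Q := P.isPGroup'.to_le hQ
  obtain ⟨T, hT⟩ := exists_isSylowIn (p := 2) (centralizer (Q : Set G))
  obtain ⟨d, hd, n, hn, e⟩ := hT.frattini (centralizer_normalizer Q hg)
  have nQ : n ∈ normalizer (Q : Set G) := by
    rw [show n = d⁻¹ * g by rw [e]; group]
    exact mul_mem (inv_mem (centralizer_le_normalizer _ hd)) hg
  obtain ⟨a, ha, b, hb, hab, ⟨j, hj⟩, hbp⟩ := exists_p_part 2 n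
  have bo : Odd (orderOf b) := Nat.odd_iff.2 (by omega)
  have bC : b ∉ centralizer (Q : Set G) := fun bC => hc (by
    have e1 : ∀ x ∈ Q, a * x * a⁻¹ = g * x * g⁻¹ := fun x hx => by
      have h1 := hd _ (conj_mem_of_mem_normalizer nQ hx)
      calc a * x * a⁻¹ = a * (x * b) * b⁻¹ * a⁻¹ := by group
        _ = n * x * n⁻¹ := by rw [bC x hx, hab]; group
        _ = n * x * n⁻¹ * d * d⁻¹ := by group
        _ = _ := by rw [h1, e]; group
    have e2 : ∀ m : ℕ, ∀ x ∈ Q, a ^ m * x * (a ^ m)⁻¹ = g ^ m * x * (g ^ m)⁻¹ := fun m => by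
      induction m with
      | zero => simp
      | succ m ih =>
        intro x hx
        calc a ^ (m + 1) * x * (a ^ (m + 1))⁻¹ = a ^ m * (a * x * a⁻¹) * (a ^ m)⁻¹ := by rw [pow_succ]; group
          _ = _ := by rw [e1 x hx, ih _ (conj_mem_of_mem_normalizer hg hx), pow_succ]; group
    have e3 : g ^ orderOf a ∈ centralizer (Q : Set G) := fun x hx => by
      have := e2 (orderOf a) x hx
      rw [pow_orderOf_eq_one, one_mul, inv_one, mul_one] at this
      exact (mul_inv_eq_iff_eq_mul.1 this.symm).symm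
    exact zpowers_le.2 e3 (mem_zpowers_pow_iff.2 (by
      rw [hj, ho]; exact Nat.coprime_pow_primes _ _ Nat.prime_two hq hq2.symm)))
  have hS : IsPGroup 2 (Q ⊔ T : Subgroup G) :=
    IsPGroup.to_sup_of_normal_left' hQp hT.isPGroup (hT.le.trans (centralizer_le_normalizer _))
  obtain ⟨R, hR⟩ := hS.exists_le_sylow
  have bN : b ∈ normalizer ((Q ⊔ T : Subgroup G) : Set G) :=
    le_normalizer_sup (zpowers_le.2 nQ) (zpowers_le.2 hn) hb
  have h1 := count R hR (A := {b}) (fun x hx => mem_sup_right (hT.mem_of_mem_normalizer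
    (fun y hy => hx.2 y (hR (mem_sup_left hy))) (exists_orderOf_eq_pow R.isPGroup' hx.1)
    (centralizer_le_normalizer _ fun y hy => hx.2 y (hR (mem_sup_right hy)))))
    (by rintro _ rfl; exact ⟨bN, bo⟩)
  have h2 := four_le_of_coprime bN bo (isPGroup_coprime hS ((Nat.Prime.coprime_iff_not_dvd Nat.prime_two).2 hbp).symm).symm
    fun k => bC fun y hy => k y (mem_sup_left hy)
  rw [P.card_eq_multiplicity, ← R.card_eq_multiplicity] at h
  omega

theorem odd_centralizes {p : ℕ} [hp : Fact p.Prime] (p2 : p ≠ 2) (P : Sylow p G)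
    (h : Nat.card (P : Subgroup G) < 2 * kq (fun n => ∃ k, n = p ^ k) G) {n : G}
    (hn : n ∈ normalizer ((P : Subgroup G) : Set G)) (o : Odd (orderOf n)) :
    n ∈ centralizer ((P : Subgroup G) : Set G) := by
  obtain ⟨a, ha, b, hb, rfl, hj, hbp⟩ := exists_p_part p n
  refine mul_mem ?_ ?_
  · have aP := (isSylowIn_top P).mem_of_mem_normalizer trivial hj (zpowers_le.2 hn ha)
    by_contra k
    have h1 := count P le_rfl inf_le_left (A := (P : Subgroup G)) fun x hx => ⟨le_normalizer hx, by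
      obtain ⟨i, hi⟩ := exists_orderOf_eq_pow P.isPGroup' hx
      rw [hi]; exact (hp.out.odd_of_ne_two p2).pow⟩
    have h2 := four_le_of_not_comm (S := (P : Subgroup G)) fun l => k (l aP)
    omega
  · by_contra k
    have bo : Odd (orderOf b) := o.of_dvd_nat (orderOf_dvd_of_mem_zpowers hb)
    have h1 := count P le_rfl inf_le_left (A := {b}) (by rintro _ rfl; exact ⟨zpowers_le.2 hn hb, bo⟩)
    have h2 := four_le_of_coprime (zpowers_le.2 hn hb) bo
      (isPGroup_coprime P.isPGroup' ((Nat.Prime.coprime_iff_not_dvd hp.out).2 hbp).symm).symm k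
    omega

end H2K
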