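import Cfsg.Agent.H1.MaxNil
import Cfsg.Agent.H1.Misc2

/-! H2.MaxCz: normal subgroups whose non-central elements have maximal centralizers. -/

open Pointwise Cfsg Subgroup
open scoped commutatorElement

namespace H2M
open H1

universe u
variable {G : Type u} [Group G] [Finite G] {N L M : Subgroup G} {x y : G}

theorem solv_min [L.Normal] (hmin : ∀ K : Subgroup G, K.Normal → K ≤ L → K = ⊥ ∨ K = L) (hM : IsCoatom M)
    (hn : Group.IsNilpotent ↥(M ⊓ L)) {q : ℕ} [hq : Fact q.Prime] (q2 : q ≠ 2) (hd : q ∣ Nat.card ↥(M ⊓ L)) :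
    IsPGroup q L := by
  by_contra hL
  obtain ⟨S, h1⟩ := exists_isSylowIn (p := q) (M ⊓ L)
  have h3 : S ≠ ⊥ := fun e => h1.eq_bot_iff.1 e hd
  have MS : M ≤ normalizer (S : Set G) := (le_normalizer_inf le_normalizer le_normalizer_of_normal).trans
    (h1.normalizer_le_of_nilpotent hn)
  have hN : ∀ U : Subgroup G, U ≠ ⊥ → U ≤ S → M ≤ normalizer (U : Set G) → normalizer (U : Set G) = M := by
    intro U u1 u2 u3
    by_contra hne
    have := (hmin U (normalizer_eq_top_iff.1 (hM.2 _ (lt_of_le_of_ne u3 (Ne.symm hne))))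
      (u2.trans (h1.le.trans inf_le_right))).resolve_left u1
    exact hL (this ▸ h1.isPGroup.to_le u2)
  have h4 : IsSylowIn q S L := isSylowIn_of_normalizer (h1.le.trans inf_le_right) (by rwa [hN S h3 le_rfl MS])
  obtain ⟨W, w1, w2, w3, w4⟩ := exists_W q2 h4 h3
  have h5 := w4 (by rw [hN W w2 w1 (MS.trans w3), inf_comm]; exact hasNPC_of_nilpotent hn q)
  have h6 := isPiHall_iff.1 (isPiHall_piCore_of_forall_hasNPC (G := L) (π := {q}) fun p _ hp _ => by
    obtain rfl : p = q := hp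
    exact h5)
  rw [compl_compl] at h6
  rcases hmin ((piCore {q}ᶜ L).map L.subtype) inferInstance (map_subtype_le _) with e | e
  · rw [map_eq_bot_iff_of_injective _ L.subtype_injective] at e
    rw [e, index_bot] at h6
    exact hL (isPGroup_iff_isPiNum.2 h6.2)
  · refine h6.1 q hq.out ?_ rfl
    rw [← card_subtype, e]
    exact hd.trans (card_dvd_of_le inf_le_right)

/-- the hypothesis -/
def MC (N : Subgroup G) : Prop :=
  ∀ x : G, x ∈ N → x ∉ centralizer (N : Set G) → IsCoatom (centralizer ({x} : Set G))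

omit [Finite G] in
theorem MC.eq (h : MC N) (hx : x ∈ N) (x' : x ∉ centralizer (N : Set G)) (hy : y ∈ N)
    (y' : y ∉ centralizer (N : Set G)) (l : centralizer ({x} : Set G) ≤ centralizer {y}) :
    centralizer ({y} : Set G) = centralizer {x} :=
  ((h x hx x').le_iff.1 l).resolve_left (h y hy y').1

theorem MC.cop (h : MC N) (hx : x ∈ N) (x' : x ∉ centralizer (N : Set G)) (hy : y ∈ N)
    (y' : y ∉ centralizer (N : Set G)) (c : Commute x y) (o : (orderOf x).Coprime (orderOf y)) :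
    centralizer ({x} : Set G) = centralizer {y} := by
  have n : x * y ∉ centralizer (N : Set G) := fun k => x' (zpowers_le.2 k (mem_zpowers_mul_left c o))
  have e := centralizer_mul_of_coprime c o
  rw [h.eq (N.mul_mem hx hy) n hx x' (e ▸ inf_le_left), h.eq (N.mul_mem hx hy) n hy y' (e ▸ inf_le_right)]

omit [Finite G] in
theorem cz_le {a : G} (ha : a ∈ zpowers x) : centralizer ({x} : Set G) ≤ centralizer {a} := fun g hg => by
  obtain ⟨k, rfl⟩ := ha
  exact mem_centralizer_singleton_iff.2 ((show Commute g x from mem_centralizer_singleton_iff.1 hg).zpow_right k)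

theorem MC.nil (h : MC N) (hy : y ∈ N) (y' : y ∉ centralizer (N : Set G)) {q k : ℕ} [hq : Fact q.Prime]
    (o : orderOf y = q ^ k) : Group.IsNilpotent ↥(centralizer ({y} : Set G) ⊓ N) := by
  refine of_quotient_center_nilpotent (IsPGroup.isNilpotent (p := q) fun g => ?_)
  obtain ⟨⟨d, hd⟩, rfl⟩ := QuotientGroup.mk_surjective g
  obtain ⟨a, ha, b, hb, e, ⟨j, hj⟩, hb'⟩ := exists_p_part q d
  have bD := zpowers_le.2 hd hb
  have bc : (⟨b, bD⟩ : ↥(centralizer ({y} : Set G) ⊓ N)) ∈ center _ := mem_center_iff.2 fun w => Subtype.ext (by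
    by_cases k : b ∈ centralizer (N : Set G)
    · exact k w w.2.2
    · have := h.cop bD.2 k hy y' (mem_centralizer_singleton_iff.1 bD.1)
        (o ▸ ((Nat.Prime.coprime_iff_not_dvd hq.out).2 hb').symm.pow_right _)
      exact mem_centralizer_singleton_iff.1 (this.ge w.2.1))
  refine ⟨j, ?_⟩
  rw [← QuotientGroup.mk_pow, QuotientGroup.eq_one_iff]
  convert pow_mem bc (q ^ j) using 1
  refine Subtype.ext ?_
  simp only [SubmonoidClass.mk_pow]
  rw [e, (commute_of_mem_zpowers ha hb).mul_pow, ← hj, pow_orderOf_eq_one, one_mul]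

theorem comm_cop {n : G} {a b : ℕ} (hn : n ∈ N) (hy : y ∈ N) (c : a.Coprime b)
    (h1 : n ^ a ∈ centralizer (N : Set G)) (h2 : y ^ b ∈ centralizer (N : Set G))
    (h : y * n * y⁻¹ * n⁻¹ ∈ centralizer (N : Set G)) : n * y = y * n := by
  obtain ⟨z, hz⟩ : ∃ z, z = y * n * y⁻¹ * n⁻¹ := ⟨_, rfl⟩
  rw [← hz] at h
  have zn : Commute z n := (h n hn).symm
  have zy : Commute z y := (h y hy).symm
  have e1 : y * n * y⁻¹ = z * n := by rw [hz]; group
  have e2 : n⁻¹ * y * n = z * y := by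
    calc n⁻¹ * y * n = n⁻¹ * (z * n) * y := by rw [← e1]; group
      _ = _ := by rw [zn.eq]; group
  have f1 : z ^ a = 1 := by
    have : (y * n * y⁻¹) ^ a = n ^ a := by rw [conj_pow, h1 y hy, mul_inv_cancel_right]
    rwa [e1, zn.mul_pow, mul_eq_right] at this
  have f2 : z ^ b = 1 := by
    have : (n⁻¹ * y * n⁻¹⁻¹) ^ b = y ^ b := by rw [conj_pow, h2 _ (inv_mem hn), mul_inv_cancel_right]
    rwa [inv_inv, e2, zy.mul_pow, mul_eq_right] at this
  have : z = 1 := orderOf_eq_one_iff.1 (Nat.eq_one_of_dvd_coprimes c (orderOf_dvd_iff_pow_eq_one.2 f1)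
    (orderOf_dvd_iff_pow_eq_one.2 f2))
  rw [this, one_mul, mul_inv_eq_iff_eq_mul] at e1
  exact e1.symm

/-- a chief factor above the centre -/
structure CF (N L : Subgroup G) (p : ℕ) : Prop where
  le : L ≤ N
  ge : N ⊓ centralizer (N : Set G) ≤ L
  ne : ¬ L ≤ centralizer (N : Set G)
  com : ∀ a ∈ L, ∀ b ∈ L, a * b * a⁻¹ * b⁻¹ ∈ centralizer (N : Set G)
  pow : ∀ a ∈ L, a ^ p ∈ centralizer (N : Set G)
  min : ∀ K : Subgroup G, K.Normal → N ⊓ centralizer (N : Set G) ≤ K → K ≤ L →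
    K ≤ centralizer (N : Set G) ∨ K = L

theorem MC.exists_cf [N.Normal] (h : MC N) (n : ¬ N ≤ centralizer (N : Set G)) :
    ∃ (L : Subgroup G) (p : ℕ), p.Prime ∧ L.Normal ∧ CF N L p := by
  obtain ⟨Z, hZ⟩ : ∃ Z, Z = N ⊓ centralizer (N : Set G) := ⟨_, rfl⟩
  haveI : Z.Normal := hZ ▸ inferInstance
  have hf := QuotientGroup.mk'_surjective Z
  obtain ⟨f, hfd⟩ : ∃ f, f = QuotientGroup.mk' Z := ⟨_, rfl⟩
  have kf : f.ker = Z := hfd ▸ QuotientGroup.ker_mk' Z
  rw [← hfd] at hf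
  have one : ∀ x, f x = 1 ↔ x ∈ Z := fun x => MonoidHom.mem_ker.symm.trans (SetLike.ext_iff.1 kf x)
  haveI := (inferInstance : N.Normal).map f hf
  obtain ⟨M, m1, m2, m3, m4⟩ := exists_minimal_normal_le (N.map f) fun e =>
    n fun x hx => (hZ ▸ (one x).1 (mem_bot.1 (e ▸ mem_map_of_mem f hx))).2
  have LN : M.comap f ≤ N := by
    have := comap_mono (f := f) m3
    rwa [comap_map_eq_self (by rw [kf, hZ]; exact inf_le_left)] at this
  have hs : Group.IsSolvable M := by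
    by_cases k : ∀ r : ℕ, r.Prime → r ∣ Nat.card M → r = 2
    · haveI := Fact.mk Nat.prime_two
      exact isSolvable_of_isPGroup (p := 2) (isPGroup_iff_isPiNum.2 k)
    · push Not at k
      obtain ⟨q, hq, hd, q2⟩ := k
      haveI := Fact.mk hq
      obtain ⟨w, hw, ow⟩ := exists_mem_orderOf_eq_prime hq hd
      obtain ⟨g, rfl⟩ := hf w
      obtain ⟨y, -, e, j, oy⟩ := exists_lift_p f (p := q) g ⟨1, by rw [ow, pow_one]⟩
      rw [← e] at hw ow
      have yN : y ∈ N := LN hw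
      have y' : y ∉ centralizer (N : Set G) := fun k => hq.one_lt.ne' (by
        rw [← ow, (one y).2 (hZ ▸ ⟨yN, k⟩), orderOf_one])
      have ZC : f.ker ≤ centralizer {y} := fun z hz =>
        mem_centralizer_singleton_iff.2 ((hZ ▸ kf ▸ hz : z ∈ N ⊓ centralizer (N : Set G)).2 y yN).symm
      refine isSolvable_of_isPGroup (solv_min m4 (isCoatom_map hf (h y yN y') ZC)
        (isNilpotent_of_le ?_ (isNilpotent_map f (h.nil yN y' oy))) q2 (ow ▸ orderOf_dvd_card_of_mem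
          ⟨mem_map_of_mem f (mem_centralizer_singleton_iff.2 rfl), hw⟩))
      rintro _ ⟨⟨a, ha, rfl⟩, k⟩
      exact mem_map_of_mem f ⟨ha, LN k⟩
  obtain ⟨c, p, hp, pw⟩ := minimal_normal_elementary hs m2 m4
  refine ⟨M.comap f, p, hp, inferInstance, LN, fun z hz => ?_, fun k => m2 ?_, fun a ha b hb => ?_,
    fun a ha => ?_, fun K hK k1 k2 => ?_⟩
  · rw [mem_comap, (one z).2 (hZ ▸ hz)]; exact one_mem _
  · refine eq_bot_iff.2 fun w hw => ?_
    obtain ⟨g, rfl⟩ := hf w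
    exact (one g).2 (hZ ▸ ⟨LN hw, k hw⟩)
  · refine (hZ ▸ (one _).1 ?_ : _ ∈ N ⊓ centralizer (N : Set G)).2
    simp only [map_mul, map_inv]
    rw [comm_of_mem c ha hb]; group
  · exact (hZ ▸ (one _).1 (by rw [map_pow]; exact pw _ ha) : _ ∈ N ⊓ centralizer (N : Set G)).2
  · refine (m4 (K.map f) (hK.map f hf) (map_le_iff_le_comap.2 k2)).imp (fun e x hx => ?_) fun e => ?_
    · exact (hZ ▸ (one x).1 (mem_bot.1 (e ▸ mem_map_of_mem f hx)) : _ ∈ N ⊓ centralizer (N : Set G)).2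
    · rw [← e, comap_map_eq_self (by rwa [kf, hZ])]

theorem mem_of_pow {K : Subgroup G} {a : ℕ} (h : x ^ a ∈ K) (c : a.Coprime (orderOf x)) : x ∈ K :=
  zpowers_le.2 h (mem_zpowers_pow_iff.2 c)

theorem MC.step1 [N.Normal] [L.Normal] (h : MC N) {p : ℕ} [hp : Fact p.Prime] (c : CF N L p) (hy : y ∈ N)
    (y' : y ∉ centralizer (N : Set G)) (o : ¬ p ∣ orderOf y) :
    centralizer {y} ⊔ L = ⊤ ∧ centralizer {y} ⊓ L ≤ centralizer (N : Set G) := by
  have cp : ∀ x : G, ¬ p ∣ orderOf x → p.Coprime (orderOf x) := fun x => (Nat.Prime.coprime_iff_not_dvd hp.out).2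
  have n1 : ¬ L ≤ centralizer {y} := fun l => by
    obtain ⟨n, hn, n'⟩ := SetLike.not_le_iff_exists.1 c.ne
    obtain ⟨a, ha, b, hb, rfl, ⟨j, hj⟩, hb'⟩ := exists_p_part p n
    have aL := zpowers_le.2 hn ha
    have a' : a ∉ centralizer (N : Set G) := fun k =>
      n' (mul_mem k (mem_of_pow (c.pow b (zpowers_le.2 hn hb)) (cp b hb')))
    have e1 := h.cop (c.le aL) a' hy y' (mem_centralizer_singleton_iff.1 (l aL)) (hj ▸ (cp y o).pow_left j)
    have all : ∀ w ∈ N, w ∈ centralizer ({y} : Set G) → w ∉ centralizer (N : Set G) →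
        centralizer ({w} : Set G) = centralizer {y} := fun w hw wy w' => by
      obtain ⟨u, hu, v, hv, e, ⟨i, hi⟩, hv'⟩ := exists_p_part p w
      by_cases k : u ∈ centralizer (N : Set G)
      · have v' : v ∉ centralizer (N : Set G) := fun k' => w' (e ▸ mul_mem k k')
        rw [← h.eq hw w' (zpowers_le.2 hw hv) v' (cz_le hv), ← e1]
        exact h.cop (zpowers_le.2 hw hv) v' (c.le aL) a' (mem_centralizer_singleton_iff.1
          (e1 ▸ zpowers_le.2 wy hv)) (hj ▸ ((cp v hv').pow_left j).symm)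
      · rw [← h.eq hw w' (zpowers_le.2 hw hu) k (cz_le hu)]
        exact h.cop (zpowers_le.2 hw hu) k hy y' (mem_centralizer_singleton_iff.1 (zpowers_le.2 wy hu))
          (hi ▸ (cp y o).pow_left i)
    obtain ⟨g, hg, gy⟩ : ∃ g ∈ N, g * y ≠ y * g := by
      by_contra k; push Not at k; exact y' k
    have g' : g ∉ centralizer (N : Set G) := fun k => gy (k y hy).symm
    have key : ∀ w ∈ N, w ∈ centralizer ({y} : Set G) → w ∈ centralizer ({g} : Set G) →
        w ∈ centralizer (N : Set G) := fun w hw h1 h2 => by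
      by_contra w'
      exact gy (mem_centralizer_singleton_iff.1 (all w hw h1 w' ▸ mem_centralizer_singleton_iff.2
        (mem_centralizer_singleton_iff.1 h2).symm))
    have top := sup_eq_top_of_coatom (h g hg g') fun k : L ≤ _ => a' (key a (c.le aL) (l aL) (k aL))
    obtain ⟨s, hs, t, ht, e⟩ := mem_sup_of_normal_right.1 (top ▸ mem_top y)
    have e' : s = y * t⁻¹ := by rw [← e]; group
    have sN : s ∈ N := e' ▸ N.mul_mem hy (N.inv_mem (c.le ht))
    have := key s sN (e' ▸ mul_mem (mem_centralizer_singleton_iff.2 rfl) (inv_mem (l ht))) hs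
    exact y' (mem_of_pow (c.pow y (e ▸ L.mul_mem (c.ge ⟨sN, this⟩) ht)) (cp y o))
  have top := sup_eq_top_of_coatom (h y hy y') n1
  have Zy : N ⊓ centralizer (N : Set G) ≤ centralizer {y} ⊓ L := fun z hz =>
    ⟨mem_centralizer_singleton_iff.2 (hz.2 y hy).symm, c.ge hz⟩
  refine ⟨top, (c.min _ (normal_of_sup_eq_top top (le_normalizer_inf le_normalizer le_normalizer_of_normal)
    fun a ha => mem_normalizer_iff_conj_mem.2 fun b hb => ?_) Zy inf_le_right).resolve_right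
      fun e => n1 (e ▸ inf_le_left)⟩
  rw [show a * b * a⁻¹ = a * b * a⁻¹ * b⁻¹ * b by group]
  exact mul_mem (Zy ⟨c.le (mul_mem (mul_mem (mul_mem ha hb.2) (inv_mem ha)) (inv_mem hb.2)),
    c.com a ha b hb.2⟩) hb

theorem MC.fpf [N.Normal] [L.Normal] (h : MC N) {p : ℕ} [hp : Fact p.Prime] (c : CF N L p) (hy : y ∈ N)
    (y' : y ∉ centralizer (N : Set G)) (o : ¬ p ∣ orderOf y) {n : G} (hn : n ∈ L)
    (k : y * n * y⁻¹ * n⁻¹ ∈ centralizer (N : Set G)) : n ∈ centralizer (N : Set G) :=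
  (h.step1 c hy y' o).2 ⟨mem_centralizer_singleton_iff.2 (comm_cop (c.le hn) hy
    ((Nat.Prime.coprime_iff_not_dvd hp.out).2 o) (c.pow n hn) (by rw [pow_orderOf_eq_one]; exact one_mem _) k), hn⟩

theorem MC.step2 [N.Normal] [L.Normal] (h : MC N) {p : ℕ} [hp : Fact p.Prime] (c : CF N L p) (hy : y ∈ N)
    (y' : y ∉ centralizer (N : Set G)) (o : ¬ p ∣ orderOf y) {u : G} (hu : u ∈ N) {j : ℕ} (ou : orderOf u = p ^ j)
    (uy : u ∈ centralizer ({y} : Set G)) : u ∈ centralizer (N : Set G) := by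
  by_contra u'
  have e := h.cop hu u' hy y' (mem_centralizer_singleton_iff.1 uy)
    (ou ▸ ((Nat.Prime.coprime_iff_not_dvd hp.out).2 o).pow_left j)
  obtain ⟨Z, hZ⟩ : ∃ Z, Z = N ⊓ centralizer (N : Set G) := ⟨_, rfl⟩
  haveI : Z.Normal := hZ ▸ inferInstance
  have one : ∀ x ∈ N, QuotientGroup.mk' Z x = 1 ↔ x ∈ centralizer (N : Set G) := fun x hx => by
    rw [← MonoidHom.mem_ker, QuotientGroup.ker_mk', hZ]; exact ⟨fun k => k.2, fun k => ⟨hx, k⟩⟩
  haveI := (inferInstance : L.Normal).map _ (QuotientGroup.mk'_surjective Z)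
  obtain ⟨⟨_, ⟨n, hn, rfl⟩, h1⟩, h2⟩ := ne_bot_iff_exists_ne_one.1 (inf_centralizer_ne_bot_of_isPGroup (p := p)
    (U := L.map (QuotientGroup.mk' Z)) (P := (zpowers u).map (QuotientGroup.mk' Z))
    (isPGroup_of_pow_eq_one (by
      rintro _ ⟨a, ha, rfl⟩
      rw [← map_pow]; exact (one _ (c.le (pow_mem ha p))).2 (c.pow a ha)))
    ((isPGroup_zpowers_iff.2 ⟨j, ou⟩).map _) le_normalizer_of_normal fun e =>
      c.ne fun a ha => (one a (c.le ha)).1 (mem_bot.1 (e ▸ mem_map_of_mem _ ha)))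
  have n' : n ∉ centralizer (N : Set G) := fun k => h2 (Subtype.ext ((one n (c.le hn)).2 k))
  have nN := c.le hn
  have z1 : n * u * n⁻¹ * u⁻¹ ∈ centralizer (N : Set G) := (one _ (mul_mem (mul_mem (mul_mem nN hu)
    (inv_mem nN)) (inv_mem hu))).1 (by
      simp only [map_mul, map_inv]
      rw [← h1 _ (mem_map_of_mem _ (mem_zpowers u))]; group)
  have nD : n ∈ normalizer ((centralizer ({y} : Set G) ⊓ N : Subgroup G) : Set G) := by
    refine inv_mem_iff.1 (mem_normalizer_iff_conj_mem.2 fun d hd => ?_)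
    have dN : n⁻¹ * d * n⁻¹⁻¹ ∈ N := mul_mem (mul_mem (inv_mem nN) hd.2) (inv_mem (inv_mem nN))
    refine ⟨e ▸ mem_centralizer_singleton_iff.2 ?_, dN⟩
    have h3 := mem_centralizer_singleton_iff.1 (e ▸ hd.1 : d ∈ centralizer ({u} : Set G))
    calc n⁻¹ * d * n⁻¹⁻¹ * u = n⁻¹ * (d * (n * u * n⁻¹ * u⁻¹)) * u * n := by group
      _ = n⁻¹ * (n * u * n⁻¹ * u⁻¹) * (d * u) * n := by rw [z1 d hd.2]; group
      _ = _ := by rw [h3]; group
  have s := h.step1 c hy y' o
  have top : normalizer ((centralizer ({y} : Set G) ⊓ N : Subgroup G) : Set G) = ⊤ :=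
    ((h y hy y').le_iff.1 (le_normalizer_inf le_normalizer le_normalizer_of_normal)).resolve_right
      fun k => n' (s.2 ⟨k ▸ nD, hn⟩)
  refine n' (h.fpf c hy y' o hn (s.2 ⟨?_, ?_⟩))
  · rw [show y * n * y⁻¹ * n⁻¹ = y * (n * y * n⁻¹)⁻¹ by group]
    have h5 := conj_mem_of_mem_normalizer nD
      (⟨mem_centralizer_singleton_iff.2 rfl, hy⟩ : y ∈ centralizer ({y} : Set G) ⊓ N)
    exact Subgroup.mul_mem _ (mem_centralizer_singleton_iff.2 rfl) (Subgroup.inv_mem _ h5.1)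
  · exact L.mul_mem ((inferInstance : L.Normal).conj_mem n hn y) (L.inv_mem hn)

theorem MC.step3 [N.Normal] [L.Normal] (h : MC N) {p : ℕ} [hp : Fact p.Prime] (c : CF N L p) (hy : y ∈ N)
    (y' : y ∉ centralizer (N : Set G)) (o : ¬ p ∣ orderOf y) : N ≤ L ⊔ zpowers y := by
  have s := h.step1 c hy y' o
  have pL : ∀ u ∈ N, ∀ j, orderOf u = p ^ j → u ∈ L := fun u hu j ou => by
    obtain ⟨d, hd, t, ht, e⟩ := mem_sup_of_normal_right.1 (s.1 ▸ mem_top u)
    have dN : d ∈ N := (N.mul_mem_cancel_right (c.le ht)).1 (e ▸ hu)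
    obtain ⟨a, ha, b, hb, rfl, ⟨i, hi⟩, hb'⟩ := exists_p_part p d
    have aL := c.ge ⟨zpowers_le.2 dN ha, h.step2 c hy y' o (zpowers_le.2 dN ha) hi (zpowers_le.2 hd ha)⟩
    have e1 : (u : G ⧸ L) = b := by
      rw [← e, QuotientGroup.mk_mul, QuotientGroup.mk_mul, (QuotientGroup.eq_one_iff a).2 aL,
        (QuotientGroup.eq_one_iff t).2 ht, one_mul, mul_one]
    rw [← QuotientGroup.eq_one_iff, ← orderOf_eq_one_iff]
    exact Nat.eq_one_of_dvd_coprimes (((Nat.Prime.coprime_iff_not_dvd hp.out).2 hb').pow_left j)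
      (ou ▸ orderOf_map_dvd (QuotientGroup.mk' L) u) (e1 ▸ orderOf_map_dvd (QuotientGroup.mk' L) b)
  obtain ⟨n, hn, n'⟩ := SetLike.not_le_iff_exists.1 c.ne
  have CL : ∀ w ∈ N, w ∈ centralizer ({n} : Set G) → w ∈ L := fun w hw wn => by
    obtain ⟨a, ha, b, hb, rfl, ⟨i, hi⟩, hb'⟩ := exists_p_part p w
    refine mul_mem (pL a (zpowers_le.2 hw ha) i hi) (c.ge ⟨zpowers_le.2 hw hb, ?_⟩)
    by_contra b'
    exact n' ((h.step1 c (zpowers_le.2 hw hb) b' hb').2 ⟨mem_centralizer_singleton_iff.2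
      (mem_centralizer_singleton_iff.1 (zpowers_le.2 wn hb)).symm, hn⟩)
  haveI : (L ⊔ zpowers y).Normal := normal_of_sup_eq_top s.1 (le_normalizer_sup le_normalizer_of_normal
    ((centralizer_zpowers y).symm.le.trans (centralizer_le_normalizer _))) (le_sup_left.trans le_normalizer)
  have top := sup_eq_top_of_coatom (h n (c.le hn) n') fun k : L ⊔ zpowers y ≤ _ =>
    n' (s.2 ⟨mem_centralizer_singleton_iff.2 (mem_centralizer_singleton_iff.1
      (k (mem_sup_right (mem_zpowers y)))).symm, hn⟩)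
  intro x hx
  obtain ⟨d, hd, t, ht, rfl⟩ := mem_sup_of_normal_right.1 (top ▸ mem_top x)
  exact mul_mem (mem_sup_left (CL d ((N.mul_mem_cancel_right
    (sup_le c.le (zpowers_le.2 hy) ht)).1 hx) hd)) ht

theorem MC.caseA [N.Normal] (h : MC N) {p : ℕ} [hp : Fact p.Prime]
    (k : ∀ x ∈ N, ¬ p ∣ orderOf x → x ∈ centralizer (N : Set G)) :
    (∀ a ∈ N, ∀ b ∈ N, a * b * a⁻¹ * b⁻¹ ∈ centralizer (N : Set G)) ∧ ∀ a ∈ N, a ^ p ∈ centralizer (N : Set G) := by
  obtain ⟨Z, hZ⟩ : ∃ Z, Z = N ⊓ centralizer (N : Set G) := ⟨_, rfl⟩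
  haveI : Z.Normal := hZ ▸ inferInstance
  haveI := (inferInstance : N.Normal).map _ (QuotientGroup.mk'_surjective Z)
  have hP : IsPGroup p (N.map (QuotientGroup.mk' Z)) := by
    rintro ⟨_, x, hx, rfl⟩
    obtain ⟨a, ha, b, hb, rfl, ⟨i, hi⟩, hb'⟩ := exists_p_part p x
    refine ⟨i, Subtype.ext ?_⟩
    have bN := zpowers_le.2 hx hb
    have : QuotientGroup.mk' Z b = 1 := (QuotientGroup.eq_one_iff b).2 (hZ ▸ ⟨bN, k b bN hb'⟩)
    simp only [map_mul, this, mul_one, SubmonoidClass.mk_pow, OneMemClass.coe_one]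
    rw [← map_pow, ← hi, pow_orderOf_eq_one, map_one]
  have key : ∀ w ∈ N, QuotientGroup.mk' Z w ∈ (frattini (N.map (QuotientGroup.mk' Z))).map (Subgroup.subtype _) →
      w ∈ centralizer (N : Set G) := fun w hw h1 y hy => by
    by_cases y' : y ∈ centralizer (N : Set G)
    · exact (y' w hw).symm
    · have ZC : Z ≤ centralizer {y} := fun z hz =>
        mem_centralizer_singleton_iff.2 ((hZ ▸ hz : z ∈ N ⊓ centralizer (N : Set G)).2 y hy).symm
      have := mem_frattini_iff.1 (map_frattini_le_of_normal _ h1) _ (isCoatom_map_mk' (h y hy y') ZC)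
      rw [← mem_comap, comap_map_eq_self (by rwa [QuotientGroup.ker_mk'])] at this
      exact (mem_centralizer_singleton_iff.1 this).symm
  refine ⟨fun a ha b hb => key _ (mul_mem (mul_mem (mul_mem ha hb) (inv_mem ha)) (inv_mem hb)) ?_,
    fun a ha => key _ (pow_mem ha p) ?_⟩
  · rw [← commutatorElement_def, map_commutatorElement]
    exact commutator_le_map_frattini hP.isNilpotent
      (commutator_mem_commutator (mem_map_of_mem _ ha) (mem_map_of_mem _ hb))
  · rw [map_pow]; exact pow_mem_map_frattini hP (mem_map_of_mem _ ha)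

theorem MC.struct [N.Normal] (h : MC N) :
    (∃ p : ℕ, p.Prime ∧ (∀ a ∈ N, ∀ b ∈ N, a * b * a⁻¹ * b⁻¹ ∈ centralizer (N : Set G)) ∧
      ∀ a ∈ N, a ^ p ∈ centralizer (N : Set G)) ∨
    ∃ (L : Subgroup G) (p q : ℕ) (y : G), p.Prime ∧ q.Prime ∧ p ≠ q ∧ L.Normal ∧ CF N L p ∧ y ∈ N ∧
      y ∉ centralizer (N : Set G) ∧ y ^ q ∈ centralizer (N : Set G) ∧ N ≤ L ⊔ zpowers y ∧
      ∀ n ∈ L, y * n * y⁻¹ * n⁻¹ ∈ centralizer (N : Set G) → n ∈ centralizer (N : Set G) := by
  by_cases n : N ≤ centralizer (N : Set G)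
  · exact Or.inl ⟨2, Nat.prime_two, fun a ha b hb => n (mul_mem (mul_mem (mul_mem ha hb) (inv_mem ha)) (inv_mem hb)),
      fun a ha => n (pow_mem ha 2)⟩
  obtain ⟨L, p, hp, hL, c⟩ := h.exists_cf n
  haveI := Fact.mk hp
  by_cases k : ∀ x ∈ N, ¬ p ∣ orderOf x → x ∈ centralizer (N : Set G)
  · exact Or.inl ⟨p, hp, h.caseA k⟩
  push Not at k
  obtain ⟨x, hx, o, x'⟩ := k
  have : ¬ ∀ (q k : ℕ), q.Prime → ∀ w ∈ zpowers x, orderOf w = q ^ k → w ∈ centralizer (N : Set G) :=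
    fun k => x' (le_of_forall_primePow_mem k (mem_zpowers x))
  push Not at this
  obtain ⟨q, k, hq, w, hw, ow, w'⟩ := this
  obtain ⟨j, j1, j2⟩ := exists_pow_notMem_pow_mem (p := q) (k := k) w' (by rw [← ow, pow_orderOf_eq_one]; exact one_mem _)
  have yx : w ^ q ^ j ∈ zpowers x := pow_mem hw _
  have yN := zpowers_le.2 hx yx
  have o' : ¬ p ∣ orderOf (w ^ q ^ j) := fun d => o (d.trans (orderOf_dvd_of_mem_zpowers yx))
  refine Or.inr ⟨L, p, q, _, hp, hq, ?_, hL, c, yN, j1, j2, h.step3 c yN j1 o', fun n hn => h.fpf c yN j1 o' hn⟩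
  rintro rfl
  exact j1 (mem_of_pow j2 ((Nat.Prime.coprime_iff_not_dvd hp).2 o'))

end H2M
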