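import Cfsg.Agent.H2.Fus30
import Cfsg.Agent.H1.Coprime
import Cfsg.Agent.H8.PM

/-!
H2.PC2: certificates for the simplicity of the 2-fusion system of a permutation group (`H2.PC.simple`).
-/

set_option linter.unusedSectionVars false
set_option autoImplicit false

noncomputable section
namespace H2.PC

open Subgroup Cfsg H8
open scoped commutatorElement

universe u

def bit (e i : ℕ) : Bool := Nat.beq (Nat.land (Nat.shiftRight e i) 1) 1

theorem bit_eq (e i : ℕ) : bit e i = e.testBit i := by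
  rw [Bool.eq_iff_iff, bit, Nat.beq_eq, Nat.testBit_eq_decide_div_mod_eq, decide_eq_true_eq, ← Nat.shiftRight_eq_div_pow,
    ← Nat.and_one_is_mod]
  rfl

/-- the word with exponent vector `e` -/
def wd (k e : ℕ) : List ℕ := Nat.rec [] (fun i r => Bool.rec r (i :: r) (bit e i)) k

def catW (n : ℕ) (ms : List ℕ) : List ℕ := List.rec [] (fun m _ r => app (wd n m) r) ms

def memL (e : ℕ) (K : List ℕ) : Bool := List.rec false (fun a _ r => bor (Nat.beq a e) r) K

theorem memL_spec {e : ℕ} {K : List ℕ} (h : memL e K = true) : e ∈ K := by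
  induction K with
  | nil => exact absurd h (by simp [memL])
  | cons a K ih =>
    rcases (bor_eq_true _ _).1 h with h | h
    · exact Nat.eq_of_beq_eq_true h ▸ List.mem_cons_self
    · exact List.mem_cons_of_mem _ (ih h)

variable {G : Type u} [Group G] [Finite G] {s : ℕ → G} {n k a b i : ℕ} {q : List ℕ → List ℕ → Bool}

theorem ev_wd_succ (s : ℕ → G) (k e : ℕ) : ev s (wd (k + 1) e) = (if e.testBit k then s k else 1) * ev s (wd k e) := by
  show ev s (Bool.rec (wd k e) (k :: wd k e) (bit e k)) = _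
  rw [bit_eq]
  cases e.testBit k <;> simp

def Sk (s : ℕ → G) (k : ℕ) : Subgroup G := closure (s '' {i | i < k})

theorem mem_Sk (h : i < k) : s i ∈ Sk s k := subset_closure ⟨i, h, rfl⟩

theorem Sk_le {H : Subgroup G} (h : ∀ i < k, s i ∈ H) : Sk s k ≤ H := (closure_le _).2 fun _ ⟨i, hi, e⟩ => e ▸ h i hi

theorem Sk_mono (h : i ≤ k) : Sk s i ≤ Sk s k := Sk_le fun _ hj => mem_Sk (hj.trans_le h)

theorem wd_mem (k e : ℕ) : ev s (wd k e) ∈ Sk s k := by
  induction k with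
  | zero => exact one_mem _
  | succ k ih =>
    rw [ev_wd_succ]
    refine mul_mem ?_ (Sk_mono k.le_succ ih)
    split_ifs
    exacts [mem_Sk k.lt_succ_self, one_mem _]

theorem exists_hi (h : i ≤ n) (v : ℕ) : ∃ x : G, ∀ e, e / 2 ^ i = v → ev s (wd n e) = x * ev s (wd i e) := by
  induction n, h using Nat.le_induction with
  | base => exact ⟨1, fun _ _ => (one_mul _).symm⟩
  | succ n h ih =>
    obtain ⟨x, hx⟩ := ih
    refine ⟨(if v.testBit (n - i) then s n else 1) * x, fun e he => ?_⟩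
    rw [ev_wd_succ, hx e he, ← he, Nat.testBit_div_two_pow, Nat.sub_add_cancel h, mul_assoc]

theorem wd_congr {e e' : ℕ} (h : ∀ j < k, e.testBit j = e'.testBit j) : ev s (wd k e) = ev s (wd k e') := by
  induction k with
  | zero => rfl
  | succ k ih => rw [ev_wd_succ, ev_wd_succ, h k k.lt_succ_self, ih fun j hj => h j (hj.trans k.lt_succ_self)]

theorem wd_zero (k : ℕ) : ev s (wd k 0) = 1 := by
  induction k with
  | zero => rfl
  | succ k ih => rw [ev_wd_succ, ih]; simp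

theorem wd_of_lt {e : ℕ} (he : e < 2 ^ k) (h : k ≤ n) : ev s (wd n e) = ev s (wd k e) := by
  obtain ⟨x, hx⟩ := exists_hi (s := s) h 0
  have := hx 0 (Nat.zero_div _)
  rw [wd_zero, wd_zero, mul_one] at this
  rw [hx e (Nat.div_eq_of_lt he), ← this, one_mul]

theorem wd_add (k v e : ℕ) : ev s (wd k (v * 2 ^ k + e)) = ev s (wd k e) := wd_congr fun j hj => by
  have h1 := Nat.testBit_mod_two_pow (v * 2 ^ k + e) k j
  rw [Nat.mul_add_mod', Nat.testBit_mod_two_pow] at h1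
  simpa [hj] using h1.symm

theorem wd_pow_add {e : ℕ} (he : e < 2 ^ i) (h : i < n) : ev s (wd n (2 ^ i + e)) = s i * ev s (wd i e) := by
  rw [wd_of_lt (k := i + 1) (by rw [pow_succ]; omega) h, ev_wd_succ, Nat.testBit_two_pow_add_eq, Nat.testBit_lt_two_pow he,
    ← wd_add i 1 e, one_mul]
  rfl

theorem wd_pow (h : i < n) : ev s (wd n (2 ^ i)) = s i := by
  simpa [wd_zero] using wd_pow_add (s := s) (Nat.two_pow_pos i) h

theorem nrm_of {g : G} (h : ∀ j < k, g * s j * g⁻¹ ∈ Sk s k) : g ∈ normalizer (Sk s k : Set G) :=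
  mem_normalizer_of_cj_le (map_le_iff_le_comap.2 (Sk_le h))

/-- polycyclic sequence with factors of order at most two -/
def Pc (s : ℕ → G) (n : ℕ) : Prop := ∀ i < n, s i * s i ∈ Sk s i ∧ s i ∈ normalizer (Sk s i : Set G)

theorem Pc.mem_succ (h : Pc s n) (hi : i < n) {g : G} (hg : g ∈ Sk s (i + 1)) : g ∈ Sk s i ∨ (s i)⁻¹ * g ∈ Sk s i := by
  have k : Sk s (i + 1) ≤ zpowers (s i) ⊔ Sk s i := Sk_le fun j hj => by
    rcases Nat.lt_succ_iff_lt_or_eq.1 hj with hj | rfl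
    exacts [mem_sup_right (mem_Sk hj), mem_sup_left (mem_zpowers _)]
  obtain ⟨_, ⟨m, rfl⟩, y, hy, rfl⟩ := (mem_sup_of_le_normalizer (zpowers_le.2 (h i hi).2)).1 (k hg)
  have k1 : ∀ m : ℤ, s i ^ (2 * m) ∈ Sk s i := fun m => by
    rw [zpow_mul, zpow_two]; exact zpow_mem (h i hi).1 m
  obtain ⟨m, rfl | rfl⟩ := Int.even_or_odd' m
  · exact Or.inl (mul_mem (k1 m) hy)
  · refine Or.inr ?_
    convert mul_mem (k1 m) hy using 1
    group

theorem Pc.exists (h : Pc s n) (hk : k ≤ n) {g : G} (hg : g ∈ Sk s k) : ∃ e < 2 ^ k, ev s (wd k e) = g := by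
  induction k generalizing g with
  | zero => exact ⟨0, Nat.one_pos, ((Sk_le (H := ⊥) fun _ h => absurd h (Nat.not_lt_zero _)) hg).symm⟩
  | succ k ih =>
    rcases h.mem_succ hk hg with hg | hg
    · obtain ⟨e, h1, rfl⟩ := ih (by omega) hg
      exact ⟨e, by rw [pow_succ]; omega, wd_of_lt h1 k.le_succ⟩
    · obtain ⟨e, h1, h2⟩ := ih (by omega) hg
      exact ⟨2 ^ k + e, by rw [pow_succ]; omega, by rw [wd_pow_add h1 k.lt_succ_self, h2, mul_inv_cancel_left]⟩

theorem Pc.mul_mem (h : Pc s n) (hi : i < n) {x y : G} (hx : x ∈ Sk s (i + 1)) (hy : y ∈ Sk s (i + 1))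
    (e : x ∈ Sk s i ↔ y ∈ Sk s i) : x * y ∈ Sk s i := by
  by_cases k : x ∈ Sk s i
  · exact Subgroup.mul_mem _ k (e.1 k)
  · have k1 := (h.mem_succ hi hx).resolve_left k
    have k2 := (h.mem_succ hi hy).resolve_left (mt e.2 k)
    convert Subgroup.mul_mem _ (Subgroup.mul_mem _ ((mem_normalizer_iff.1 (h i hi).2 _).1 k1) (h i hi).1) k2 using 1
    group

theorem Pc.card (h : Pc s n) (h1 : ∀ e < 2 ^ n, ev s (wd n e) = 1 → e = 0) (hk : k ≤ n) : Nat.card (Sk s k) = 2 ^ k := by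
  induction k with
  | zero => rw [le_bot_iff.1 (Sk_le (H := ⊥) fun _ h => absurd h (Nat.not_lt_zero _)), card_bot, pow_zero]
  | succ k ih =>
    have k0 : s k ∉ Sk s k := fun k0 => by
      obtain ⟨e, h2, h3⟩ := h.exists (by omega) (inv_mem k0)
      have := h1 (2 ^ k + e) (lt_of_lt_of_le (by rw [pow_succ]; omega) (Nat.pow_le_pow_right two_pos hk))
        (by rw [wd_pow_add h2 hk, h3, mul_inv_cancel])
      have := Nat.two_pow_pos k
      omega
    rw [← card_mul_relIndex (Sk_mono k.le_succ), ih (by omega), pow_succ, relIndex_eq_two_iff.2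
      ⟨s k, mem_Sk k.lt_succ_self, fun b hb => ?_⟩]
    by_cases k1 : b ∈ Sk s k
    · exact Or.inr ⟨k1, fun k2 => k0 ((mul_mem_cancel_left k1).1 k2)⟩
    · exact Or.inl ⟨h.mul_mem hk hb (mem_Sk k.lt_succ_self) (iff_of_false k1 k0), k1⟩

theorem Pc.centralizes (h : Pc s n) (hS : IsPGroup 2 (Sk s n)) (ha : a ≤ n) (h1 : Sk s a ≤ Phi (Sk s n)) {g : G}
    (hg : ∀ i, a ≤ i → i ≤ n → g ∈ normalizer (Sk s i : Set G)) (hc : (orderOf g).Coprime 2) :
    g ∈ centralizer (Sk s n : Set G) := by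
  have k : ∀ i, a ≤ i → i ≤ n → Sk s i ≤ Phi (Sk s n) ⊔ Sk s n ⊓ centralizer (zpowers g : Set G) := fun i hi => by
    induction i, hi using Nat.le_induction with
    | base => exact fun _ => h1.trans le_sup_left
    | succ i hi ih =>
      intro hn x hx
      have k1 := zpowers_le.2 (hg i hi (by omega))
      have k2 := zpowers_le.2 (hg (i + 1) (by omega) hn)
      obtain ⟨m, hm⟩ := IsPGroup.iff_card.1 (hS.to_le (Sk_mono (s := s) (show i ≤ n by omega)))
      obtain ⟨d, hd, c, hc', rfl⟩ := H1.exists_fixed_mul_of_commutator_le k1 (by rw [hm, Nat.card_zpowers]; exact hc.pow_right m)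
        (Or.inl (H1.isSolvable_zpowers g)) (commutator_le.2 fun x hx y hy => by
          rw [commutatorElement_def, mul_assoc, mul_assoc, ← mul_assoc y]
          exact h.mul_mem hn hx ((mem_normalizer_iff.1 (k2 hy) _).1 (inv_mem hx))
            (inv_mem_iff.symm.trans (mem_normalizer_iff.1 (k1 hy) _))) hx
      exact Subgroup.mul_mem _ (ih (by omega) hd) (mem_sup_right
        ⟨(mul_mem_cancel_left (Sk_mono (by omega) hd)).1 (Sk_mono hn hx), hc'⟩)
  exact fun x hx => (((eq_of_Phi_sup inf_le_left (k n ha le_rfl)).ge hx).2 g (mem_zpowers g)).symm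

/-- the set of values of `f` on a coset -/
def Mk {α : Type} (f : G → α) (H : Subgroup G) (x : G) : Set α := {c | ∃ u ∈ H, f (x * u) = c}

theorem Mk_conj {α : Type} {f : G → α} {H : Subgroup G} {g : G} (h : ∀ x, f (g * x * g⁻¹) = f x)
    (hg : g ∈ normalizer (H : Set G)) (x : G) : Mk f H (g * x * g⁻¹) = Mk f H x := by
  ext c
  refine ⟨fun ⟨u, h1, h2⟩ => ⟨g⁻¹ * u * g, (mem_normalizer_iff''.1 hg u).1 h1, ?_⟩,
    fun ⟨u, h1, h2⟩ => ⟨g * u * g⁻¹, (mem_normalizer_iff.1 hg u).1 h1, ?_⟩⟩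
  · rw [← h2, ← h]; congr 1; group
  · rw [← h2, ← h (x * u)]; congr 1; group

def Cd {α : Type} (s : ℕ → G) (n : ℕ) (f : G → α) (D : ℕ → α) (c : ℕ → ℕ) : Prop :=
  Function.Injective D ∧ ∀ e < 2 ^ n, f (ev s (wd n e)) = D (c e)

def cm (c : ℕ → ℕ) (i v : ℕ) : ℕ := imMask (Nat.pow 2 i) fun u => frc (Nat.add (Nat.mul v (Nat.pow 2 i)) u) c

theorem Cd.mk {α : Type} {f : G → α} {D : ℕ → α} {c : ℕ → ℕ} (h : Cd s n f D c) (hP : Pc s n) (hi : i ≤ n) :
    Cd s n (Mk f (Sk s i)) (fun m => D '' {c | m.testBit c}) fun e => cm c i (e / 2 ^ i) := by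
  refine ⟨fun m m' e => Nat.eq_of_testBit_eq fun j => Bool.eq_iff_iff.2 (Set.ext_iff.1 (h.1.image_injective e) j),
    fun e he => ?_⟩
  obtain ⟨x, hx⟩ := exists_hi (s := s) hi (e / 2 ^ i)
  have k : ∀ u < 2 ^ i, f (x * ev s (wd i u)) = D (c (e / 2 ^ i * 2 ^ i + u)) := fun u hu => by
    rw [← h.2, hx _ (by rw [add_comm, Nat.add_mul_div_right _ _ (Nat.two_pow_pos i), Nat.div_eq_of_lt hu, zero_add]), wd_add]
    obtain ⟨r, rfl⟩ := Nat.exists_eq_add_of_le hi
    have := (Nat.div_lt_iff_lt_mul (Nat.two_pow_pos i)).2 (show e < 2 ^ r * 2 ^ i by rwa [← pow_add, add_comm])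
    rw [pow_add]
    nlinarith
  ext d
  simp only [Mk, Set.mem_setOf_eq, Set.mem_image, cm, imMask_testBit, frc_eq, Nat.pow_eq, Nat.add_eq, Nat.mul_eq]
  rw [hx e rfl]
  refine ⟨fun ⟨u, h1, h2⟩ => ?_, fun ⟨_, ⟨u, h1, rfl⟩, h2⟩ =>
    ⟨(ev s (wd i e))⁻¹ * ev s (wd i u), Subgroup.mul_mem _ (inv_mem (wd_mem i e)) (wd_mem i u), ?_⟩⟩
  · obtain ⟨u', h3, h4⟩ := hP.exists hi (Subgroup.mul_mem _ (wd_mem i e) h1)
    exact ⟨_, ⟨u', h3, rfl⟩, by rw [← k u' h3, h4, ← mul_assoc, h2]⟩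
  · rw [mul_assoc, mul_inv_cancel_left, k u h1, h2]

open Classical in
def inv (z x : G) : ℕ := if x = 1 then 0 else if x * x = 1 then 1 else if x * x = z then 2 else
  if x * x * (x * x) = 1 then 3 else 4

def invW (q : List ℕ → List ℕ → Bool) (w : List ℕ) : ℕ := ite' (q w []) 0 (ite' (q (app w w) []) 1 (ite' (q (app w w) [0]) 2
  (ite' (q (app (app w w) (app w w)) []) 3 4)))

/-- `q` decides equality of words -/
def Dec (s : ℕ → G) (q : List ℕ → List ℕ → Bool) : Prop := ∀ w w', q w w' = true ↔ ev s w = ev s w'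

theorem ite'_eq {α : Type} (c : Bool) (a b : α) : ite' c a b = if c = true then a else b := by cases c <;> rfl

open Classical in
theorem Dec.inv (hq : Dec s q) (w : List ℕ) : invW q w = inv (s 0) (ev s w) := by
  have k : ∀ w w', (q w w' = true) = (ev s w = ev s w') := fun w w' => propext (hq w w')
  simp only [invW, ite'_eq, k, app_eq, ev_append, ev_nil, ev_cons, mul_one, PC.inv]

open Classical in
theorem inv_conj {z g : G} (h : g * z * g⁻¹ = z) (x : G) : inv z (g * x * g⁻¹) = inv z x := by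
  have k : ∀ y, g * y * g⁻¹ = z ↔ y = z := fun y => by rw [← (MulAut.conj g).injective.eq_iff (a := y), MulAut.conj_apply,
    MulAut.conj_apply, h]
  unfold inv
  rw [conj_mul, conj_mul]
  simp only [conj_eq_one_iff, k]

def pcChk (q : List ℕ → List ℕ → Bool) (n C : ℕ) : Bool :=
  allB n fun i => band (q [i, i] (wd i (ap 16 65535 C (Nat.add (Nat.mul i 16) i))))
    (allB i fun j => q [i, j] (app (wd i (ap 16 65535 C (Nat.add (Nat.mul i 16) j))) [i]))

def nrmChk (q : List ℕ → List ℕ → Bool) (g : List ℕ) (k C : ℕ) : Bool :=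
  allB k fun j => q (app g [j]) (app (wd k (ap 16 65535 C j)) g)

theorem Dec.conj (hq : Dec s q) {g w w' : List ℕ} (h : q (app g w) (app w' g) = true) :
    ev s g * ev s w * (ev s g)⁻¹ = ev s w' := by
  rw [hq, app_eq, app_eq, ev_append, ev_append] at h
  rw [h, mul_inv_cancel_right]

theorem Dec.nrm (hq : Dec s q) {g : List ℕ} {C : ℕ} (h : nrmChk q g k C = true) : ev s g ∈ normalizer (Sk s k : Set G) :=
  nrm_of fun j hj => by
    have := hq.conj (allB_iff.1 h j hj)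
    rw [ev_cons, ev_nil, mul_one] at this
    exact this ▸ wd_mem _ _

theorem Dec.pc (hq : Dec s q) {C : ℕ} (h : pcChk q n C = true) : Pc s n := fun i hi => by
  obtain ⟨h1, h2⟩ := (band_eq_true _ _).1 (allB_iff.1 h i hi)
  refine ⟨by simpa using (Set.mem_of_eq_of_mem ((hq _ _).1 h1) (wd_mem _ _) : ev s [i, i] ∈ Sk s i), nrm_of fun j hj => ?_⟩
  have := hq.conj (g := [i]) (w := [j]) (allB_iff.1 h2 j hj)
  simp only [ev_cons, ev_nil, mul_one] at this
  exact this ▸ wd_mem _ _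

/-- the elements outside `Sk lo` do not centralize `Sk k` -/
def cenChk (q : List ℕ → List ℕ → Bool) (n lo k : ℕ) : Bool :=
  allB (Nat.pow 2 n) fun e => bor (Nat.blt e (Nat.pow 2 lo)) (anyB k fun j => (q (j :: wd n e) (app (wd n e) [j])).not)

theorem Dec.cen (hq : Dec s q) (hP : Pc s n) {lo : ℕ} (hl : lo ≤ n) (h : cenChk q n lo k = true) :
    Sk s n ⊓ centralizer (Sk s k : Set G) ≤ Sk s lo := fun x hx => by
  obtain ⟨e, he, rfl⟩ := hP.exists le_rfl hx.1
  rcases (bor_eq_true _ _).1 (allB_iff.1 h e he) with h | h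
  · exact wd_of_lt (s := s) (Nat.blt_eq.mp h) hl ▸ wd_mem _ _
  · obtain ⟨j, hj, h⟩ := anyB_spec h
    rw [Bool.not_eq_true', ← Bool.not_eq_true, hq, app_eq, ev_append, ev_cons, ev_cons, ev_nil, mul_one] at h
    exact absurd (hx.2 _ (mem_Sk hj)) h

def fusChk (q : List ℕ → List ℕ → Bool) (n : ℕ) (st : List (List ℕ × List ℕ × ℕ)) : List ℕ → Bool :=
  List.rec (fun K => allB n fun j => memL (Nat.pow 2 j) K) (fun t _ r K => band (allL t.2.1 fun m => memL m K)
    (band (q (app t.1 (catW n t.2.1)) (app (wd n t.2.2) t.1)) (r (t.2.2 :: K)))) st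

theorem catW_mem {T : Subgroup G} {ms : List ℕ} (h : ∀ m ∈ ms, ev s (wd n m) ∈ T) : ev s (catW n ms) ∈ T := by
  induction ms with
  | nil => exact one_mem _
  | cons m ms ih =>
    show ev s (app (wd n m) (catW n ms)) ∈ T
    rw [app_eq, ev_append]
    exact Subgroup.mul_mem _ (h m List.mem_cons_self) (ih fun m hm => h m (List.mem_cons_of_mem _ hm))

theorem Dec.fus (hq : Dec s q) {T : Subgroup G} (hT : ∀ x ∈ T, ∀ g, g * x * g⁻¹ ∈ Sk s n → g * x * g⁻¹ ∈ T)
    {st : List (List ℕ × List ℕ × ℕ)} {K : List ℕ} (hK : ∀ m ∈ K, ev s (wd n m) ∈ T) (h : fusChk q n st K = true) :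
    Sk s n ≤ T := by
  induction st generalizing K with
  | nil => exact Sk_le fun j hj => wd_pow (s := s) hj ▸ hK _ (memL_spec (allB_iff.1 h j hj))
  | cons t st ih =>
    obtain ⟨h1, h2⟩ := (band_eq_true _ _).1 h
    obtain ⟨h2, h3⟩ := (band_eq_true _ _).1 h2
    refine ih (fun m hm => ?_) h3
    rcases List.mem_cons.1 hm with rfl | hm
    · have := hT _ (catW_mem fun m hm => hK m (memL_spec (allL_iff.1 h1 m hm))) (ev s t.1)
      rw [hq.conj h2] at this
      exact this (wd_mem _ _)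
    · exact hK m hm

def phiChk (q : List ℕ → List ℕ → Bool) (n a SQ : ℕ) (R : Tr (List ℕ)) : Bool :=
  band (allB (Nat.pow 2 n) fun e => q (app (wd n e) (wd n e)) (wd a (ap 16 65535 SQ e)))
    (allB a fun j => q [j] (List.rec [] (fun m _ r => app (app (wd n m) (wd n m)) r) (R.get j)))

theorem Dec.phi (hq : Dec s q) (hP : Pc s n) (hS : IsPGroup 2 (Sk s n)) {SQ : ℕ} {R : Tr (List ℕ)}
    (h : phiChk q n a SQ R = true) : Sk s a = Phi (Sk s n) := by
  obtain ⟨h1, h2⟩ := (band_eq_true _ _).1 h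
  have k : ∀ x ∈ Sk s n, x ^ 2 ∈ Sk s a := fun x hx => by
    obtain ⟨e, he, rfl⟩ := hP.exists le_rfl hx
    have := (hq _ _).1 (allB_iff.1 h1 e he)
    rw [app_eq, ev_append] at this
    rw [sq, this]; exact wd_mem _ _
  refine le_antisymm (Sk_le fun j hj => ?_) (Phi_le_of (p := 2) (commutator_le.2 fun x hx y hy => ?_) k)
  · have := (hq _ _).1 (allB_iff.1 h2 j hj)
    rw [ev_cons, ev_nil, mul_one] at this
    rw [this]
    induction R.get j with
    | nil => exact one_mem _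
    | cons m ms ih =>
      show ev s (app (app (wd n m) (wd n m)) _) ∈ _
      rw [app_eq, app_eq, ev_append, ev_append, ← sq]
      exact Subgroup.mul_mem _ (pow_mem_Phi hS (wd_mem _ _)) ih
  · convert Subgroup.mul_mem _ (Subgroup.mul_mem _ (k _ (Subgroup.mul_mem _ hx hy))
      (k _ (Subgroup.mul_mem _ (Subgroup.mul_mem _ (inv_mem hy) (inv_mem hx)) hy))) (k _ (inv_mem hy)) using 1
    simp only [commutatorElement_def, sq]; group

def tyChk (q : List ℕ → List ℕ → Bool) (n a b TY : ℕ) : Bool :=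
  band (allB (Nat.pow 2 (Nat.sub n a)) fun v => Nat.beq (cm (fun e => invW q (wd n e)) a v) (ap 8 255 TY v))
    (allR a (Nat.sub b a) fun i => allR 2 (Nat.sub (Nat.pow 2 (Nat.sub n i)) 2) fun v =>
      (Nat.beq (cm (fun e => ap 8 255 TY (Nat.div e (Nat.pow 2 a))) i v)
        (cm (fun e => ap 8 255 TY (Nat.div e (Nat.pow 2 a))) i 1)).not)

theorem div_lt (hi : i ≤ n) {e : ℕ} (he : e < 2 ^ n) : e / 2 ^ i < 2 ^ (n - i) :=
  (Nat.div_lt_iff_lt_mul (Nat.two_pow_pos i)).2 (by rwa [← pow_add, Nat.sub_add_cancel hi])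

theorem Dec.ty (hq : Dec s q) (hP : Pc s n) {TY : ℕ} (h : tyChk q n a b TY = true) (ha : a ≤ b) (hb : b ≤ n) {g : G}
    (h0 : g * s 0 * g⁻¹ = s 0) (h1 : g ∈ normalizer (Sk s n : Set G)) (h2 : g ∈ normalizer (Sk s a : Set G)) :
    ∀ i, a ≤ i → i ≤ b → g ∈ normalizer (Sk s i : Set G) := fun i hi => by
  obtain ⟨c1, c2⟩ := (band_eq_true _ _).1 h
  have k0 : Cd s n (PC.inv (s 0)) id fun e => invW q (wd n e) := ⟨Function.injective_id, fun e _ => (hq.inv _).symm⟩
  have k1 := k0.mk hP (ha.trans hb)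
  have k2 : Cd s n (Mk (PC.inv (s 0)) (Sk s a)) _ fun e => ap 8 255 TY (e / 2 ^ a) := ⟨k1.1, fun e he => by
    rw [k1.2 e he]; beta_reduce; rw [← Nat.eq_of_beq_eq_true (allB_iff.1 c1 _ (div_lt (ha.trans hb) he))]⟩
  induction i, hi using Nat.le_induction with
  | base => exact fun _ => h2
  | succ i hi ih =>
    intro hib
    have k3 := k2.mk hP (show i ≤ n by omega)
    refine nrm_of fun j hj => ?_
    rcases Nat.lt_succ_iff_lt_or_eq.1 hj with hj | rfl
    · exact Sk_mono i.le_succ ((mem_normalizer_iff.1 (ih (by omega)) _).1 (mem_Sk hj))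
    obtain ⟨e, he, k4⟩ := hP.exists le_rfl ((mem_normalizer_iff.1 h1 _).1 (mem_Sk (show j < n by omega)))
    have k5 := Mk_conj (Mk_conj (inv_conj h0) h2) (ih (by omega)) (s j)
    rw [← k4, k3.2 e he, ← wd_pow (s := s) (show j < n by omega), k3.2 _ (Nat.pow_lt_pow_right one_lt_two (by omega))] at k5
    beta_reduce at k5
    rw [Nat.div_self (Nat.two_pow_pos j)] at k5
    have k6 : e / 2 ^ j < 2 := by
      by_contra! k6
      have := allR_iff.1 (allR_iff.1 c2 j hi (by simp only [Nat.sub_eq]; omega)) _ k6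
        (by have := div_lt (show j ≤ n by omega) he; simp only [Nat.sub_eq, Nat.pow_eq]; omega)
      rw [Bool.not_eq_true', ← Bool.not_eq_true, Nat.beq_eq] at this
      exact this (k3.1 k5)
    rw [← k4, wd_of_lt (k := j + 1) (by rw [pow_succ']; exact (Nat.div_lt_iff_lt_mul (Nat.two_pow_pos j)).1 k6) (by omega)]
    exact wd_mem _ _

def ndChk (q : List ℕ → List ℕ → Bool) (n : ℕ) : Bool := allB (Nat.pow 2 n) fun e => bor (Nat.beq e 0) (q (wd n e) []).not

theorem Pc.eq_zero (h : Pc s n) (hn : 0 < n) {x : G} (hx : x ∈ Sk s 1) (h1 : x ≠ 1) : x = s 0 := by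
  obtain ⟨e, he, rfl⟩ := h.exists hn hx
  interval_cases e
  · exact absurd (wd_zero 1) h1
  · exact wd_pow (i := 0) Nat.one_pos

/-- the local condition of `simple_group_of` -/
def Loc (S K : Subgroup G) : Prop := ∀ Q ≤ S, S ≤ normalizer (Q : Set G) →
  S ⊓ centralizer (Q : Set G) ≤ Q → normalizer (S : Set G) ⊓ Oq 2 (normalizer (Q : Set G)) ≤ K

theorem Dec.simple (hq : Dec s q) {m C SQ TY : ℕ} {R : Tr (List ℕ)} {st : List (List ℕ × List ℕ × ℕ)}
    (hc : Nat.card G = 2 ^ n * (2 * m + 1)) (hn : 0 < n) (ha : a ≤ b) (hb : b ≤ n) (c1 : pcChk q n C = true)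
    (c2 : ndChk q n = true) (c3 : cenChk q n 1 n = true) (c4 : fusChk q n st [1] = true) (c5 : phiChk q n a SQ R = true)
    (c6 : tyChk q n a b TY = true) (ht : Pc s n → normalizer (Sk s n : Set G) ≤ normalizer (Sk s b : Set G) →
      ∀ K, Loc (Sk s n) K → ∀ g ∈ normalizer (Sk s n : Set G), ∃ t ∈ K, t ∈ normalizer (Sk s n : Set G) ∧
        ∀ i, b < i → i < n → t⁻¹ * g ∈ normalizer (Sk s i : Set G)) :
    IsSylowIn 2 (Sk s n) ⊤ ∧ (groupFusionSystem (Sk s n)).IsSimple 2 := by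
  have hP := hq.pc c1
  have k1 := hP.card (fun e he h => by
    rcases (bor_eq_true _ _).1 (allB_iff.1 c2 e he) with k | k
    · exact Nat.eq_of_beq_eq_true k
    · rw [Bool.not_eq_true', ← Bool.not_eq_true, hq] at k
      exact absurd h k) le_rfl
  have hS : IsPGroup 2 (Sk s n) := IsPGroup.of_card k1
  have k2 : IsSylowIn 2 (Sk s n) ⊤ := ⟨le_top, hS, by
    have := (Sk s n).card_mul_index
    rw [k1, hc, Nat.mul_right_inj (Nat.two_pow_pos n).ne'] at this
    rw [relIndex_top_right, this]; omega⟩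
  have k3 : Sk s n ≠ ⊥ := fun e => by
    rw [e, card_bot] at k1
    exact (Nat.one_lt_two_pow hn.ne').ne k1
  have k4 := fun x h1 h2 h3 => hP.eq_zero hn (x := x) (hq.cen hP hn c3 ⟨h1, h2⟩) h3
  obtain ⟨z, z1, z2⟩ := (bot_or_exists_ne_one _).resolve_left (inf_centralizer_ne_bot hS le_rfl le_normalizer k3)
  obtain rfl := k4 z z1.1 z1.2 z2
  have k5 := hq.phi hP hS c5
  have k6 : ∀ g ∈ normalizer (Sk s n : Set G), ∀ i, a ≤ i → i ≤ b → g ∈ normalizer (Sk s i : Set G) := fun g hg => by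
    have := (mem_normalizer_iff.1 (le_normalizer_inf le_rfl (normalizer_le_normalizer_centralizer _) hg) _).1 z1
    exact hq.ty hP c6 ha hb (k4 _ this.1 this.2 (by simpa using z2)) hg (k5 ▸ normalizer_Phi _ hg)
  refine ⟨k2, simple_group_of k2 k3 (fun T hT z h1 h2 _ h3 h4 => hq.fus h4 (fun m hm => ?_) c4) fun K h1 h2 h3 g hg => ?_⟩
  · rw [List.mem_singleton.1 hm, show ev s (wd n 1) = s 0 from wd_pow (i := 0) hn, ← k4 z (hT h1) h3 h2]
    exact h1
  · obtain ⟨t, t1, t2, t3⟩ := ht hP (fun g hg => k6 g hg b ha le_rfl) K h3 g hg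
    have k7 := Subgroup.mul_mem _ (inv_mem t2) hg
    obtain ⟨x, hx, y, hy, e, ⟨j, hj⟩, hy'⟩ := exists_pi_decomp 2 (t⁻¹ * g)
    rw [← mul_mem_cancel_left (inv_mem t1), e]
    refine Subgroup.mul_mem _ (h1 (k2.le_of_normalizes (isPGroup_zpowers ⟨j, hj⟩) le_top
      (zpowers_le.2 (zpowers_le.2 k7 hx)) (mem_zpowers x))) (h2 (hP.centralizes hS (ha.trans hb) k5.le
        (fun i i1 i2 => zpowers_le.2 ?_ hy) hy'))
    rcases le_or_gt i b with i3 | i3
    · exact k6 _ k7 i i1 i3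
    · rcases i2.eq_or_lt with rfl | i2
      exacts [k7, t3 i i3 i2]

theorem top_triv (K : Subgroup G) (g : G) : ∃ t ∈ K, t ∈ normalizer (Sk s n : Set G) ∧
    ∀ i, n < i → i < n → t⁻¹ * g ∈ normalizer (Sk s i : Set G) :=
  ⟨1, one_mem _, one_mem _, fun _ h h' => absurd h h'.not_gt⟩

/-- `t = x y` with `x`, `y` of order dividing `8` normalizing `Q = Sk b`, permuting the cosets of `Q` transitively -/
def topChk (q : List ℕ → List ℕ → Bool) (b x y C₁ C₂ C₅ e₂ e₃ : ℕ) : Bool :=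
  band (band (band (q [x, x, x, x, x, x, x, x] []) (q [y, y, y, y, y, y, y, y] [])) (band (nrmChk q [x] b C₁) (nrmChk q [y] b C₂)))
    (band (band (nrmChk q [x, y] (b + 2) C₅) (cenChk q (b + 2) b b))
      (band (band (q [x, y, b] (app (wd (b + 2) e₂) [x, y])) (q [x, y, x, y, b] (app (wd (b + 2) e₃) [x, y, x, y])))
        (Nat.beq (Nat.mul (e₂ / 2 ^ b) (e₃ / 2 ^ b)) 6)))

theorem Dec.top (hq : Dec s q) {x y C₁ C₂ C₅ e₂ e₃ : ℕ} (h : topChk q b x y C₁ C₂ C₅ e₂ e₃ = true)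
    (h₂ : e₂ < 2 ^ (b + 2)) (h₃ : e₃ < 2 ^ (b + 2)) (hP : Pc s (b + 2))
    (hN : normalizer (Sk s (b + 2) : Set G) ≤ normalizer (Sk s b : Set G)) (K : Subgroup G) (hK : Loc (Sk s (b + 2)) K)
    (g : G) (hg : g ∈ normalizer (Sk s (b + 2) : Set G)) : ∃ t ∈ K, t ∈ normalizer (Sk s (b + 2) : Set G) ∧
      ∀ i, b < i → i < b + 2 → t⁻¹ * g ∈ normalizer (Sk s i : Set G) := by
  simp only [topChk, band_eq_true] at h
  obtain ⟨⟨⟨c1, c2⟩, c3, c4⟩, ⟨c5, c6⟩, ⟨c7, c8⟩, c9⟩ := h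
  have k0 : ∀ x, q [x, x, x, x, x, x, x, x] [] = true → ∀ C, nrmChk q [x] b C = true →
      s x ∈ Oq 2 (normalizer (Sk s b : Set G)) := fun x h C h' => mem_Oq (by simpa using hq.nrm h')
    (((Nat.dvd_prime_pow Nat.prime_two).1 (orderOf_dvd_of_pow_eq_one (n := 2 ^ 3)
      (by simpa [pow_succ, mul_assoc] using (hq _ _).1 h))).imp fun _ h => h.2)
  have k1 := hq.nrm c5
  have k2 : ev s [x, y] ∈ K := hK _ (Sk_mono (by omega)) (le_normalizer.trans hN) (hq.cen hP (by omega) c6)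
    ⟨k1, by simpa using Subgroup.mul_mem _ (k0 x c1 _ c3) (k0 y c2 _ c4)⟩
  obtain ⟨e, he, k3⟩ := hP.exists le_rfl ((mem_normalizer_iff.1 hg _).1 (mem_Sk (show b < b + 2 by omega)))
  have key : ∀ t ∈ K, t ∈ normalizer (Sk s (b + 2) : Set G) → t⁻¹ * ev s (wd (b + 2) e) * t ∈ Sk s (b + 1) →
      ∃ t ∈ K, t ∈ normalizer (Sk s (b + 2) : Set G) ∧
      ∀ i, b < i → i < b + 2 → t⁻¹ * g ∈ normalizer (Sk s i : Set G) := fun t h1 h2 h3 => ⟨t, h1, h2, fun i i1 i2 => by
    obtain rfl : i = b + 1 := by omega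
    refine nrm_of fun j hj => ?_
    rcases Nat.lt_succ_iff_lt_or_eq.1 hj with hj | rfl
    · exact Sk_mono b.le_succ ((mem_normalizer_iff.1 (hN (Subgroup.mul_mem _ (inv_mem h2) hg)) _).1 (mem_Sk hj))
    · convert h3 using 1; rw [k3]; group⟩
  have key2 : ∀ t ∈ K, t ∈ normalizer (Sk s (b + 2) : Set G) → ∀ e', t * s b * t⁻¹ = ev s (wd (b + 2) e') →
      e' / 2 ^ b = e / 2 ^ b → ∃ t ∈ K, t ∈ normalizer (Sk s (b + 2) : Set G) ∧
      ∀ i, b < i → i < b + 2 → t⁻¹ * g ∈ normalizer (Sk s i : Set G) := fun t h1 h2 e' h3 h4 => key t h1 h2 (by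
    obtain ⟨u, hu⟩ := exists_hi (s := s) (show b ≤ b + 2 by omega) (e / 2 ^ b)
    convert Subgroup.mul_mem _ (mem_Sk b.lt_succ_self) (Sk_mono b.le_succ ((mem_normalizer_iff''.1 (hN h2) _).1
      (Subgroup.mul_mem _ (inv_mem (wd_mem b e')) (wd_mem b e)))) using 1
    rw [hu e rfl, eq_mul_inv_of_mul_eq ((hu e' h4).symm.trans h3.symm)]; group)
  have k4 := hq.conj (g := [x, y]) (w := [b]) c7
  have k5 := hq.conj (g := [x, y, x, y]) (w := [b]) c8
  have k6 : ev s [x, y, x, y] = ev s [x, y] * ev s [x, y] := ev_append s [x, y] [x, y]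
  rw [show ev s [b] = s b from mul_one _] at k4 k5
  have k7 := Nat.eq_of_beq_eq_true c9
  have k8 := div_lt (show b ≤ b + 2 by omega) he
  have k9 := div_lt (show b ≤ b + 2 by omega) h₂
  have k10 := div_lt (show b ≤ b + 2 by omega) h₃
  rw [Nat.add_sub_cancel_left] at k8 k9 k10
  by_cases e1 : e / 2 ^ b < 2
  · refine key 1 (one_mem _) (one_mem _) ?_
    rw [inv_one, one_mul, mul_one, wd_of_lt (k := b + 1)
      (by rw [pow_succ']; exact (Nat.div_lt_iff_lt_mul (Nat.two_pow_pos b)).1 e1) (by omega)]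
    exact wd_mem _ _
  by_cases e2 : e₂ / 2 ^ b = e / 2 ^ b
  · exact key2 _ k2 k1 _ k4 e2
  refine key2 _ (k6 ▸ Subgroup.mul_mem _ k2 k2) (k6 ▸ Subgroup.mul_mem _ k1 k1) _ k5 ?_
  rw [Nat.mul_eq] at k7
  generalize e₂ / 2 ^ b = u at *
  generalize e₃ / 2 ^ b = v at *
  generalize e / 2 ^ b = w at *
  interval_cases u <;> omega

theorem dec_weqOn {X : Type*} [MulAction G X] {N k m : ℕ} {pt : ℕ → X} {T : Tr ℕ} (hT : Lets G N k m pt T) {B : List ℕ}
    (hB : IsB G N pt B) (hi : ∀ a < N, ∀ b < N, pt a = pt b → a = b) : Dec hT.e (weqOn k m T B) := fun w w' =>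
  ⟨weqOn_spec hT.rep hB.1 hB.2, fun h => allL_iff.2 fun a ha => by
    have h1 := apL_rep hT.rep w a (hB.1 a ha)
    have h2 := apL_rep hT.rep w' a (hB.1 a ha)
    rw [hi _ h1.1 _ h2.1 (by rw [h1.2, h2.2, h])]
    exact Nat.beq_refl _⟩

end H2.PC
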