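import Cfsg.Agent.H9.Im
import Cfsg.Agent.H9.Fus
import Cfsg.Prelude.Def_SylowChains

/-! Control of Sylow intersections. -/

set_option autoImplicit false
set_option linter.unusedSectionVars false

namespace H2SC

open Cfsg Subgroup H9 Relation

theorem chain_iff {α : Type*} {r : α → α → Prop} {a b : α} :
    (∃ (n : ℕ) (c : Fin (n + 1) → α), c 0 = a ∧ c (Fin.last n) = b ∧ ∀ i : Fin n, r (c i.castSucc) (c i.succ)) ↔
      ReflTransGen r a b := by
  constructor
  · rintro ⟨n, c, h0, h1, h⟩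
    have : ∀ i : Fin (n + 1), ReflTransGen r a (c i) := fun i => by
      induction i using Fin.induction with
      | zero => rw [h0]
      | succ i ih => exact ih.tail (h i)
    exact h1 ▸ this _
  · intro h
    induction h using ReflTransGen.head_induction_on with
    | refl => exact ⟨0, fun _ => b, rfl, rfl, fun i => i.elim0⟩
    | @head x y h1 _ ih =>
      obtain ⟨n, c, h0, h2, h⟩ := ih
      refine ⟨n + 1, Fin.cons x c, rfl, by rw [← h2]; rfl, fun i => ?_⟩
      induction i using Fin.cases with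
      | zero => simpa [h0] using h1
      | succ i => simpa using h i

variable {G : Type*} [Group G] [Finite G] {p : ℕ} [hp : Fact p.Prime]

/-- One step of a chain of Sylow subgroups. -/
def St (p : ℕ) (𝓕 : Set (Subgroup G)) (D S T : Subgroup G) : Prop :=
  ∃ X ∈ 𝓕, Syl p (S ⊓ X) X ∧ Syl p (T ⊓ X) X ∧ ∃ x ∈ X, cj x S = T ∧ D ≤ T ⊓ X

theorem St.mono {𝓕 𝓕' : Set (Subgroup G)} {D D' S T : Subgroup G} (h : St p 𝓕 D S T) (h1 : 𝓕 ⊆ 𝓕')
    (h2 : D' ≤ D) : St p 𝓕' D' S T := by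
  obtain ⟨X, a, b, c, x, d, e, f⟩ := h
  exact ⟨X, h1 a, b, c, x, d, e, h2.trans f⟩

theorem rt_mono {𝓕 𝓕' : Set (Subgroup G)} {D D' S T : Subgroup G} (h : ReflTransGen (St p 𝓕 D) S T)
    (h1 : 𝓕 ⊆ 𝓕') (h2 : D' ≤ D) : ReflTransGen (St p 𝓕' D') S T := by
  induction h with
  | refl => exact .refl
  | tail _ h ih => exact ih.tail (h.mono h1 h2)

theorem St.cj {𝓕 : Set (Subgroup G)} {D S T : Subgroup G} (h : St p 𝓕 D S T) {g : G}
    (h1 : ∀ X ∈ 𝓕, cj g X ∈ 𝓕) : St p 𝓕 (cj g D) (cj g S) (cj g T) := by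
  obtain ⟨X, a, b, c, x, d, e, f⟩ := h
  refine ⟨_, h1 X a, cj_inf g S X ▸ b.cj g, cj_inf g T X ▸ c.cj g, g * x * g⁻¹, conj_mem_cj_iff.2 d, ?_,
    cj_inf g T X ▸ cj_mono g f⟩
  rw [← e, ← cj_mul, ← cj_mul, inv_mul_cancel_right]

theorem rt_cj {𝓕 : Set (Subgroup G)} {D S T : Subgroup G} (h : ReflTransGen (St p 𝓕 D) S T) {g : G}
    (h1 : ∀ X ∈ 𝓕, cj g X ∈ 𝓕) : ReflTransGen (St p 𝓕 (cj g D)) (cj g S) (cj g T) := by
  induction h with
  | refl => exact .refl
  | tail _ h ih => exact ih.tail (h.cj h1)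

theorem mem_sm {𝓕 : Set (Subgroup G)} {S X : Subgroup G} :
    X ∈ sylowMembers p 𝓕 S ↔ X ∈ 𝓕 ∧ Syl p (S ⊓ X) X :=
  and_congr_right fun _ => ⟨fun ⟨P, h⟩ => h ▸ syl_of_sylow P, fun h => h.exists_sylow⟩

theorem normalSet_cj {𝓕 : Set (Subgroup G)} (h : IsNormalSet 𝓕) (g : G) : ∀ X ∈ 𝓕, cj g X ∈ 𝓕 :=
  fun X hX => by simpa [subgroupConjRight, cj_def] using h X hX g⁻¹

theorem ctrl_iff {𝓕 : Set (Subgroup G)} : ControlsSylowIntersections p 𝓕 ↔
    ∀ S T : Subgroup G, Syl p S ⊤ → Syl p T ⊤ → S ⊓ T ≠ ⊥ → ReflTransGen (St p 𝓕 (S ⊓ T)) S T := by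
  constructor
  · intro h S T hS hT h0
    obtain ⟨S, rfl⟩ := hS.exists_sylow_top
    obtain ⟨T, rfl⟩ := hT.exists_sylow_top
    by_cases e : S = T
    · rw [e]
    obtain ⟨n, c, X, x, h1, h2, h3⟩ := h S T e h0
    refine chain_iff.1 ⟨n, fun i => c i, congrArg _ h1, congrArg _ h2, fun i => ?_⟩
    obtain ⟨a, b, d, f, k⟩ := h3 i
    refine ⟨X i, a.1, (mem_sm.1 a).2, (mem_sm.1 b).2, x i, d, ?_, k⟩
    have : H9.cj (x i)⁻¹ (c i.succ : Subgroup G) = c i.castSucc := f
    show H9.cj (x i) (c i.castSucc : Subgroup G) = c i.succ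
    rw [← this, ← cj_mul, mul_inv_cancel, cj_eq_of_mem (one_mem _)]
  · intro h S T _ h0
    have h1 := h S T (syl_top_of_sylow S) (syl_top_of_sylow T) h0
    have h2 : ∀ U, ReflTransGen (St p 𝓕 ((S : Subgroup G) ⊓ T)) S U → ∃ U' : Sylow p G, (U' : Subgroup G) = U ∧
        ReflTransGen (fun A B : Sylow p G => St p 𝓕 ((S : Subgroup G) ⊓ T) A B) S U' := fun U hU => by
      induction hU with
      | refl => exact ⟨S, rfl, .refl⟩
      | tail _ k ih =>
        obtain ⟨U', rfl, k2⟩ := ih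
        have k' := k
        obtain ⟨X, -, -, -, x, -, e, -⟩ := k'
        obtain ⟨V, hV⟩ := (e ▸ (syl_top_of_sylow U').cj_of_mem (g := x) (le_normalizer (mem_top x))).exists_sylow_top
        exact ⟨V, hV, k2.tail (hV ▸ k)⟩
    obtain ⟨U, e, h3⟩ := h2 _ h1
    obtain rfl : U = T := Sylow.ext e
    obtain ⟨n, c, a, b, d⟩ := chain_iff.2 h3
    choose X h4 h5 h6 x h7 h8 h9 using d
    refine ⟨n, c, X, x, a, b, fun i => ⟨mem_sm.2 ⟨h4 i, h5 i⟩, mem_sm.2 ⟨h4 i, h6 i⟩, h7 i, ?_, h9 i⟩⟩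
    show H9.cj (x i)⁻¹ (c i.succ : Subgroup G) = c i.castSucc
    rw [← h8 i, ← cj_mul, inv_mul_cancel, cj_eq_of_mem (one_mem _)]

variable {f : Subgroup G → Set (Subgroup G)}

theorem mem_ff {M X : Subgroup G} :
    X ∈ functorFamily p f M ↔ ∃ P, Syl p P M ∧ ∃ F ∈ f P, X = M ⊓ normalizer (F : Set G) :=
  ⟨fun ⟨P, h⟩ => ⟨_, syl_of_sylow P, h⟩, fun ⟨_, h1, h⟩ => by
    obtain ⟨P, rfl⟩ := h1.exists_sylow
    exact ⟨P, h⟩⟩

theorem reg_iff {M : Subgroup G} : IsFunctorRegular p f M ↔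
    ∀ S T : Subgroup G, Syl p S M → Syl p T M → S ⊓ T ≠ ⊥ →
      ReflTransGen (St p (functorFamily p f M) (S ⊓ T)) S T := by
  have hle : ∀ X ∈ functorFamily p f M, X ≤ M := fun X hX => by
    obtain ⟨P, -, F, -, rfl⟩ := mem_ff.1 hX
    exact inf_le_left
  have mi : ∀ A B : Subgroup M, (A ⊓ B).map M.subtype = A.map M.subtype ⊓ B.map M.subtype :=
    fun A B => map_inf _ _ _ M.subtype_injective
  have ms : ∀ X ≤ M, (X.subgroupOf M).map M.subtype = X := fun X h => map_subgroupOf_eq_of_le h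
  unfold IsFunctorRegular
  rw [ctrl_iff]
  constructor
  · intro h S T hS hT h0
    have h1 := h (S.subgroupOf M) (T.subgroupOf M) (subgroupOf_self M ▸ hS.subgroupOf le_rfl)
      (subgroupOf_self M ▸ hT.subgroupOf le_rfl) (fun e => h0 (by
        have := congrArg (map M.subtype) e
        rwa [mi, ms S hS.le, ms T hT.le, Subgroup.map_bot] at this))
    have h2 : ∀ D U V : Subgroup M, ReflTransGen (St p ((fun X : Subgroup G => X.subgroupOf M) ''
        functorFamily p f M) D) U V → ReflTransGen (St p (functorFamily p f M) (D.map M.subtype))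
          (U.map M.subtype) (V.map M.subtype) := fun D U V k => by
      induction k with
      | refl => exact .refl
      | tail _ k ih =>
        obtain ⟨_, ⟨X, a, rfl⟩, b, c, x, d, e, g⟩ := k
        have b' := b.map M.subtype
        have c' := c.map M.subtype
        have g' := map_mono (f := M.subtype) g
        rw [mi, ms X (hle X a)] at b' c' g'
        exact ih.tail ⟨X, a, b', c', x, d, by rw [← e, map_cj]; rfl, g'⟩
    have h3 := h2 _ _ _ h1
    rwa [mi, ms S hS.le, ms T hT.le] at h3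
  · intro h S T hS hT h0
    have hS' := hS.map M.subtype
    have hT' := hT.map M.subtype
    rw [← MonoidHom.range_eq_map, range_subtype] at hS' hT'
    have h1 := h _ _ hS' hT' (fun e => h0 (by
      rwa [← mi, Subgroup.map_eq_bot_iff_of_injective _ M.subtype_injective] at e))
    have h2 : ∀ D U V : Subgroup G, ReflTransGen (St p (functorFamily p f M) D) U V →
        ReflTransGen (St p ((fun X : Subgroup G => X.subgroupOf M) '' functorFamily p f M) (D.subgroupOf M))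
          (U.subgroupOf M) (V.subgroupOf M) := fun D U V k => by
      induction k with
      | refl => exact .refl
      | tail _ k ih =>
        obtain ⟨X, a, b, c, x, d, e, g⟩ := k
        exact ih.tail ⟨_, ⟨X, a, rfl⟩, b.subgroupOf (hle X a), c.subgroupOf (hle X a), ⟨x, hle X a d⟩, d,
          by rw [← e, ← subgroupOf_cj], comap_mono g⟩
    have h3 := h2 _ _ _ h1
    have cm : ∀ A : Subgroup M, (A.map M.subtype).subgroupOf M = A := fun A =>
      comap_map_eq_self_of_injective M.subtype_injective A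
    rwa [← mi, cm, cm, cm] at h3

theorem ff_cj (hf : IsNormalizerFunctor p f) (g : G) :
    ∀ X ∈ functorFamily p f ⊤, cj g X ∈ functorFamily p f ⊤ := fun X hX => by
  obtain ⟨P, h1, F, h2, rfl⟩ := mem_ff.1 hX
  refine mem_ff.2 ⟨cj g P, h1.cj_of_mem (le_normalizer (mem_top g)), cj g F, ?_, ?_⟩
  · rw [cj_def, (hf P h1.isP).2 g]
    exact ⟨F, h2, rfl⟩
  · rw [top_inf_eq, top_inf_eq, cj_normalizer]

theorem St.lift (hf : IsNormalizerFunctor p f) {M D P Q : Subgroup G} (h : St p (functorFamily p f M) D P Q)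
    (hP : Syl p P M) : Syl p Q M ∧ D ≤ Q ∧ ∃ R F, Syl p R M ∧ F ∈ f R ∧ P ≤ normalizer (F : Set G) ∧
      Q ≤ normalizer (F : Set G) ∧ ∃ x ∈ normalizer (F : Set G), H9.cj x P = Q := by
  obtain ⟨X, a, b, c, x, d, e, g⟩ := h
  obtain ⟨R, hR, F, hF, rfl⟩ := mem_ff.1 a
  have hQ : Syl p Q M := e ▸ hP.cj_of_mem (le_normalizer (mem_inf.1 d).1)
  have hRX : R ≤ M ⊓ normalizer (F : Set G) := le_inf hR.le (le_normalizer.trans ((hf R hR.isP).1 F hF).2)
  have key : ∀ U, Syl p U M → Syl p (U ⊓ (M ⊓ normalizer (F : Set G))) (M ⊓ normalizer (F : Set G)) →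
      U ≤ normalizer (F : Set G) := fun U h1 h2 => by
    have : U ⊓ (M ⊓ normalizer (F : Set G)) = U :=
      eq_of_le_of_card_ge inf_le_left (by rw [h1.card_eq_card hR]; exact h2.card_le hR.isP hRX)
    exact this.ge.trans (inf_le_right.trans inf_le_right)
  exact ⟨hQ, g.trans inf_le_left, R, F, hR, hF, key P hP b, key Q hQ c, x, (mem_inf.1 d).2, e⟩

theorem St.up (hf : IsNormalizerFunctor p f) {M D P Q : Subgroup G} (h : St p (functorFamily p f M) D P Q)
    (hP : Syl p P M) (hP' : Syl p P ⊤) : St p (functorFamily p f ⊤) D P Q := by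
  obtain ⟨hQ, hD, R, F, hR, hF, h1, h2, x, hx, e⟩ := h.lift hf hP
  have hR' : Syl p R ⊤ := syl_of_card_le hR.isP le_top hP' (hP.card_eq_card hR).le
  have hQ' : Syl p Q ⊤ := syl_of_card_le hQ.isP le_top hP' (hP.card_eq_card hQ).le
  refine ⟨_, mem_ff.2 ⟨R, hR', F, hF, rfl⟩, ?_, ?_, x, mem_inf.2 ⟨mem_top _, hx⟩, e, ?_⟩
  · rw [top_inf_eq, inf_eq_left.2 h1]; exact hP'.mono h1 le_top
  · rw [top_inf_eq, inf_eq_left.2 h2]; exact hQ'.mono h2 le_top
  · rw [top_inf_eq, inf_eq_left.2 h2]; exact hD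

theorem rt_up (hf : IsNormalizerFunctor p f) {M D P Q : Subgroup G}
    (h : ReflTransGen (St p (functorFamily p f M) D) P Q) (hP : Syl p P M) (hP' : Syl p P ⊤) :
    ReflTransGen (St p (functorFamily p f ⊤) D) P Q ∧ Syl p Q M := by
  induction h with
  | refl => exact ⟨.refl, hP⟩
  | tail _ k ih =>
    exact ⟨ih.1.tail (k.up hf ih.2 (syl_of_card_le ih.2.isP le_top hP' (hP.card_eq_card ih.2).le)),
      (k.lift hf ih.2).1⟩

end H2SC
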