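import Mathlib

/-! Schur's theorem on primitive groups with a regular abelian subgroup having a cyclic Sylow subgroup. -/

namespace H2
open Subgroup MonoidAlgebra Finset
open scoped Classical

section abs
variable {C : Type*} [CommGroup C] [Fintype C] {p : ℕ} [hp : Fact p.Prime]

theorem sum_zero_of_stable {E : Subgroup C} (hE : Nat.card E = p) (F : C → ZMod p)
    (h : ∀ d, ∀ e ∈ E, F (d * e) = F d) : ∑ d, F d = 0 := by
  rw [← Fintype.sum_bijective (fun z : (C ⧸ E) × E => z.1.out * z.2) ?_ (fun z => F z.1.out) F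
    fun z => (h _ _ z.2.2).symm, Fintype.sum_prod_type]
  · simp [← Nat.card_eq_fintype_card, hE]
  · refine ⟨fun ⟨q, e⟩ ⟨q', e'⟩ h => ?_, fun c => ⟨(c, ⟨(c : C ⧸ E).out⁻¹ * c, QuotientGroup.eq.1 (by simp)⟩), by simp⟩⟩
    have := congrArg (QuotientGroup.mk (s := E)) h
    simp only [QuotientGroup.mk_mul_of_mem _ e.2, QuotientGroup.mk_mul_of_mem _ e'.2, QuotientGroup.out_eq'] at this
    subst this
    exact Prod.ext rfl (Subtype.ext (mul_left_cancel h))

noncomputable def ind (p : ℕ) (S : Finset C) : MonoidAlgebra (ZMod p) C := ∑ c ∈ S, single c 1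

omit [Fintype C] in
theorem coeff_ind (S : Finset C) (y : C) : (ind p S).coeff y = if y ∈ S then 1 else 0 := by
  simp [ind, coeff_sum, Finsupp.finset_sum_apply, Finsupp.single_apply]

theorem coeff_mul' (x y : MonoidAlgebra (ZMod p) C) (g : C) :
    (x * y).coeff g = ∑ h, x.coeff h * y.coeff (h⁻¹ * g) := by
  rw [coeff_mul_apply_left, Finsupp.sum_fintype _ _ (by simp)]

theorem schur_abs {r : C → C → Prop} (he : Equivalence r) (a1 : ∀ c, r c 1 → c = 1)
    (a2 : ∀ c c', r c c' → ∃ σ : C ≃ C, ∀ d, r d (σ d) ∧ r (d⁻¹ * c) ((σ d)⁻¹ * c'))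
    (a3 : ∀ K : Subgroup C, K ≠ ⊤ → ∀ s, (∀ c, r s c → c ∈ K) → s = 1)
    (a4 : ∀ t ≠ 1, ∀ e ≠ 1, ¬ ∀ c, r t c → r t (c * e))
    (hE : Nat.card (powMonoidHom p : C →* C).ker = p) (hC : Nat.card C ≠ p) {s t : C} (hs : s ≠ 1) (ht : t ≠ 1) :
    r s t := by
  obtain ⟨E, hE'⟩ : ∃ E, E = (powMonoidHom p : C →* C).ker := ⟨_, rfl⟩
  have mE : ∀ c, c ∈ E ↔ c ^ p = 1 := fun c => by rw [hE']; rfl
  rw [← hE'] at hE
  haveI : CharP (MonoidAlgebra (ZMod p) C) p := charP_of_injective_algebraMap (R := ZMod p)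
    (fun a b h => by simpa using congrArg (fun x => x.coeff 1) h) p
  let I : MonoidAlgebra (ZMod p) C → Prop := fun x => ∀ c c', r c c' → x.coeff c = x.coeff c'
  have Imul : ∀ x y, I x → I y → I (x * y) := fun x y hx hy c c' h => by
    obtain ⟨σ, hσ⟩ := a2 c c' h
    rw [coeff_mul', coeff_mul']
    exact Fintype.sum_equiv σ _ _ fun d => by rw [hx _ _ (hσ d).1, hy _ _ (hσ d).2]
  have Ipow : ∀ x, I x → ∀ n, I (x ^ (n + 1)) := fun x hx n => by
    induction n with
    | zero => rwa [zero_add, pow_one]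
    | succ n ih => rw [pow_succ]; exact Imul _ _ ih hx
  have Iind : ∀ t, I (ind p (univ.filter (r t))) := fun t c c' h => by
    simp only [coeff_ind, mem_filter, mem_univ, true_and]
    exact if_congr ⟨fun h' => he.trans h' h, fun h' => he.trans h' (he.symm h)⟩ rfl rfl
  have Isup : ∀ x, I x → ∀ K : Subgroup C, K ≠ ⊤ → (∀ c, x.coeff c ≠ 0 → c ∈ K) → ∀ c ≠ 1, x.coeff c = 0 :=
    fun x hx K hK h c hc => by_contra fun h0 => hc (a3 K hK c fun c' h' => h c' (hx c c' h' ▸ h0))
  obtain ⟨e, he', e1⟩ := (bot_or_exists_ne_one E).resolve_left fun h => by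
    rw [h, card_bot] at hE; exact hp.out.one_lt.ne hE
  have b1 : ∀ t x, r t x → x ∉ E → ∀ e ∈ E, r t (x * e) := fun t x hx hxE => by
    have h1 := Isup _ (Ipow _ (Iind t) (p - 1)) (powMonoidHom p : C →* C).range (fun h => e1 ((Finite.injective_iff_surjective.2
      (MonoidHom.range_eq_top.1 h)) (((mE e).1 he').trans (map_one _).symm))) (by
      rw [Nat.sub_add_cancel hp.out.one_le, ind, sum_pow_char]
      intro c hc
      simp only [single_pow, coeff_sum, Finsupp.finset_sum_apply, coeff_single] at hc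
      obtain ⟨d, -, hd⟩ := exists_ne_zero_of_sum_ne_zero hc
      exact ⟨d, (Finsupp.single_apply_ne_zero.1 hd).1.symm⟩) (x ^ p) fun h => hxE ((mE x).2 h)
    rw [Nat.sub_add_cancel hp.out.one_le, ind, sum_pow_char] at h1
    simp only [single_pow, coeff_sum, Finsupp.finset_sum_apply, coeff_single, one_pow, Finsupp.single_apply,
      sum_boole, ZMod.natCast_eq_zero_iff] at h1
    have h2 : (filter (fun c => c ^ p = x ^ p) (filter (r t) univ)) ⊆ (univ.filter (· ∈ E)).image (x * ·) := fun c hc =>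
      mem_image.2 ⟨x⁻¹ * c, by simp [mE, mul_pow, (mem_filter.1 hc).2], by simp⟩
    have h3 := eq_of_subset_of_card_le h2 (by
      rw [card_image_of_injective _ (mul_right_injective x), ← Fintype.card_subtype, ← Nat.card_eq_fintype_card, hE]
      exact Nat.le_of_dvd (card_pos.2 ⟨x, by simp [hx]⟩) h1)
    intro e he
    exact (mem_filter.1 (mem_filter.1 (h3.ge (mem_image.2 ⟨e, by simpa using he, rfl⟩))).1).2
  have b2 : ∀ t ≠ 1, ∃ d ∈ E, r t d := fun t ht => by
    by_contra h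
    push Not at h
    exact a4 t ht e e1 fun c hc => b1 t c hc (fun h' => h c h' hc) e he'
  have b3 : ∀ t ≠ 1, p ≤ 2 * #(univ.filter fun d => d ∈ E ∧ r t d) := fun t ht => by
    by_contra hlt
    obtain ⟨D, hD⟩ : ∃ D, D = univ.filter fun d => d ∈ E ∧ r t d := ⟨_, rfl⟩
    obtain ⟨U, hU⟩ : ∃ U, U = univ.filter fun d => d ∉ E ∧ r t d := ⟨_, rfl⟩
    rw [← hD] at hlt
    have mD : ∀ d, d ∈ D ↔ d ∈ E ∧ r t d := fun d => by simp [hD]
    have mU : ∀ d, ∀ e ∈ E, d * e ∈ U ↔ d ∈ U := fun d e he => by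
      simp only [hU, mem_filter, mem_univ, true_and, mul_mem_cancel_right he]
      refine and_congr_right fun h => ⟨fun h' => ?_, fun h' => b1 t d h' h e he⟩
      simpa using b1 t _ h' (by rwa [mul_mem_cancel_right he]) _ (inv_mem he)
    have c1 : ind p (univ.filter (r t)) = ind p D + ind p U := by
      ext c
      by_cases h : c ∈ E <;> simp [coeff_ind, hD, hU, h]
    have c2 : ind p D * ind p U = #D • ind p U := by
      rw [ind, sum_mul, ← sum_const]
      refine sum_congr rfl fun d hd => ?_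
      ext c
      rw [coeff_single_mul_apply, one_mul, coeff_ind, coeff_ind, mul_comm]
      simp only [mU c _ (inv_mem ((mD d).1 hd).1)]
    have c3 : ind p U * ind p U = 0 := by
      ext c
      rw [coeff_mul']
      refine sum_zero_of_stable hE _ fun d e he => ?_
      simp only [coeff_ind, mU d e he, mul_inv, mul_right_comm _ e⁻¹, mU _ _ (inv_mem he)]
    have c4 : ind p (univ.filter (r t)) * ind p (univ.filter (r t)) - (2 * #D) • ind p (univ.filter (r t)) =
        ind p D * ind p D - (2 * #D) • ind p D := by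
      rw [c1, add_mul, mul_add, mul_add, mul_comm (ind p U) (ind p D), c2, c3, smul_add, two_mul, add_smul, add_smul]
      abel
    obtain ⟨d, hd, hd'⟩ := b2 t ht
    have c5 := Isup (ind p D * ind p D - (2 * #D) • ind p D) (fun c c' h => by
      rw [← c4]
      simp only [coeff_sub, Finsupp.sub_apply, coeff_smul_apply, Imul _ _ (Iind t) (Iind t) c c' h, Iind t c c' h])
      E (fun h => hC (by rw [← hE, h, Subgroup.card_top])) (fun c hc => by
        by_contra h
        refine hc ?_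
        rw [coeff_sub, Finsupp.sub_apply, coeff_smul_apply, coeff_ind, if_neg fun h' => h ((mD c).1 h').1, smul_zero,
          sub_zero, coeff_mul']
        refine sum_eq_zero fun x _ => ?_
        rw [coeff_ind, coeff_ind]
        split_ifs with h1 h2
        · exact absurd ((mul_mem_cancel_left (inv_mem ((mD x).1 h1).1)).1 ((mD _).1 h2).1) h
        all_goals simp) d fun h => ht (a1 t (h ▸ hd'))
    rw [coeff_sub, Finsupp.sub_apply, coeff_smul_apply, coeff_ind, if_pos ((mD d).2 ⟨hd, hd'⟩), coeff_mul', sub_eq_zero,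
      nsmul_one] at c5
    simp only [coeff_ind, ite_zero_mul_ite_zero, mul_one, sum_boole, ZMod.natCast_eq_natCast_iff'] at c5
    have c6 : #(univ.filter fun x => x ∈ D ∧ x⁻¹ * d ∈ D) ≤ #D := card_le_card fun x hx => (mem_filter.1 hx).2.1
    have c7 : 0 < #D := card_pos.2 ⟨d, (mD d).2 ⟨hd, hd'⟩⟩
    rw [Nat.mod_eq_of_lt (by omega), Nat.mod_eq_of_lt (by omega)] at c5
    omega
  by_contra h
  have h1 := b3 s hs
  have h2 := b3 t ht
  have h3 := card_le_card (s := (univ.filter fun d => d ∈ E ∧ r s d) ∪ (univ.filter fun d => d ∈ E ∧ r t d))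
    (t := (univ.filter (· ∈ E)).erase 1) fun d hd => by
      simp only [mem_union, mem_filter, mem_univ, true_and, mem_erase] at hd ⊢
      rcases hd with hd | hd
      · exact ⟨fun h' => hs (a1 s (h' ▸ hd.2)), hd.1⟩
      · exact ⟨fun h' => ht (a1 t (h' ▸ hd.2)), hd.1⟩
  rw [card_union_of_disjoint (disjoint_filter.2 fun d _ h1 h2 => h (he.trans h1.2 (he.symm h2.2))),
    card_erase_of_mem (by simp), ← Fintype.card_subtype (· ∈ E), ← Nat.card_eq_fintype_card, hE] at h3
  have := hp.out.pos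
  omega

end abs

def mkSub {G : Type*} [Group G] [Finite G] (S : Set G) (h1 : 1 ∈ S) (h : ∀ a b, a ∈ S → b ∈ S → a * b ∈ S) :
    Subgroup G where
  carrier := S
  one_mem' := h1
  mul_mem' := h _ _
  inv_mem' {g} hg := by
    have : ∀ n, g ^ n ∈ S := fun n => by
      induction n with
      | zero => rwa [pow_zero]
      | succ n ih => rw [pow_succ]; exact h _ _ ih hg
    rw [inv_eq_of_mul_eq_one_left (b := g) (a := g ^ (orderOf g - 1))
      (by rw [← pow_succ, Nat.sub_add_cancel (orderOf_pos g), pow_orderOf_eq_one])]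
    exact this _

open MulAction in
theorem schur {G Ω C : Type*} [Group G] [Finite G] [MulAction G Ω] [CommGroup C] [Finite C] (hG : IsPreprimitive G Ω)
    (ι : C →* G) (a : Ω) (hφ : Function.Bijective fun c => ι c • a) {p : ℕ} [hp : Fact p.Prime]
    (hE : Nat.card (powMonoidHom p : C →* C).ker = p) (hC : Nat.card C ≠ p) : IsMultiplyPretransitive G Ω 2 := by
  haveI := Fintype.ofFinite C
  obtain ⟨φ, hφ'⟩ : ∃ φ : C ≃ Ω, ∀ c, φ c = ι c • a := ⟨Equiv.ofBijective _ hφ, fun _ => rfl⟩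
  have h1 : φ 1 = a := by rw [hφ', map_one, one_smul]
  have hm : ∀ c d, ι c • φ d = φ (c * d) := fun c d => by rw [hφ', hφ', map_mul, mul_smul]
  have L0 : ∀ Δ : Set Ω, (∀ g : G, g • a = a → ∀ x ∈ Δ, g • x ∈ Δ) → ∀ e ≠ 1, (∀ x ∈ Δ, ι e • x ∈ Δ) →
      ∀ x ∈ Δ, ∀ y, y ∈ Δ := fun Δ h e e1 h' x hx y => by
    have ne : ι e • a ≠ a := fun h0 => e1 (φ.injective (by rw [hφ', h0, h1]))
    haveI : Nontrivial Ω := ⟨_, _, ne⟩
    let X : Subgroup G := mkSub {g | ∀ x ∈ Δ, g • x ∈ Δ} (fun x hx => by rwa [one_smul]) fun g h h1 h2 x hx => by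
      rw [mul_smul]; exact h1 _ (h2 x hx)
    have := ((isCoatom_stabilizer_iff_preprimitive G a).2 hG).2 X (lt_of_le_of_ne h fun h0 => ne (h0.ge h'))
    obtain ⟨g, rfl⟩ := exists_smul_eq G x y
    exact this.ge (mem_top g) x hx
  let r : C → C → Prop := fun c c' => ∃ g : G, g • a = a ∧ g • φ c = φ c'
  have he : Equivalence r := ⟨fun c => ⟨1, one_smul _ _, one_smul _ _⟩,
    fun ⟨g, h1, h2⟩ => ⟨g⁻¹, inv_smul_eq_iff.2 h1.symm, inv_smul_eq_iff.2 h2.symm⟩,
    fun ⟨g, h1, h2⟩ ⟨g', h3, h4⟩ => ⟨g' * g, by rw [mul_smul, h1, h3], by rw [mul_smul, h2, h4]⟩⟩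
  have a1 : ∀ c, r c 1 → c = 1 := fun c ⟨g, h2, h3⟩ =>
    φ.injective (smul_left_cancel g (h3.trans (by rw [h1, h2])))
  have fx : ∀ {g : G} {d d' : C}, g • φ d = φ d' → ((ι d')⁻¹ * g * ι d) • a = a := fun h => by
    rw [mul_smul, mul_smul, ← hφ', h, hφ', inv_smul_smul]
  have key := @schur_abs C _ _ p _ r he a1 (fun c c' ⟨g, h2, h3⟩ =>
    ⟨φ.trans ((toPerm g).trans φ.symm), fun d => ⟨⟨g, h2, by simp⟩, _, fx (g := g) (d := d) (φ.apply_symm_apply _).symm, by
      rw [mul_smul, mul_smul, hm, mul_inv_cancel_left, h3, ← map_inv, hm]; rfl⟩⟩) (fun K hK s hs => ?_)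
    (fun t ht e e1 h => ?_) hE hC
  · have k2 : ∀ {x y : Ω}, x ≠ y → ∀ t ≠ 1, ∃ g : G, g • x = a ∧ g • y = φ t := fun {x y} hxy t ht => by
      obtain ⟨g, rfl⟩ := exists_smul_eq G a x
      obtain ⟨k, h2, h3⟩ := key (s := φ.symm (g⁻¹ • y)) (fun h => hxy (by
        rw [Equiv.symm_apply_eq, h1, inv_smul_eq_iff] at h; exact h.symm)) ht
      exact ⟨k * g⁻¹, by rw [mul_smul, inv_smul_smul, h2], by rw [mul_smul, ← h3, Equiv.apply_symm_apply]⟩
    obtain ⟨t, -, ht⟩ := (bot_or_exists_ne_one (powMonoidHom p : C →* C).ker).resolve_left fun h => by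
      rw [h, card_bot] at hE; exact hp.out.one_lt.ne hE
    refine is_two_pretransitive_iff.2 fun hab hcd => ?_
    obtain ⟨g, h2, h3⟩ := k2 hab t ht
    obtain ⟨g', h4, h5⟩ := k2 hcd t ht
    exact ⟨g'⁻¹ * g, by rw [mul_smul, h2, inv_smul_eq_iff, h4], by rw [mul_smul, h3, inv_smul_eq_iff, h5]⟩
  · by_contra s1
    let H := closure {c | r s c}
    have hH : H ≤ mkSub {c | ∀ g : G, g • a = a → φ.symm (g • φ c) ∈ H}
        (fun g hg => by rw [h1, hg, ← h1, Equiv.symm_apply_apply]; exact one_mem _) fun c d hc hd g hg => by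
          have := H.mul_mem (hc g hg) (hd _ (fx (g := g) (d := c) (d' := φ.symm (g • φ c)) (by simp)))
          convert this using 1
          rw [Equiv.symm_apply_eq, ← hm (φ.symm _), Equiv.apply_symm_apply, mul_smul, mul_smul, smul_inv_smul, hm] :=
      (closure_le _).2 fun c hc g hg => subset_closure (he.trans hc ⟨g, hg, by simp⟩)
    refine hK (eq_top_iff.2 fun c _ => (closure_le K).2 hs (?_ : c ∈ H))
    simpa using L0 {x | φ.symm x ∈ H} (fun g hg x hx => by simpa using hH hx g hg) s s1 (fun x hx => by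
      obtain ⟨d, rfl⟩ := φ.surjective x
      rw [Set.mem_setOf_eq, hm, Equiv.symm_apply_apply]
      exact H.mul_mem (subset_closure (he.refl s)) (by simpa using hx)) (φ 1) (by simp) (φ c)
  · refine ht (a1 t ?_)
    simpa using L0 {x | r t (φ.symm x)} (fun g hg x hx => he.trans hx ⟨g, hg, by simp⟩) e e1 (fun x hx => by
      obtain ⟨d, rfl⟩ := φ.surjective x
      rw [Set.mem_setOf_eq, hm, Equiv.symm_apply_apply, mul_comm]
      exact h d (by simpa using hx)) (φ t) (by simpa using he.refl t) (φ 1)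

end H2
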