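import Cfsg.Agent.H9.Syl
import Cfsg.Agent.H9.Comp
import Cfsg.Agent.PM.E
import Cfsg.Agent.H1.Coprime
import Cfsg.Agent.H1.Frattini
import Cfsg.Agent.H1.PLen

set_option autoImplicit false
open Subgroup H9 Cfsg
open scoped commutatorElement

namespace H2T

theorem aut_sq {A : Type*} [CommGroup A] [Finite A] (hA : IsPGroup 2 A) (t : MulAut A)
    (ht : ∃ k : ℕ, orderOf t = 2 ^ k) (hC : ∀ a : A, t (t a) = a → t a = a) (a : A) : t a = a := by
  classical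
  letI := Fintype.ofFinite A
  haveI : Fact (Nat.Prime 2) := ⟨Nat.prime_two⟩
  obtain ⟨k, hk⟩ := ht
  let f : A →* A := t.toMonoidHom * (MonoidHom.id A)⁻¹
  have hf : ∀ a, f a = t a * a⁻¹ := fun _ => rfl
  by_contra hne
  have hW : f.range ≠ ⊥ := fun h => hne (by
    have : f a ∈ f.range := ⟨a, rfl⟩
    rwa [h, mem_bot, hf, mul_inv_eq_one] at this)
  have hP : IsPGroup 2 (zpowers t) := IsPGroup.of_card (by rw [Nat.card_zpowers, hk])
  have hinv : ∀ g ∈ zpowers t, ∀ x ∈ f.range, g x ∈ f.range := by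
    rintro g ⟨n, rfl⟩ _ ⟨x, rfl⟩
    refine ⟨(t ^ n) x, ?_⟩
    rw [hf, hf, map_mul, map_inv, ← MulAut.mul_apply, ← MulAut.mul_apply, (Commute.self_zpow t n).eq]
  obtain ⟨x, hx, hfix⟩ := PM.exists_fix (α := A) Nat.prime_two hP
    ((Finset.univ.filter (· ∈ f.range)).erase 1) (fun g hg x hx => by
      simp only [Finset.mem_erase, Finset.mem_filter, Finset.mem_univ, true_and] at hx ⊢
      exact ⟨fun e => hx.1 ((MulEquiv.map_eq_one_iff g).1 e), hinv g hg x hx.2⟩) (by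
      rw [Finset.card_erase_of_mem (Finset.mem_filter.2 ⟨Finset.mem_univ _, f.range.one_mem⟩), ← Fintype.card_subtype, ← Nat.card_eq_fintype_card]
      obtain ⟨n, hn, h2⟩ := (hA.to_subgroup f.range).nontrivial_iff_card.1 ((nontrivial_iff_ne_bot _).2 hW)
      have : 2 ∣ Nat.card f.range := h2 ▸ dvd_pow_self 2 hn.ne'
      have h3 : 0 < Nat.card f.range := Nat.card_pos
      omega)
  simp only [Finset.mem_erase, Finset.mem_filter, Finset.mem_univ, true_and] at hx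
  have hx1 : t x = x := hfix t (mem_zpowers t)
  obtain ⟨n, hn⟩ := hA x
  obtain ⟨j, h1, h2⟩ := H1.exists_pow_notMem_pow_mem (p := 2) (N := ⊥) (k := n) (mt mem_bot.1 hx.1) (mem_bot.2 hn)
  obtain ⟨y, hy⟩ := pow_mem hx.2 (2 ^ j)
  have e1 : t y = x ^ 2 ^ j * y := by rw [← hy, hf, inv_mul_cancel_right]
  have := hC y (by rw [e1, map_mul, map_pow, hx1, e1, ← mul_assoc, ← sq, mem_bot.1 h2, one_mul])
  rw [e1, mul_eq_right] at this
  exact h1 (mem_bot.2 this)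

variable {G : Type*} [Group G] [Finite G]

theorem ti_cent {A B : Subgroup G} (hB2 : IsPGroup 2 B) (hBa : IsMulCommutative B) (hA2 : IsPGroup 2 A)
    (hti : ∀ h : G, cj h A = A ∨ cj h A ⊓ A = ⊥) (hAB : A ⊓ B = ⊥) {t : G} (ht : t ∈ A)
    (htn : t ∈ normalizer (B : Set G)) (h2 : t ^ 2 ≠ 1) : B ≤ normalizer (A : Set G) := by
  have nrm : ∀ b u : G, u ∈ A → u ≠ 1 → b * u = u * b → b ∈ normalizer (A : Set G) := fun b u hu h1 h =>
    mem_normalizer_iff_cj.2 ((hti b).resolve_right fun e => h1 (mem_bot.1 (e.le ⟨mem_cj.2 (by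
      rw [mul_assoc, ← h, inv_mul_cancel_left]; exact hu), hu⟩)))
  letI : CommGroup B := { mul_comm := hBa.is_comm.comm }
  let φ : MulAut B := B.normalizerMonoidHom ⟨t, htn⟩
  have hφ : ∀ b : B, (φ b : G) = t * b * t⁻¹ := fun _ => rfl
  haveI : Fact (Nat.Prime 2) := ⟨Nat.prime_two⟩
  have key := aut_sq hB2 φ (by
    obtain ⟨n, hn⟩ := hA2 ⟨t, ht⟩
    have : φ ^ 2 ^ n = 1 := by
      rw [← map_pow, show (⟨t, htn⟩ : normalizer (B : Set G)) ^ 2 ^ n = 1 from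
        Subtype.ext (congrArg A.subtype hn), map_one]
    obtain ⟨k, -, hk⟩ := (Nat.dvd_prime_pow Nat.prime_two).1 (orderOf_dvd_of_pow_eq_one this)
    exact ⟨k, hk⟩) fun b hb => by
      have h1 : t * (t * b * t⁻¹) * t⁻¹ = b := congrArg Subtype.val hb
      have h3 := nrm b (t ^ 2) (pow_mem ht 2) h2 (by
        conv_lhs => rw [← h1]
        rw [sq]; group)
      have h4 : t * b * t⁻¹ * (b : G)⁻¹ ∈ A ⊓ B := ⟨by
        have := A.mul_mem ht ((mem_normalizer_iff.1 h3 _).1 (A.inv_mem ht))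
        simpa [mul_assoc] using this, B.mul_mem (φ b).2 (B.inv_mem b.2)⟩
      rw [hAB, mem_bot, mul_inv_eq_one] at h4
      exact Subtype.ext h4
  intro b hb
  have := congrArg Subtype.val (key ⟨b, hb⟩)
  rw [hφ, mul_inv_eq_iff_eq_mul] at this
  exact nrm b t ht (fun e => h2 (by rw [e, one_pow])) this.symm

theorem exists_sq {R T : Subgroup G} (hT : IsPGroup 2 T) (h : R < T) : ∃ t ∈ T, t ∉ R ∧ t ^ 2 ∈ R := by
  obtain ⟨t, ht, ht'⟩ := SetLike.exists_of_lt h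
  obtain ⟨n, hn⟩ := hT ⟨t, ht⟩
  obtain ⟨j, h1, h2⟩ := H1.exists_pow_notMem_pow_mem (p := 2) (k := n) ht' (by
    rw [show t ^ 2 ^ n = 1 from congrArg Subtype.val hn]; exact R.one_mem)
  exact ⟨_, pow_mem ht _, h1, h2⟩

/-- one half of the pair argument -/
theorem inj_aux {R T : Subgroup G} (h1 : ∀ t ∈ T, cj t R = R ∨ (cj t R ⊓ R = ⊥ ∧ cj t R ≤ centralizer (R : Set G)))
    {t : G} (ht : t ∈ T) (hn : t ∉ normalizer (R : Set G)) :
    ∃ f : (R ⊓ normalizer (T : Set G) : Subgroup G) → (T ⊓ normalizer (R : Set G) : Subgroup G),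
      Function.Injective f ∧ ∀ r, (f r : G) = (r : G)⁻¹ * (t * r * t⁻¹) := by
  obtain ⟨h2, h3⟩ := (h1 t ht).resolve_left fun e => hn (mem_normalizer_iff_cj.2 e)
  refine ⟨fun r => ⟨(r : G)⁻¹ * (t * r * t⁻¹), ?_, ?_⟩, fun r s h => ?_, fun _ => rfl⟩
  · have := T.mul_mem ((mem_normalizer_iff''.1 r.2.2 t).1 ht) (T.inv_mem ht)
    simpa [mul_assoc] using this
  · exact mul_mem (le_normalizer (R.inv_mem r.2.1)) (centralizer_le_normalizer' R (h3 (conj_mem_cj r.2.1)))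
  · have h4 : (r : G)⁻¹ * (t * r * t⁻¹) = (s : G)⁻¹ * (t * s * t⁻¹) := congrArg Subtype.val h
    have h5 : (s : G) * (r : G)⁻¹ ∈ cj t R ⊓ R := by
      refine ⟨?_, R.mul_mem s.2.1 (R.inv_mem r.2.1)⟩
      have : (s : G) * (r : G)⁻¹ = t * (s * (r : G)⁻¹) * t⁻¹ := by
        calc _ = s * ((r : G)⁻¹ * (t * r * t⁻¹)) * (t * r * t⁻¹)⁻¹ := by group
          _ = _ := by rw [h4]; group
      rw [this]
      exact conj_mem_cj (R.mul_mem s.2.1 (R.inv_mem r.2.1))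
    rw [h2, mem_bot, mul_inv_eq_one] at h5
    exact Subtype.ext h5.symm

theorem inv_aux {R T : Subgroup G} (hT : IsPGroup 2 T) (hRT : R ⊓ T = ⊥)
    (h1 : ∀ t ∈ T, cj t R = R ∨ (cj t R ⊓ R = ⊥ ∧ cj t R ≤ centralizer (R : Set G)))
    (hc : Nat.card (T ⊓ normalizer (R : Set G) : Subgroup G) ≤ Nat.card (R ⊓ normalizer (T : Set G) : Subgroup G))
    (hn : ¬ T ≤ normalizer (R : Set G)) :
    ∃ t ∈ T, t ∉ normalizer (R : Set G) ∧ (∀ u ∈ T ⊓ normalizer (R : Set G), t * u * t⁻¹ = u⁻¹) ∧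
      ∀ u ∈ T ⊓ normalizer (R : Set G), ∃ r ∈ R ⊓ normalizer (T : Set G), u = r⁻¹ * (t * r * t⁻¹) := by
  obtain ⟨t, ht, h2, h3⟩ := exists_sq hT (lt_of_le_of_ne (inf_le_left : T ⊓ normalizer (R : Set G) ≤ T)
    fun e => hn (e.ge.trans inf_le_right))
  have h2' : t ∉ normalizer (R : Set G) := fun e => h2 ⟨ht, e⟩
  obtain ⟨f, hf, hf'⟩ := inj_aux h1 ht h2'
  have hs : Function.Surjective f := (hf.bijective_of_nat_card_le hc).2
  have key : ∀ u ∈ T ⊓ normalizer (R : Set G), ∃ r ∈ R ⊓ normalizer (T : Set G), u = r⁻¹ * (t * r * t⁻¹) :=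
    fun u hu => by
      obtain ⟨r, hr⟩ := hs ⟨u, hu⟩
      exact ⟨r, r.2, by rw [← hf', hr]⟩
  refine ⟨t, ht, h2', fun u hu => ?_, key⟩
  obtain ⟨r, hr, rfl⟩ := key u hu
  have h4 : t ^ 2 * r * (t ^ 2)⁻¹ * r⁻¹ ∈ R ⊓ T := ⟨R.mul_mem ((mem_normalizer_iff.1 h3.2 r).1 hr.1) (R.inv_mem hr.1), by
    have := T.mul_mem h3.1 ((mem_normalizer_iff.1 hr.2 _).1 (T.inv_mem h3.1))
    simpa [mul_assoc] using this⟩
  rw [hRT, mem_bot, mul_inv_eq_one] at h4
  calc _ = (t * r * t⁻¹)⁻¹ * (t ^ 2 * r * (t ^ 2)⁻¹) := by rw [sq]; group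
    _ = _ := by rw [h4]; group

theorem pair {R T : Subgroup G} (hR : IsPGroup 2 R) (hT : IsPGroup 2 T) (hRT : R ⊓ T = ⊥)
    (hc : Nat.card R = Nat.card T) (hr : ∃ r ∈ R, r ^ 2 ≠ 1)
    (h1 : ∀ t ∈ T, cj t R = R ∨ (cj t R ⊓ R = ⊥ ∧ cj t R ≤ centralizer (R : Set G)))
    (h2 : ∀ t ∈ R, cj t T = T ∨ (cj t T ⊓ T = ⊥ ∧ cj t T ≤ centralizer (T : Set G))) : ⁅R, T⁆ = ⊥ := by
  by_cases hb : T ≤ normalizer (R : Set G) ∧ R ≤ normalizer (T : Set G)
  · rw [eq_bot_iff, ← hRT]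
    exact le_inf (commutator_le_left' hb.1) (commutator_le_right' hb.2)
  exfalso
  have step : ∀ {R T : Subgroup G}, Nat.card R = Nat.card T →
      (∀ t ∈ T, cj t R = R ∨ (cj t R ⊓ R = ⊥ ∧ cj t R ≤ centralizer (R : Set G))) →
      ¬ T ≤ normalizer (R : Set G) → Nat.card (R ⊓ normalizer (T : Set G) : Subgroup G) ≤
        Nat.card (T ⊓ normalizer (R : Set G) : Subgroup G) ∧ ¬ R ≤ normalizer (T : Set G) := fun {R T} hc h1 hn => by
    obtain ⟨t, ht, ht'⟩ := SetLike.not_le_iff_exists.1 hn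
    obtain ⟨f, hf, -⟩ := inj_aux h1 ht ht'
    have := Nat.card_le_card_of_injective f hf
    refine ⟨this, fun h => hn ?_⟩
    rw [inf_eq_left.2 h, hc] at this
    exact (eq_of_le_of_card_ge inf_le_left this).ge.trans inf_le_right
  have hn : ¬ T ≤ normalizer (R : Set G) ∧ ¬ R ≤ normalizer (T : Set G) := by
    rcases not_and_or.1 hb with h | h
    exacts [⟨h, (step hc h1 h).2⟩, ⟨(step hc.symm h2 h).2, h⟩]
  have c1 := (step hc h1 hn.1).1
  have c2 := (step hc.symm h2 hn.2).1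
  obtain ⟨t, ht, ht', -, a2⟩ := inv_aux hT hRT h1 c2 hn.1
  obtain ⟨s, hs, hs', b1, b2⟩ := inv_aux hR (inf_comm R T ▸ hRT) h2 c1 hn.2
  obtain ⟨h3, h4⟩ := (h1 t ht).resolve_left fun e => ht' (mem_normalizer_iff_cj.2 e)
  have sq' : ∀ v ∈ R ⊓ normalizer (T : Set G), ∃ r ∈ R ⊓ normalizer (T : Set G), v = r ^ 2 := fun v hv => by
    obtain ⟨u, hu, rfl⟩ := b2 v hv
    obtain ⟨r, hr, rfl⟩ := a2 u hu
    refine ⟨r, hr, ?_⟩
    have e1 := comm_of_mem_centralizer (h4 (conj_mem_cj hr.1)) hs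
    have e2 := comm_of_mem_centralizer (h4 (conj_mem_cj hr.1)) (pow_mem hr.1 2)
    have e3 := b1 r hr
    calc _ = (t * r * t⁻¹)⁻¹ * r * (s * r * s⁻¹)⁻¹ * (s * (t * r * t⁻¹)) * s⁻¹ := by group
      _ = (t * r * t⁻¹)⁻¹ * (r ^ 2 * (t * r * t⁻¹)) := by rw [e1, e3, sq]; group
      _ = _ := by rw [e2]; group
  have r0 : R ⊓ normalizer (T : Set G) = ⊥ := by
    rw [eq_bot_iff]
    have pw : ∀ n : ℕ, ∀ v ∈ R ⊓ normalizer (T : Set G), ∃ r ∈ R ⊓ normalizer (T : Set G), v = r ^ 2 ^ n := fun n => by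
      induction n with
      | zero => exact fun v hv => ⟨v, hv, by simp⟩
      | succ n ih =>
        intro v hv
        obtain ⟨r, hr, rfl⟩ := ih v hv
        obtain ⟨r', hr', rfl⟩ := sq' r hr
        exact ⟨r', hr', by rw [← pow_mul, pow_succ']⟩
    haveI : Fact (Nat.Prime 2) := ⟨Nat.prime_two⟩
    obtain ⟨n, hn⟩ := hR.exists_card_eq
    intro v hv
    obtain ⟨r, hr, rfl⟩ := pw n v hv
    rw [mem_bot, ← hn]
    exact congrArg Subtype.val (pow_card_eq_one' (x := (⟨r, hr.1⟩ : R)))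
  have t0 : T ⊓ normalizer (R : Set G) = ⊥ := by
    rw [r0, card_bot] at c2
    exact eq_bot_of_card_le _ c2
  obtain ⟨r, hr, hr2⟩ := hr
  obtain ⟨w, hw, hw1, hw2⟩ := exists_sq hT (R := ⊥) (bot_lt_iff_ne_bot.2 fun e => ht' (by
    rw [e, mem_bot] at ht; rw [ht]; exact one_mem _))
  rw [mem_bot] at hw1 hw2
  obtain ⟨h5, h6⟩ := (h1 w hw).resolve_left fun e => hw1 (mem_bot.1 (t0.le ⟨hw, mem_normalizer_iff_cj.2 e⟩))
  obtain ⟨-, h7⟩ := (h2 r⁻¹ (R.inv_mem hr)).resolve_left fun e => hr2 (by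
    have := mem_bot.1 (r0.le ⟨R.inv_mem hr, mem_normalizer_iff_cj.2 e⟩)
    rw [inv_eq_one.1 this, one_pow])
  have e1 : Commute r (w * r * w⁻¹) := comm_of_mem_centralizer (h6 (conj_mem_cj hr)) hr
  have e2 : Commute w⁻¹ (r⁻¹ * w * r⁻¹⁻¹) := comm_of_mem_centralizer (h7 (conj_mem_cj hw)) (T.inv_mem hw)
  have e3 : (r⁻¹ * (w * r * w⁻¹)) ^ 2 = 1 := by
    rw [show r⁻¹ * (w * r * w⁻¹) = r⁻¹ * w * r⁻¹⁻¹ * w⁻¹ by group, e2.symm.mul_pow, conj_pow, inv_pow, hw2]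
    simp
  rw [e1.inv_left.mul_pow, inv_pow, inv_mul_eq_one, conj_pow] at e3
  exact hr2 (mem_bot.1 (h5.le ⟨e3 ▸ conj_mem_cj (pow_mem hr 2), pow_mem hr 2⟩))

theorem ti_comm {P : Subgroup G} (hP : IsPGroup 2 P) (Δ : Set (Subgroup G)) (hle : ∀ R ∈ Δ, R ≤ P)
    (hinv : ∀ s ∈ P, ∀ R ∈ Δ, cj s R ∈ Δ) (hΦ : ∀ R ∈ Δ, ∃ r ∈ R, r ^ 2 ≠ 1)
    (hord : ∀ R ∈ Δ, ∀ T ∈ Δ, Nat.card R = Nat.card T) (hti : ∀ R ∈ Δ, ∀ T ∈ Δ, R = T ∨ R ⊓ T = ⊥) :
    ∀ R ∈ Δ, ∀ T ∈ Δ, R ≠ T → ⁅R, T⁆ = ⊥ := by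
  haveI : Fact (Nat.Prime 2) := ⟨Nat.prime_two⟩
  suffices h : ∀ n : ℕ, ∀ R ∈ Δ, ∀ T ∈ Δ, R ≠ T → Nat.card (R ⊔ T : Subgroup G) < n → ⁅R, T⁆ = ⊥ from
    fun R hR T hT hne => h _ R hR T hT hne (Nat.lt_succ_self _)
  intro n
  induction n with
  | zero => intro _ _ _ _ _ h; omega
  | succ n ih =>
    have key : ∀ R ∈ Δ, ∀ T ∈ Δ, R ≠ T → Nat.card (R ⊔ T : Subgroup G) < n + 1 →
        ∀ t ∈ T, cj t R = R ∨ (cj t R ⊓ R = ⊥ ∧ cj t R ≤ centralizer (R : Set G)) := fun R hR T hT hne hc t ht => by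
      refine or_iff_not_imp_left.2 fun h => ?_
      have h1 := hinv t (hle T hT ht) R hR
      refine ⟨(hti _ h1 _ hR).resolve_left h, commutator_eq_bot_iff_le_centralizer.1 (ih _ h1 _ hR h ?_)⟩
      obtain ⟨N, h2, h3, h4⟩ := (sn_of_nilpotent (hP.to_le (sup_le (hle R hR) (hle T hT))).isNilpotent
        (le_sup_left : R ≤ R ⊔ T)).exists_lt_normal fun e =>
          hne (eq_of_le_of_card_ge (le_sup_right.trans e.ge) (hord R hR T hT).le).symm
      have h5 : cj t R ⊔ R ≤ N := sup_le ((cj_mono t h2.le).trans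
        (mem_normalizer_iff_cj.1 (h4 (mem_sup_right ht))).le) h2.le
      have := card_le_of_le h5
      have h6 : Nat.card N < Nat.card (R ⊔ T : Subgroup G) :=
        lt_of_le_of_ne (card_le_of_le h3.le) fun e => h3.ne (eq_of_le_of_card_ge h3.le e.ge)
      omega
    intro R hR T hT hne hc
    exact pair (hP.to_le (hle R hR)) (hP.to_le (hle T hT)) ((hti R hR T hT).resolve_left hne) (hord R hR T hT)
      (hΦ R hR) (key R hR T hT hne hc) (key T hT R hR hne.symm (by rwa [sup_comm]))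

theorem mem_pCore {p : ℕ} [hp : Fact p.Prime] (h : centralizer (pCore p G : Set G) ≤ pCore p G) {g : G}
    (hg : ∀ x ∈ pCore p G, g * x * g⁻¹ * x⁻¹ ∈ L.Phi (pCore p G)) : g ∈ pCore p G := by
  have : (L.Phi (pCore p G)).Normal :=
    normalizer_eq_top_iff.1 (top_le_iff.1 (L.normalizer_Phi le_normalizer_of_normal))
  let f := QuotientGroup.mk' (L.Phi (pCore p G))
  have := Normal.map (inferInstance : (pCore p G).Normal) f (QuotientGroup.mk'_surjective _)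
  have key : ∀ X : Subgroup G, X ≤ (centralizer ((pCore p G).map f : Set _)).comap f ↔
      ⁅X, pCore p G⁆ ≤ L.Phi (pCore p G) := fun X => by
    rw [← map_le_iff_le_comap, ← commutator_eq_bot_iff_le_centralizer, ← map_commutator,
      Subgroup.map_eq_bot_iff, QuotientGroup.ker_mk']
  refine H1.le_pCore (N := (centralizer ((pCore p G).map f : Set _)).comap f)
    (H1.isPGroup_iff_isPiNum.2 fun q hq h1 => by_contra fun h2 => ?_) ((key (zpowers g)).2 ?_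
      (mem_zpowers g))
  · obtain ⟨x, h3, h4⟩ := H1.exists_mem_orderOf_eq_prime hq h1
    have h5 := h (H1.le_centralizer_of_frattini le_normalizer_of_normal (by
      rw [Nat.card_zpowers, h4]
      exact (H1.isPGroup_coprime (H1.pCore_isPGroup.to_subgroup _)
        ((Nat.coprime_primes hq hp.out).2 h2)).symm)
      ((commutator_comm_le _ _).trans ((key _).1 (zpowers_le.2 h3))) (mem_zpowers x))
    obtain ⟨k, hk⟩ := H1.exists_orderOf_eq_pow H1.pCore_isPGroup h5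
    exact h2 ((Nat.prime_dvd_prime_iff_eq hq hp.out).1 (hq.dvd_of_dvd_pow (hk ▸ h4.symm.dvd)))
  · rw [zpowers_eq_closure]
    exact L.commutator_closure_le (fun _ _ => le_normalizer_of_normal (mem_top _))
      (by rintro _ rfl; exact hg)

end H2T
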