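import Cfsg.Agent.H2.Fus30
import Cfsg.Agent.H1.Amb
import Cfsg.Agent.H1.Gaschutz
import Cfsg.Agent.S0111

/-! H2.Two: simplicity of 2-fusion systems over dihedral, semidihedral and wreathed groups. -/

open Cfsg Subgroup H1

namespace H2

universe u
variable {G : Type u} [Group G] [Finite G]

theorem simple_of_surj {p : ℕ} [Fact p.Prime] {X : Type*} [Group X] [Finite X] (f : X →* G) (hf : Function.Surjective f)
    (hk : (Nat.card f.ker).Coprime p) (S₀ : Sylow p X) (h : (groupFusionSystem (S₀ : Subgroup X)).IsSimple p)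
    (S : Sylow p G) : (groupFusionSystem (S : Subgroup G)).IsSimple p := by
  have k := (H2.isSylowIn_top S₀).map f
  rw [← MonoidHom.range_eq_map, MonoidHom.range_eq_top.2 hf] at k
  obtain ⟨θ, e, -⟩ := Iso.exists_symm ⟨surjM_group (H2.isSylowIn_top S₀) f hf, (injective_iff_map_eq_one _).2 fun x hx =>
    Subtype.ext (mem_bot.1 ((H9.inf_eq_bot_of_p_p' S₀.2 hk).le ⟨x.2, hx⟩))⟩
  exact simple_of_equiv (MulEquiv.refl G) k (e.simple (sat_group' k) h) S

theorem no_two_of_surj {X : Type*} [Group X] [Finite X] (f : X →* G) (hf : Function.Surjective f)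
    (hk : (Nat.card f.ker).Coprime 2) (h : ∀ H : Subgroup G, H.index ≠ 2) (H : Subgroup X) : H.index ≠ 2 := fun e => by
  refine h (H.map f) ?_
  rw [index_map, MonoidHom.range_eq_top.2 hf, index_top, mul_one, sup_eq_left.2 fun x hx => L.mem_of_pow_mem
    (sq_mem_of_index_two e x) (Nat.Coprime.coprime_dvd_left (orderOf_dvd_natCard _ hx) hk), e]

theorem no_two_of_simple [IsSimpleGroup G] (h : 4 ∣ Nat.card G) (H : Subgroup G) : H.index ≠ 2 := fun e => by
  rcases (normal_of_index_eq_two e).eq_bot_or_eq_top with rfl | rfl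
  · rw [index_bot] at e; omega
  · simp at e

theorem le_of_cyc (S : Sylow 2 G) (hG : ∀ H : Subgroup G, H.index ≠ 2) {T : Subgroup G}
    (sc : ∀ x ∈ T, ∀ g, g * x * g⁻¹ ∈ (S : Subgroup G) → g * x * g⁻¹ ∈ T) (hT : T ≤ S) {a : G} (ha : a ∈ (S : Subgroup G))
    (h : (S : Subgroup G) ≤ T ⊔ zpowers a) : (S : Subgroup G) ≤ T := by
  have hn : (S : Subgroup G) ≤ normalizer (T : Set G) := fun s hs => mem_normalizer_iff_conj_mem.2 fun x hx =>
    sc x hx s (mul_mem (mul_mem hs (hT hx)) (inv_mem hs))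
  have := hyperfocal_rel (H2.isSylowIn_top S) hn fun R hR g _ hg ho x hx => ?_
  · rwa [H2.Op_top, le_pResidual_of_no_index hG, inf_top_eq] at this
  replace hR := hR.trans inf_le_left
  haveI := normal_subgroupOf_of_le_normalizer hn
  obtain ⟨⟨_, r, hr, rfl⟩, h1⟩ := (isCyclic_map_of_le_sup_zpowers (QuotientGroup.mk' (T.subgroupOf S))
    (T := R.subgroupOf S) (g := ⟨a, ha⟩) fun s _ => by
      rw [QuotientGroup.ker_mk', ← mem_map_iff_mem (subtype_injective _), Subgroup.map_sup, MonoidHom.map_zpowers,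
        subgroupOf_map_subtype, inf_eq_left.2 hT]
      exact h s.2).exists_generator
  have h2 : normalizer (R : Set G) ≤ normalizer ((R ⊓ T : Subgroup G) : Set G) := fun n hn =>
    mem_normalizer_iff_conj_mem.2 fun y hy =>
      ⟨conj_mem_of_mem_normalizer hn hy.1, sc y hy.2 n (hR (conj_mem_of_mem_normalizer hn hy.1))⟩
  haveI := normal_subgroupOf_of_le_normalizer h2
  let f := QuotientGroup.mk' ((R ⊓ T).subgroupOf (normalizer (R : Set G)))
  have h3 := cent_of_isCyclic_two (Q := (R.subgroupOf (normalizer (R : Set G))).map f)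
    (((S.2.to_le hR).comap_of_injective _ (subtype_injective _)).map f)
    (isCyclic_map_of_le_sup_zpowers f (g := ⟨r, le_normalizer hr⟩) fun y hy => by
      obtain ⟨k, hk⟩ := h1 ⟨_, ⟨y, hR hy⟩, hy, rfl⟩
      have e : ((r ^ k)⁻¹ * ⟨y, hR hy⟩ : S) ∈ T.subgroupOf S := QuotientGroup.eq.1 (by
        simpa using congrArg Subtype.val hk)
      rw [← mul_inv_cancel_left (⟨r, le_normalizer hr⟩ ^ k) y, sup_comm]
      refine mul_mem (mem_sup_left ⟨k, rfl⟩) (mem_sup_right ?_)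
      rw [QuotientGroup.ker_mk']
      exact mem_inf.2 ⟨mul_mem (inv_mem (zpow_mem (show (r : G) ∈ R from hr) k)) hy, e⟩) (g := f ⟨g, hg⟩)
    (by rw [normalizer_eq_top_iff.2 (Normal.map inferInstance f (QuotientGroup.mk'_surjective _))]; trivial)
    (Nat.Coprime.coprime_dvd_left (orderOf_map_dvd f _) (by rwa [orderOf_mk]))
  have h4 := h3 _ ⟨⟨x, le_normalizer hx⟩, hx, rfl⟩
  rw [eq_comm, ← mul_inv_eq_one, ← map_mul, ← map_mul, ← map_inv, ← map_mul, QuotientGroup.mk'_apply,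
    QuotientGroup.eq_one_iff] at h4
  simpa [mul_assoc] using h4.2

theorem norm_le_of_not_od (S : Sylow 2 G) (h : ¬ Od (S : Subgroup G)) {K : Subgroup G} (h1 : (S : Subgroup G) ≤ K)
    (h2 : centralizer ((S : Subgroup G) : Set G) ≤ K) : normalizer ((S : Subgroup G) : Set G) ≤ K := fun g hg => by
  obtain ⟨u, hu, c, hc, rfl⟩ := exists_sylow_mul_centralizer (H := ⊤) (S := S) (Q := S)
    ((H2.isSylowIn_top S).of_le (le_inf le_top le_normalizer) le_top)
    (fun g _ a b => by_contra fun c => h ⟨g, a, b, c⟩) ⟨trivial, hg⟩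
  exact mul_mem (h1 hu) (h2 hc.2)

theorem mem_of_conj {S T : Subgroup G} (sc : ∀ x ∈ T, ∀ g, g * x * g⁻¹ ∈ S → g * x * g⁻¹ ∈ T) {x y : G}
    (hx : x ∈ T) (hy : y ∈ S) (h : IsConj x y) : y ∈ T := by
  obtain ⟨g, rfl⟩ := _root_.isConj_iff.1 h
  exact sc x hx g hy

theorem mc_conj' {S : Sylow 2 G} {n : ℕ} {a b x : G} (h : MC (S : Subgroup G) n a b) (hG : ∀ H : Subgroup G, H.index ≠ 2)
    (hx : orderOf x = 2) (hS : x ∈ (S : Subgroup G)) : IsConj x (a ^ 2 ^ n) := by
  by_cases d : x ∈ zpowers a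
  · rw [h.eq_z d hx]
  obtain ⟨M, -, e, -⟩ | ⟨g, e⟩ := Cfsg.Agent.S0111.result S _ h.le h.idx _ hx hS d
  · exact absurd e (hG M)
  · exact _root_.isConj_iff.2 ⟨g, h.eq_z e ((H1.orderOf_conj g x).trans hx)⟩

theorem simple_mc (S : Sylow 2 G) {n : ℕ} {a b : G} (h : MC (S : Subgroup G) n a b) (hb : b ^ 2 = 1)
    (hG : ∀ H : Subgroup G, H.index ≠ 2) : (groupFusionSystem (S : Subgroup G)).IsSimple 2 := by
  have b1 : b ≠ 1 := fun e => h.nb (e ▸ one_mem _)
  have ob := orderOf_eq_prime hb b1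
  refine simple_group_of (H2.isSylowIn_top S) (fun e => b1 (mem_bot.1 (e ▸ h.hb))) (fun T hT z hz z1 z2 _ sc => ?_)
    fun K h1 h2 _ => norm_le_of_not_od S (fun o => ?_) h1 h2
  · exact le_of_cyc S hG sc hT h.ha (h.le_of_mem (mem_sup_right (mem_zpowers a)) h.hb h.nb (mem_sup_left
      (mem_of_conj sc hz h.hb ((mc_conj' h hG (orderOf_eq_prime z2 z1) (hT hz)).trans (mc_conj' h hG ob h.hb).symm))))
  rcases h.od_cases le_rfl o with k | k
  · have := h.card.symm.trans k.card_four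
    have := Nat.pow_le_pow_right (n := 2) two_pos (show 3 ≤ n + 2 by have := h.pos; omega)
    omega
  · exact h.nb (k.eq_z h.hb ob ▸ MC.z_mem)

theorem simple_wr (S : Sylow 2 G) {n : ℕ} {x y z : G} (h : WR (S : Subgroup G) n x y z)
    (hG : ∀ H : Subgroup G, H.index ≠ 2) : (groupFusionSystem (S : Subgroup G)).IsSimple 2 := by
  have z1 : z ≠ 1 := fun e => h.z_out (e ▸ one_mem _)
  refine simple_group_of (H2.isSylowIn_top S) (fun e => z1 (mem_bot.1 (e ▸ h.hz))) (fun T hT t ht t1 t2 _ sc => ?_)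
    fun K h1 h2 _ => norm_le_of_not_od S (fun o => ?_) h1 h2
  · have hz := mem_of_conj sc ht h.hz ((h.all_conj hG t (orderOf_eq_prime t2 t1)).trans
      (h.all_conj hG z (orderOf_eq_prime ((sq z).trans h.zz) z1)).symm)
    have hx : x ∈ T ⊔ zpowers x := mem_sup_right (mem_zpowers x)
    have hd := h.D_le_of_norm (fun s hs => mem_normalizer_iff_conj_mem.2 fun x hx =>
      sc x hx s (mul_mem (mul_mem hs (hT hx)) (inv_mem hs))) h.hz h.z_out hz (mem_zpowers _)
    refine le_of_cyc S hG sc hT h.hx (h.le_of_mem (sup_le le_sup_right (zpowers_le.2 ?_)) h.hz h.z_out (mem_sup_left hz))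
    simpa using mul_mem (inv_mem (mem_sup_left hd)) hx
  rcases h.od_cases le_rfl inf_le_left o with k | ⟨Q, hQ, k, e⟩
  · exact h.z_out (k ▸ h.hz)
  have h3 := H1.card_sup_mul_card_inf (hQ.trans (h.le_cent_Z.trans (centralizer_le_normalizer _)))
  obtain ⟨c, h4⟩ : 2 ∣ Nat.card (Q ⊓ zpowers (x * y) : Subgroup G) :=
    k.oz ▸ orderOf_dvd_natCard _ (mem_inf.2 ⟨k.mem, pow_mem (mem_zpowers _) _⟩)
  have h5 : 0 < c := Nat.pos_of_mul_pos_left (h4 ▸ Nat.card_pos) 
  rw [← e, h.card, k.card, Nat.card_zpowers, h.oc, h4, show 8 = 2 ^ 3 from rfl, ← pow_add, ← mul_assoc, ← pow_succ] at h3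
  have := (Nat.pow_le_pow_iff_right one_lt_two).1 ((Nat.le_mul_of_pos_right _ h5).trans h3.le)
  have := h.two
  omega

theorem exists_mc {n u : ℕ} {a b : G} (hn : 1 ≤ n) (ha : orderOf a = 2 ^ (n + 1)) (hb : b ^ 2 = 1) (h : b ∉ zpowers a)
    (d : L.DQS n a b) (hG : Nat.card G = 2 ^ (n + 2) * u) (hu : ¬ 2 ∣ u) : ∃ S : Sylow 2 G, MC (S : Subgroup G) n a b := by
  obtain ⟨w, hw, -⟩ := d.conj
  obtain ⟨S, hS⟩ := ((IsPGroup.of_card (p := 2) (n := 1) ((Nat.card_zpowers b).trans (orderOf_eq_prime (p := 2) hb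
    fun e => h (e ▸ one_mem _)))).to_sup_of_normal_right' (IsPGroup.of_card ((Nat.card_zpowers a).trans ha))
      (zpowers_le.2 (L.mem_normalizer_zpowers hw))).exists_le_sylow
  have h1 : a ∈ (S : Subgroup G) := hS (mem_sup_right (mem_zpowers a))
  refine ⟨S, h1, hS (mem_sup_left (mem_zpowers b)), ha, h, ?_, hn, d⟩
  have := H1.card_inf_mul_relIndex (zpowers a) S
  rw [inf_eq_left.2 (zpowers_le.2 h1), Nat.card_zpowers, ha, S.card_eq_multiplicity, hG,
    Nat.factorization_mul (by positivity) (by rintro rfl; simp at hu), Finsupp.add_apply, Nat.Prime.factorization_pow Nat.prime_two,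
    Nat.factorization_eq_zero_of_not_dvd hu, Finsupp.single_eq_same, add_zero, pow_succ 2 (n + 1)] at this
  exact Nat.eq_of_mul_eq_mul_left (by positivity) this

theorem exists_wr {n u : ℕ} {x y z : G} (hn : 2 ≤ n) (hx : orderOf x = 2 ^ n) (c : Commute x y)
    (d : zpowers x ⊓ zpowers y = ⊥) (zz : z * z = 1) (e : z * x * z⁻¹ = y)
    (hG : Nat.card G = 2 ^ (2 * n + 1) * u) (hu : ¬ 2 ∣ u) : ∃ S : Sylow 2 G, WR (S : Subgroup G) n x y z := by
  have e' : z * y * z⁻¹ = x := by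
    rw [← e, show z * (z * x * z⁻¹) * z⁻¹ = (z * z) * x * (z * z)⁻¹ by group, zz]; simp
  have h1 : IsPGroup 2 (zpowers x) := IsPGroup.of_card ((Nat.card_zpowers x).trans hx)
  have h2 : IsPGroup 2 (zpowers y) := IsPGroup.of_card ((Nat.card_zpowers y).trans (e ▸ (H1.orderOf_conj z x).trans hx))
  have h3 : IsPGroup 2 (zpowers z) := by
    obtain ⟨k, -, hk⟩ := (Nat.dvd_prime_pow (m := 1) Nat.prime_two).1 (orderOf_dvd_of_pow_eq_one ((sq z).trans zz))
    exact IsPGroup.of_card ((Nat.card_zpowers z).trans hk)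
  obtain ⟨S, hS⟩ := (h3.to_sup_of_normal_right' (h1.to_sup_of_normal_right' h2 (zpowers_le.2
    (L.commute_mem_normalizer c))) (zpowers_le.2 (H9.mem_normalizer_iff_cj.2 (by
      rw [H9.cj_sup, H9.cj_zpowers, H9.cj_zpowers, e, e', sup_comm])))).exists_le_sylow
  refine ⟨S, hS (mem_sup_right (mem_sup_left (mem_zpowers x))), hS (mem_sup_left (mem_zpowers z)), hn, ?_, hx, c, d, zz, e⟩
  rw [S.card_eq_multiplicity, hG,
    Nat.factorization_mul (by positivity) (by rintro rfl; simp at hu), Finsupp.add_apply, Nat.Prime.factorization_pow Nat.prime_two,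
    Nat.factorization_eq_zero_of_not_dvd hu, Finsupp.single_eq_same, add_zero]

end H2
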