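import Cfsg.Agent.H2.XS2
import Cfsg.Agent.H2.Fus13
import Cfsg.Agent.H2.Fus11
import Cfsg.Agent.H2.Frobenius

/-! H2.XS4: large extraspecial subgroups and subgroups of index two. -/

open Subgroup
open scoped commutatorElement

namespace H2

variable {G : Type*} [Group G] [Finite G] {E M K : Subgroup G} {z t : G}

theorem idx2 (h : M ≤ E) (hM : ∀ a ∈ E, ∀ b ∈ E, a ∉ M → b ∉ M → a * b ∈ M) :
    Nat.card E ≤ 2 * Nat.card M := by
  by_cases k : E ≤ M
  · have := card_le_of_le k; omega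
  · obtain ⟨w, hw, n⟩ := SetLike.not_le_iff_exists.1 k
    have := relIndex_eq_two_iff_exists_notMem_and.2
      ⟨w, hw, n, fun b hb => (em (b ∈ M)).symm.imp_left fun k => hM b hb w hw k n⟩
    rw [← card_mul_relIndex h, this]; omega

theorem XS.small (h : XS E z) (hM : M ≤ E) (h2 : ∀ a ∈ E, ∀ b ∈ E, a ∉ M → b ∉ M → a * b ∈ M)
    (ab : ∀ a ∈ M, ∀ b ∈ M, a * b = b * a) : Nat.card E ≤ 8 := by
  obtain ⟨x, hx, n⟩ : ∃ x ∈ E, x ∉ M := by
    by_contra k
    push Not at k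
    obtain ⟨a, ha, b, hb, n⟩ := h.nab
    exact n (ab a (k a ha) b (k b hb))
  have h1 := idx2 hM h2
  have h3 := idx2 (M := M ⊓ centralizer {x}) (E := M) inf_le_left fun a ha b hb c d =>
    ⟨M.mul_mem ha hb, mem_centralizer_singleton_iff.2 ((h.comm_mul_iff' hx (hM ha) (hM hb)).2
      (iff_of_false (fun e => c ⟨ha, mem_centralizer_singleton_iff.2 e⟩)
        fun e => d ⟨hb, mem_centralizer_singleton_iff.2 e⟩))⟩
  have h4 : M ⊓ centralizer {x} ≤ zpowers z := fun c hc => (mem_zp2 h.z2).2 (h.cen c (hM hc.1) fun y hy => by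
    by_cases k : y ∈ M
    · exact ab c hc.1 y k
    · have := ab c hc.1 _ (h2 x hx y hy n k)
      rw [← mul_assoc, mem_centralizer_singleton_iff.1 hc.2, mul_assoc, mul_assoc] at this
      exact mul_left_cancel this)
  have := card_le_of_le h4
  rw [Nat.card_zpowers, h.ord] at this
  omega

theorem XS.cent_nab (h : XS E z) (c : 8 < Nat.card E) (ht : t ∈ E) :
    ∃ a ∈ E, ∃ b ∈ E, a * t = t * a ∧ b * t = t * b ∧ a * b * a⁻¹ * b⁻¹ = z := by
  by_contra k
  push Not at k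
  refine c.not_ge (h.small (M := E ⊓ centralizer {t}) inf_le_left (fun a ha b hb c d =>
    ⟨E.mul_mem ha hb, mem_centralizer_singleton_iff.2 ((h.comm_mul_iff' ht ha hb).2
      (iff_of_false (fun e => c ⟨ha, mem_centralizer_singleton_iff.2 e⟩)
        fun e => d ⟨hb, mem_centralizer_singleton_iff.2 e⟩))⟩) fun a ha b hb => ?_)
  by_contra n
  refine k a ha.1 b hb.1 (mem_centralizer_singleton_iff.1 ha.2) (mem_centralizer_singleton_iff.1 hb.2) ?_
  rw [h.conj ha.1 hb.1 n, h.zc b hb.1, mul_inv_cancel_right]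

theorem XS.exists_inv (h : XS E z) (c : 8 < Nat.card E)
    (h2 : ∀ a ∈ E, ∀ b ∈ E, a ∉ K → b ∉ K → a * b ∈ K) (n : ¬ E ≤ K) : ∃ t ∈ E, t ∉ K ∧ t * t = 1 := by
  by_contra k
  push Not at k
  obtain ⟨x, hx, n⟩ := SetLike.not_le_iff_exists.1 n
  have sq : ∀ y ∈ E, y ∉ K → y * y = z := fun y hy m => (h.sq y hy).resolve_left (k y hy m)
  have e1 : ∀ a ∈ E, a ∈ K → a * x * a = x := fun a ha m => by
    have := sq _ (E.mul_mem ha hx) fun l => n ((K.mul_mem_cancel_left m).1 l)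
    rw [← sq x hx n, ← mul_assoc] at this
    exact mul_right_cancel this
  refine c.not_ge (h.small (M := E ⊓ K) inf_le_left (fun a ha b hb c d =>
    ⟨E.mul_mem ha hb, h2 a ha b hb (fun e => c ⟨ha, e⟩) fun e => d ⟨hb, e⟩⟩) fun a ha b hb => ?_)
  have := e1 _ (E.mul_mem ha.1 hb.1) (K.mul_mem ha.2 hb.2)
  have e : a * b * x * (b * a) = x := by
    calc _ = a * (b * x * b) * a := by group
      _ = x := by rw [e1 b hb.1 hb.2, e1 a ha.1 ha.2]
  exact mul_left_cancel (this.trans e.symm)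

theorem LX.exists_sylow (h : LX E z) : ∃ S : Sylow 2 G, E ≤ S ∧ (S : Subgroup G) ≤ centralizer {z} := by
  haveI := Fact.mk Nat.prime_two
  obtain ⟨S, hS⟩ := h.p.exists_le_sylow
  refine ⟨S, hS, ?_⟩
  obtain ⟨⟨c, hc⟩, c1⟩ := ne_bot_iff_exists_ne_one.1 (center_ne_bot S.isPGroup'
    fun e => h.z1 (by simpa [e] using hS h.zQ))
  have : c ∈ zpowers z := h.centralizer_eq ▸ centralizer_le hS hc.2
  obtain rfl := ((mem_zp2 h.z2).1 this).resolve_left fun e => c1 (Subtype.ext e)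
  exact fun x hx => mem_centralizer_singleton_iff.2 (hc.2 x hx)

theorem thompson_ext (hres : Cfsg.pResidual 2 G = ⊤) (S : Sylow 2 G) (hM : M.relIndex S = 2)
    (ht : t ∈ (S : Subgroup G)) (o : orderOf t = 2) :
    ∃ g, g * t * g⁻¹ ∈ M ∧ cj g ((S : Subgroup G) ⊓ centralizer {t}) ≤ S := by
  haveI := Fact.mk Nat.prime_two
  have hS := isSylowIn_top S
  by_contra k
  push Not at k
  refine (sat_sub (hSH := le_top) hS).thompson_transfer hM ht o ?_ (by
    have c := (Nat.Prime.coprime_iff_not_dvd Nat.prime_two).2 hS.not_dvd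
    have pw : ∀ x ∈ (S : Subgroup G), ∃ k, x ^ 2 ^ k ∈ foc (S : Subgroup G) ⊤ := fun x hx => by
      obtain ⟨k, hk⟩ := S.isPGroup' ⟨x, hx⟩
      exact ⟨k, by rw [show x ^ 2 ^ k = 1 from congrArg Subtype.val hk]; exact one_mem _⟩
    rw [focal_sub' hS, inf_commutator_eq_foc le_top c.symm pw, ← inf_Op_sup_commutator_eq_foc le_top c.symm pw,
      Op_top, hres]
    exact ⟨ht, mem_sup_left trivial⟩)
  rintro j ⟨φ, ⟨-, hφ, g, -, hg⟩, rfl⟩ hj hjM
  have jS := hφ ⟨t, mem_zpowers t⟩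
  rw [hg] at hj hjM jS
  have h1 := (fc_sub_iff hS (zpowers_le.2 jS)).1 hj
  rw [H9.centralizer_zpowers, top_inf_eq] at h1
  have h2 : cj g ((S : Subgroup G) ⊓ centralizer {t}) ≤ centralizer {g * t * g⁻¹} := by
    rw [← cj_centralizer_singleton]; exact cj_mono g inf_le_right
  obtain ⟨x, hx, h3⟩ := h1.exists_cj_le (isPGroup_cj S.isPGroup'.to_inf_left g) h2
  refine k (x * g) ?_ (by rw [cj_mul]; exact h3.trans inf_le_left)
  rwa [show x * g * t * (x * g)⁻¹ = x * (g * t * g⁻¹) * x⁻¹ by group,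
    mem_centralizer_singleton_iff.1 hx, mul_inv_cancel_right]

theorem LX.le_of_index_two (h : LX E z) (hres : Cfsg.pResidual 2 G = ⊤) (c : 8 < Nat.card E)
    (hK : K.relIndex (centralizer {z}) = 2) : E ≤ K := by
  have k2 : ∀ a b : G, a * z = z * a → b * z = z * b → (a * b ∈ K ↔ (a ∈ K ↔ b ∈ K)) := fun a b ha hb =>
    mul_mem_iff_of_index_two hK (a := ⟨a, mem_centralizer_singleton_iff.2 ha⟩)
      (b := ⟨b, mem_centralizer_singleton_iff.2 hb⟩)
  have kc : ∀ a b : G, a * z = z * a → b * z = z * b → a * b * a⁻¹ * b⁻¹ ∈ K := fun a b ha hb => by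
    have ab : Commute (a * b) z := Commute.mul_left ha hb
    rw [k2 _ _ (ab.mul_left (Commute.inv_left ha)) (Commute.inv_left hb), k2 _ _ ab (Commute.inv_left ha),
      k2 _ _ ha hb, inv_mem_iff, inv_mem_iff]
    tauto
  by_contra n
  obtain ⟨t, ht, tK, t2⟩ := h.exists_inv c (fun a ha b hb c d =>
    (k2 a b (h.zc a ha) (h.zc b hb)).2 (iff_of_false c d)) n
  obtain ⟨S, ES, SH⟩ := h.exists_sylow
  have zK : z ∈ K := by
    obtain ⟨a, ha, b, hb, -, -, e⟩ := h.cent_nab c ht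
    exact e ▸ kc a b (h.zc a ha) (h.zc b hb)
  obtain ⟨g, g1, g2⟩ := thompson_ext (M := K) hres S (relIndex_eq_two_iff_exists_notMem_and.2
    ⟨t, ES ht, tK, fun b hb => (em (b ∈ K)).symm.imp_left fun k =>
      (k2 b t (mem_centralizer_singleton_iff.1 (SH hb)) (h.zc t ht)).2 (iff_of_false k tK)⟩) (ES ht)
    (orderOf_eq_prime (by rw [pow_two, t2]) fun e => tK (by rw [e]; exact one_mem _))
  obtain ⟨r, hr⟩ : ∃ r, r = g⁻¹ * z * g := ⟨_, rfl⟩
  have cr : ∀ a ∈ E, a * t = t * a → r * a = a * r := fun a ha l => by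
    have := mem_centralizer_singleton_iff.1 (SH (g2 (conj_mem_cj.2 ⟨ES ha, mem_centralizer_singleton_iff.2 l⟩)))
    rw [hr]
    calc g⁻¹ * z * g * a = g⁻¹ * (z * (g * a * g⁻¹)) * g := by group
      _ = _ := by rw [← this]; group
  have rE : r ∈ E := h.mem_of_cent ht t2 (cr z h.zQ (h.zc t ht).symm) cr
  have gz : g * z ≠ z * g := fun e => tK (by
    have := (K.mul_mem_cancel_right (inv_mem g1)).1 (by
      simpa [mul_assoc] using kc t g (h.zc t ht) e : t * (g * t * g⁻¹)⁻¹ ∈ K)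
    exact this)
  have r1 : r ≠ 1 := fun e => h.z1 (by
    calc z = g * (g⁻¹ * z * g) * g⁻¹ := by group
      _ = 1 := by rw [← hr, e]; group)
  have rz : r ≠ z := fun e => gz (by
    calc g * z = g * (g⁻¹ * z * g) := by rw [← hr, e]
      _ = _ := by group)
  have rK : r ∈ K := by
    have h1 := h.sym (g := g⁻¹) (by rwa [inv_inv, ← hr])
    obtain ⟨a, ha, b, hb, a1, b1, e⟩ := (h.cj g⁻¹).cent_nab (by rwa [H9.card_cj]) h1
    rw [inv_inv, ← hr] at e
    exact e ▸ kc a b a1 b1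
  rcases h.dbl2 ht t2 rE (fun y hy l => (cr y hy l).symm) with e | e | e | e
  · exact r1 e
  · exact rz e
  · exact tK (e ▸ rK)
  · exact tK ((K.mul_mem_cancel_left zK).1 (e ▸ rK))

end H2
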